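import Mathlib
import Cfsg.Agent.Lib.H99.Cyclic
import Cfsg.Agent.Lib.H99.Blk
import Cfsg.Agent.Lib.H99.RElt
import Cfsg.Agent.Lib.H99.Elts

set_option autoImplicit false
set_option maxHeartbeats 400000

/-! Invariant subspaces of linear maps of prime order: block structure. -/

namespace H85.PrimeSub

open Module Polynomial Submodule

universe u v

variable {F : Type u} [Field F]

section blk
variable {V : Type v} [AddCommGroup V] [Module F V] {m : ℕ} {d : Fin m → ℕ}

/-- span of the blocks in `J` -/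
def blk (b : Basis (Σ i : Fin m, Fin (d i)) F V) (J : Finset (Fin m)) : Submodule F V := span F (b '' {x | x.1 ∈ J})

theorem finrank_blk (b : Basis (Σ i : Fin m, Fin (d i)) F V) (J : Finset (Fin m)) :
    finrank F (blk b J) = ∑ j ∈ J, d j := by
  classical
  have h1 : LinearIndependent F (fun x : {x : (Σ i : Fin m, Fin (d i)) // x.1 ∈ J} => b x) :=
    b.linearIndependent.comp _ Subtype.val_injective
  have h2 := finrank_span_eq_card h1
  have h3 : (b '' {x | x.1 ∈ J}) = Set.range (fun x : {x : (Σ i : Fin m, Fin (d i)) // x.1 ∈ J} => b x) := by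
    ext y; constructor
    · rintro ⟨x, hx, rfl⟩; exact ⟨⟨x, hx⟩, rfl⟩
    · rintro ⟨x, rfl⟩; exact ⟨x.1, x.2, rfl⟩
  rw [blk, h3, h2, Fintype.card_subtype]
  have h4 : (Finset.univ.filter (fun x : (Σ i : Fin m, Fin (d i)) => x.1 ∈ J)) = J.sigma (fun i => (Finset.univ : Finset (Fin (d i)))) := by
    ext ⟨i, j⟩
    simp
  rw [h4, Finset.card_sigma]
  simp

theorem blk_mono (b : Basis (Σ i : Fin m, Fin (d i)) F V) {J J' : Finset (Fin m)} (h : J ⊆ J') : blk b J ≤ blk b J' :=
  span_mono (Set.image_mono fun _ hx => h hx)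

theorem isCompl_blk (b : Basis (Σ i : Fin m, Fin (d i)) F V) (J : Finset (Fin m)) : IsCompl (blk b J) (blk b Jᶜ) := by
  constructor
  · apply b.linearIndependent.disjoint_span_image
    rw [Set.disjoint_left]
    intro x hx hx'
    exact (Finset.mem_compl.1 hx') hx
  · rw [codisjoint_iff, eq_top_iff, ← b.span_eq, span_le]
    rintro _ ⟨x, rfl⟩
    by_cases hx : x.1 ∈ J
    · exact (le_sup_left : blk b J ≤ _) (subset_span ⟨x, hx, rfl⟩)
    · exact (le_sup_right : blk b Jᶜ ≤ _) (subset_span ⟨x, Finset.mem_compl.2 hx, rfl⟩)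

theorem blk_inv (b : Basis (Σ i : Fin m, Fin (d i)) F V) (T : V →ₗ[F] V)
    (hT : ∀ x : (Σ i : Fin m, Fin (d i)), T (b x) ∈ span F (b '' {y | y.1 = x.1})) (J : Finset (Fin m)) :
    (blk b J).map T ≤ blk b J := by
  rw [blk, map_span, span_le]
  rintro _ ⟨_, ⟨x, hx, rfl⟩, rfl⟩
  refine span_mono (Set.image_mono ?_) (hT x)
  intro y hy
  show y.1 ∈ J
  rw [show y.1 = x.1 from hy]
  exact hx

end blk

/-- block structure with sizes in a given set -/
theorem exists_blocks {V : Type v} [AddCommGroup V] [Module F V] [FiniteDimensional F V] (T : V →ₗ[F] V) (g : F[X])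
    (hg : aeval T g = 0) (P : ℕ → Prop)
    (hP : ∀ (p : F[X]) (e : ℕ), Irreducible p → p.Monic → 0 < e → p ^ e ∣ g → P (p ^ e).natDegree) :
    ∃ (m : ℕ) (d : Fin m → ℕ) (b : Basis (Σ i : Fin m, Fin (d i)) F V),
      (∀ i, P (d i)) ∧ (∑ i, d i = finrank F V) ∧
      ∀ x : (Σ i : Fin m, Fin (d i)), T (b x) ∈ span F (b '' {y | y.1 = x.1}) := by
  obtain ⟨m, f, D, hf⟩ := H99.Cyclic.exists_cyclic_basis T
  refine ⟨m, fun i => (f i).natDegree, D.b, ?_, ?_, ?_⟩
  · intro i
    obtain ⟨p, e, hp, hpm, he, hpe⟩ := hf i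
    show P (f i).natDegree
    have h1 := D.dvd_of_aeval i g hg
    rw [hpe] at h1 ⊢
    exact hP p e hp hpm he h1
  · rw [finrank_eq_card_basis D.b, Fintype.card_sigma]
    simp
  · rintro ⟨i, j⟩
    rw [D.apply_b]
    split_ifs with h
    · exact subset_span ⟨⟨i, ⟨j + 1, h⟩⟩, rfl, rfl⟩
    · apply neg_mem
      apply sum_mem
      intro k _
      exact smul_mem _ _ (subset_span ⟨⟨i, k⟩, rfl, rfl⟩)

/-- `T ^ r = 1`, `r` prime to the characteristic and not dividing `q - 1` -/
theorem blocks_ne [Fintype F] {p : ℕ} [Fact p.Prime] [CharP F p] {r : ℕ} (hr : r.Prime) (hrp : r ≠ p)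
    {V : Type v} [AddCommGroup V] [Module F V] [FiniteDimensional F V] (T : V →ₗ[F] V) (hT : T ^ r = 1) :
    ∃ (m : ℕ) (d : Fin m → ℕ) (b : Basis (Σ i : Fin m, Fin (d i)) F V),
      (∀ i, d i = 1 ∨ d i = orderOf ((Fintype.card F : ℕ) : ZMod r)) ∧ (∑ i, d i = finrank F V) ∧
      ∀ x : (Σ i : Fin m, Fin (d i)), T (b x) ∈ span F (b '' {y | y.1 = x.1}) := by
  have hp : p.Prime := Fact.out
  refine exists_blocks T (X ^ r - 1) (by rw [map_sub, map_pow, aeval_X, map_one, hT, sub_self])
    (fun k => k = 1 ∨ k = orderOf ((Fintype.card F : ℕ) : ZMod r)) ?_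
  intro g e hg hgm he hdvd
  have hsq := H99.Blk.squarefree_X_pow (F := F) r (H99.Blk.natCast_ne (p := p) hr hrp)
  have he1 : e = 1 := by
    by_contra hne
    have h2 : g * g ∣ X ^ r - 1 := by
      refine dvd_trans ?_ hdvd
      rw [← pow_two]
      exact pow_dvd_pow g (by omega)
    exact hg.not_isUnit (hsq g h2)
  subst he1
  rw [pow_one] at hdvd ⊢
  have : Fact r.Prime := ⟨hr⟩
  rw [← cyclotomic_prime_mul_X_sub_one F r] at hdvd
  rcases hg.prime.dvd_or_dvd hdvd with h | h
  · right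
    obtain ⟨f, hpf, hcardF⟩ := FiniteField.card F p
    have hcop : p.Coprime r := (Nat.coprime_primes hp hr).2 (Ne.symm hrp)
    rw [natDegree_of_dvd_cyclotomic_of_irreducible hcardF hcop h hg, ← orderOf_units, ZMod.coe_unitOfCoprime, hcardF]
  · left
    have h2 : Associated g (X - 1) := hg.associated_of_dvd (by simpa using irreducible_X_sub_C (1 : F)) h
    rw [natDegree_eq_of_degree_eq (degree_eq_degree_of_associated h2)]
    simpa using natDegree_X_sub_C (1 : F)

/-- `T ^ r = c`, `c` not an `r`-th power -/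
theorem blocks_not_pow {r : ℕ} (hr : r.Prime) {c : F} (hc : ∀ b : F, b ^ r ≠ c)
    {V : Type v} [AddCommGroup V] [Module F V] [FiniteDimensional F V] (T : V →ₗ[F] V) (hT : T ^ r = c • (1 : V →ₗ[F] V)) :
    ∃ (m : ℕ) (d : Fin m → ℕ) (b : Basis (Σ i : Fin m, Fin (d i)) F V),
      (∀ i, d i = r) ∧ (∑ i, d i = finrank F V) ∧
      ∀ x : (Σ i : Fin m, Fin (d i)), T (b x) ∈ span F (b '' {y | y.1 = x.1}) := by
  have hirr : Irreducible (X ^ r - C c : F[X]) := X_pow_sub_C_irreducible_of_prime hr hc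
  refine exists_blocks T (X ^ r - C c) (by
    rw [map_sub, map_pow, aeval_X, aeval_C, hT, Algebra.algebraMap_eq_smul_one, sub_self]) (fun k => k = r) ?_
  intro g e hg hgm he hdvd
  show (g ^ e).natDegree = r
  have h1 : ¬ IsUnit (g ^ e) := fun h => hg.not_isUnit (isUnit_of_dvd_unit (dvd_pow_self g he.ne') h)
  rcases (hirr.dvd_iff).1 hdvd with h | h
  · exact absurd h h1
  · rw [← natDegree_eq_of_degree_eq (degree_eq_degree_of_associated h), natDegree_X_pow_sub_C]

/-- a subset of the blocks with prescribed sizes -/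
theorem exists_sub {m : ℕ} (d : Fin m → ℕ) {s : ℕ} (hd : ∀ i, d i = 1 ∨ d i = s) (hs : 2 ≤ s) :
    ∃ k f : ℕ, ∑ i, d i = k * s + f ∧ (∀ a b a' b' : ℕ, b + b' ≤ k → a + a' ≤ f →
      ∃ J J' : Finset (Fin m), Disjoint J J' ∧ ∑ j ∈ J, d j = b * s + a ∧ ∑ j ∈ J', d j = b' * s + a') ∧
      ((∀ i, d i = 1) → k = 0) ∧ (k = 0 → ∀ i, d i = 1) := by
  classical
  set A := Finset.univ.filter (fun i => d i = s) with hA
  set B := Finset.univ.filter (fun i => d i = 1) with hB
  have hAs : ∀ i ∈ A, d i = s := fun i hi => (Finset.mem_filter.1 hi).2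
  have hBs : ∀ i ∈ B, d i = 1 := fun i hi => (Finset.mem_filter.1 hi).2
  have hAB : Disjoint A B := by
    rw [Finset.disjoint_left]
    intro i hi hi'
    have h1 := hAs i hi
    have h2 := hBs i hi'
    omega
  have hsumA : ∀ J ⊆ A, ∑ j ∈ J, d j = J.card * s := fun J hJ => by
    rw [Finset.sum_congr rfl (fun j hj => hAs j (hJ hj)), Finset.sum_const, smul_eq_mul]
  have hsumB : ∀ J ⊆ B, ∑ j ∈ J, d j = J.card := fun J hJ => by
    rw [Finset.sum_congr rfl (fun j hj => hBs j (hJ hj)), Finset.sum_const, smul_eq_mul, mul_one]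
  have hU : (Finset.univ : Finset (Fin m)) = A ∪ B := by
    ext i
    simp only [Finset.mem_univ, Finset.mem_union, hA, hB, Finset.mem_filter, true_and, true_iff]
    exact (hd i).symm
  refine ⟨A.card, B.card, ?_, ?_, ?_, ?_⟩
  · rw [hU, Finset.sum_union hAB, hsumA A subset_rfl, hsumB B subset_rfl]
  · intro a b a' b' hb ha
    obtain ⟨A1, hA1, hA1c⟩ := Finset.exists_subset_card_eq (show b ≤ A.card by omega)
    obtain ⟨A2, hA2, hA2c⟩ := Finset.exists_subset_card_eq (s := A \ A1) (show b' ≤ (A \ A1).card by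
      rw [Finset.card_sdiff_of_subset hA1]; omega)
    obtain ⟨B1, hB1, hB1c⟩ := Finset.exists_subset_card_eq (show a ≤ B.card by omega)
    obtain ⟨B2, hB2, hB2c⟩ := Finset.exists_subset_card_eq (s := B \ B1) (show a' ≤ (B \ B1).card by
      rw [Finset.card_sdiff_of_subset hB1]; omega)
    have hA2' : A2 ⊆ A := hA2.trans Finset.sdiff_subset
    have hB2' : B2 ⊆ B := hB2.trans Finset.sdiff_subset
    refine ⟨A1 ∪ B1, A2 ∪ B2, ?_, ?_, ?_⟩
    · rw [Finset.disjoint_union_left, Finset.disjoint_union_right, Finset.disjoint_union_right]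
      refine ⟨⟨?_, ?_⟩, ?_, ?_⟩
      · rw [Finset.disjoint_left]
        intro i hi hi'
        exact (Finset.mem_sdiff.1 (hA2 hi')).2 hi
      · exact hAB.mono hA1 hB2'
      · exact (hAB.mono hA2' hB1).symm
      · rw [Finset.disjoint_left]
        intro i hi hi'
        exact (Finset.mem_sdiff.1 (hB2 hi')).2 hi
    · rw [Finset.sum_union (hAB.mono hA1 hB1), hsumA A1 hA1, hsumB B1 hB1, hA1c, hB1c]
    · rw [Finset.sum_union (hAB.mono hA2' hB2'), hsumA A2 hA2', hsumB B2 hB2', hA2c, hB2c]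
  · intro h
    rw [Finset.card_eq_zero, Finset.eq_empty_iff_forall_notMem]
    intro i hi
    have h1 := hAs i hi
    have h2 := h i
    omega
  · intro h i
    rcases hd i with h1 | h1
    · exact h1
    · have : i ∈ A := Finset.mem_filter.2 ⟨Finset.mem_univ _, h1⟩
      rw [Finset.card_eq_zero.1 h] at this
      exact absurd this (Finset.notMem_empty _)

/-- blocks of equal size -/
theorem exists_sub_const {m : ℕ} (d : Fin m → ℕ) {s : ℕ} (hd : ∀ i, d i = s) :
    ∑ i, d i = m * s ∧ (∀ b b' : ℕ, b + b' ≤ m →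
      ∃ J J' : Finset (Fin m), Disjoint J J' ∧ ∑ j ∈ J, d j = b * s ∧ ∑ j ∈ J', d j = b' * s) := by
  classical
  have hsum : ∀ J : Finset (Fin m), ∑ j ∈ J, d j = J.card * s := fun J => by
    rw [Finset.sum_congr rfl (fun j _ => hd j), Finset.sum_const, smul_eq_mul]
  refine ⟨by rw [hsum, Finset.card_univ, Fintype.card_fin], fun b b' hb => ?_⟩
  obtain ⟨A1, hA1, hA1c⟩ := Finset.exists_subset_card_eq (s := (Finset.univ : Finset (Fin m))) (n := b) (by
    rw [Finset.card_univ, Fintype.card_fin]; omega)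
  obtain ⟨A2, hA2, hA2c⟩ := Finset.exists_subset_card_eq (s := (Finset.univ : Finset (Fin m)) \ A1) (n := b') (by
      rw [Finset.card_sdiff_of_subset hA1, Finset.card_univ, Fintype.card_fin]; omega)
  refine ⟨A1, A2, ?_, by rw [hsum, hA1c], by rw [hsum, hA2c]⟩
  rw [Finset.disjoint_left]
  intro i hi hi'
  exact (Finset.mem_sdiff.1 (hA2 hi')).2 hi

/-- the order of `q` modulo `r` divides the dimension of a space on which `T` has no fixed vectors -/
theorem ord_dvd [Fintype F] {r : ℕ} (hr : r.Prime) {V : Type v} [AddCommGroup V] [Module F V] [FiniteDimensional F V]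
    (T : V →ₗ[F] V) (hT : T ^ r = 1) (hfix : ∀ v, T v = v → v = 0) :
    orderOf ((Fintype.card F : ℕ) : ZMod r) ∣ finrank F V := by
  classical
  haveI : Finite V := Module.finite_of_finite F
  have hTr : ∀ v, (T ^ r) v = v := by intro v; rw [hT]; rfl
  have hr1 : r = (r - 1) + 1 := by have := hr.pos; omega
  let e : Equiv.Perm V :=
    { toFun := T
      invFun := (T ^ (r - 1) : V →ₗ[F] V)
      left_inv := fun v => by
        have := hTr v
        rw [hr1, pow_succ] at this
        exact this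
      right_inv := fun v => by
        have := hTr v
        rw [hr1, pow_succ'] at this
        exact this }
  have he : ∀ k : ℕ, ∀ v, (e ^ k) v = (T ^ k) v := by
    intro k
    induction k with
    | zero => intro v; rfl
    | succ k ih =>
      intro v
      rw [pow_succ', pow_succ']
      show e ((e ^ k) v) = T ((T ^ k) v)
      rw [ih]; rfl
  have her : e ^ r = 1 := by
    ext v
    rw [he, hT]; rfl
  haveI : Fact r.Prime := ⟨hr⟩
  have hpg : IsPGroup r (Subgroup.zpowers e) := by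
    rintro ⟨x, hx⟩
    obtain ⟨k, rfl⟩ := Subgroup.mem_zpowers_iff.1 hx
    refine ⟨1, Subtype.ext ?_⟩
    show (e ^ k) ^ (r ^ 1) = 1
    rw [pow_one, ← zpow_natCast, ← zpow_mul, mul_comm, zpow_mul, zpow_natCast, her, one_zpow]
  have h1 := hpg.card_modEq_card_fixedPoints V
  have h2 : Nat.card (MulAction.fixedPoints (Subgroup.zpowers e) V) = 1 := by
    rw [Nat.card_eq_one_iff_unique]
    refine ⟨⟨fun x y => ?_⟩, ⟨⟨0, fun g => ?_⟩⟩⟩
    · have key : ∀ x : MulAction.fixedPoints (Subgroup.zpowers e) V, (x : V) = 0 := by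
        intro x
        apply hfix
        exact x.2 ⟨e, Subgroup.mem_zpowers e⟩
      exact Subtype.ext ((key x).trans (key y).symm)
    · obtain ⟨x, hx⟩ := g
      obtain ⟨k, rfl⟩ := Subgroup.mem_zpowers_iff.1 hx
      show (e ^ k) 0 = 0
      have h0 : e 0 = 0 := T.map_zero
      have h0' : e ∈ MulAction.stabilizer (Equiv.Perm V) (0 : V) := h0
      exact (MulAction.stabilizer (Equiv.Perm V) (0 : V)).zpow_mem h0' k
  rw [h2] at h1
  rw [Module.natCard_eq_pow_finrank (K := F) (V := V)] at h1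
  apply orderOf_dvd_of_pow_eq_one
  have h3 := (ZMod.natCast_eq_natCast_iff _ _ _).2 h1
  push_cast at h3
  rw [Nat.card_eq_fintype_card] at h3
  exact h3

/-- dimensions of invariant subspaces -/
theorem finrank_inv [Fintype F] {r : ℕ} (hr : r.Prime) (hrF : (r : F) ≠ 0) {V : Type v} [AddCommGroup V] [Module F V]
    [FiniteDimensional F V] (T : V →ₗ[F] V) (hT : T ^ r = 1) (U : Submodule F V) (hU : U.map T ≤ U) :
    ∃ b : ℕ, finrank F U = finrank F (U ⊓ LinearMap.ker (T - 1) : Submodule F V) + b * orderOf ((Fintype.card F : ℕ) : ZMod r) := by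
  have hTU : ∀ v ∈ U, T v ∈ U := fun v hv => hU (mem_map_of_mem hv)
  let TU : U →ₗ[F] U := T.restrict hTU
  have hTUr : TU ^ r = 1 := by
    ext v
    have : ∀ k : ℕ, (((TU ^ k) v : U) : V) = (T ^ k) v := by
      intro k
      induction k with
      | zero => rfl
      | succ k ih => rw [pow_succ', pow_succ', Module.End.mul_apply, Module.End.mul_apply, ← ih]; rfl
    rw [this, hT]; rfl
  have h1 := LinearMap.finrank_range_add_finrank_ker (TU - 1)
  have h2 : finrank F (LinearMap.ker (TU - 1)) = finrank F (U ⊓ LinearMap.ker (T - 1) : Submodule F V) := by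
    have h3 : (LinearMap.ker (TU - 1)).map U.subtype = U ⊓ LinearMap.ker (T - 1) := by
      ext v
      constructor
      · rintro ⟨w, hw, rfl⟩
        refine ⟨w.2, ?_⟩
        have := congrArg (fun x : U => (x : V)) (LinearMap.mem_ker.1 hw)
        exact this
      · rintro ⟨hv, hv'⟩
        refine ⟨⟨v, hv⟩, ?_, rfl⟩
        rw [SetLike.mem_coe, LinearMap.mem_ker]
        apply Subtype.ext
        exact hv'
    rw [← h3, finrank_map_subtype_eq]
  have h4 := H99.RElt.disjoint hrF TU hTUr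
  let R := LinearMap.range (TU - 1)
  have hTR : ∀ v ∈ R, TU v ∈ R := by
    rintro _ ⟨w, rfl⟩
    refine ⟨TU w, ?_⟩
    show TU (TU w) - TU w = TU (TU w - w)
    rw [map_sub]
  let TR : R →ₗ[F] R := TU.restrict hTR
  have hTRr : TR ^ r = 1 := by
    ext v
    have : ∀ k : ℕ, (((TR ^ k) v : R) : U) = (TU ^ k) v := by
      intro k
      induction k with
      | zero => rfl
      | succ k ih => rw [pow_succ', pow_succ', Module.End.mul_apply, Module.End.mul_apply, ← ih]; rfl
    rw [this, hTUr]; rfl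
  obtain ⟨b, hb⟩ := ord_dvd hr TR hTRr (by
    rintro ⟨v, hv⟩ h
    apply Subtype.ext
    apply (Submodule.disjoint_def.1 h4) v hv
    rw [LinearMap.mem_ker]
    have h5 := congrArg (fun x : R => (x : U)) h
    show TU v - v = 0
    rw [sub_eq_zero]
    exact h5)
  refine ⟨b, ?_⟩
  have h6 : finrank F R = finrank F (LinearMap.range (TU - 1)) := rfl
  rw [← h2, ← h1, ← h6, hb, mul_comm b, add_comm]

end H85.PrimeSub
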