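import Mathlib
import Cfsg.Agent.Lib.H85.PrimeSub

set_option autoImplicit false
set_option maxHeartbeats 400000

/-! Counting subspaces; special elements of prime order; a number theoretic criterion. -/

namespace H85.PrimeSub

open Module Polynomial Submodule

universe u v

variable {F : Type u} [Field F] [Fintype F]

local notation "q" => Fintype.card F

section count
variable {V : Type v} [AddCommGroup V] [Module F V] [FiniteDimensional F V]

theorem card_of_equiv_sigma {A B : Type*} [Finite B] {C : B → Type*} [∀ b, Finite (C b)] (e : A ≃ Σ b, C b) (c : ℕ)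
    (h : ∀ b, Nat.card (C b) = c) : Nat.card A = Nat.card B * c := by
  haveI := Fintype.ofFinite B
  rw [Nat.card_congr e, Nat.card_sigma, Finset.sum_congr rfl (fun b _ => h b), Finset.sum_const, Finset.card_univ,
    smul_eq_mul, Nat.card_eq_fintype_card]

/-- double counting of independent `b`-tuples -/
theorem card_sub_mul {a b : ℕ} (ha : finrank F V = a) (hb : b ≤ a) :
    Nat.card {W : Submodule F V // finrank F W = b} * ∏ j : Fin b, (q ^ b - q ^ (j : ℕ)) = ∏ j : Fin b, (q ^ a - q ^ (j : ℕ)) := by
  classical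
  haveI : Finite V := Module.finite_of_finite F
  have h1 : Nat.card {s : Fin b → V // LinearIndependent F s} = ∏ j : Fin b, (q ^ a - q ^ (j : ℕ)) := by
    rw [card_linearIndependent (by omega), ha]
  rw [← h1]
  symm
  let e : {s : Fin b → V // LinearIndependent F s} ≃
      Σ W : {W : Submodule F V // finrank F W = b}, {s : Fin b → W.1 // LinearIndependent F s} :=
    { toFun := fun s => ⟨⟨span F (Set.range s.1), by rw [finrank_span_eq_card s.2, Fintype.card_fin]⟩,
        ⟨fun i => ⟨s.1 i, subset_span ⟨i, rfl⟩⟩, by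
          apply LinearIndependent.of_comp (span F (Set.range s.1)).subtype
          exact s.2⟩⟩
      invFun := fun x => ⟨fun i => (x.2.1 i : V), x.2.2.map' x.1.1.subtype (ker_subtype _)⟩
      left_inv := fun s => rfl
      right_inv := by
        rintro ⟨⟨W, hW⟩, ⟨s, hs⟩⟩
        have h2 : span F (Set.range (fun i => ((s i : W) : V))) = W := by
          apply Submodule.eq_of_le_of_finrank_eq
          · rw [span_le]
            rintro _ ⟨i, rfl⟩
            exact (s i).2
          · have h3 : LinearIndependent F (fun i => ((s i : W) : V)) := hs.map' W.subtype (ker_subtype _)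
            rw [finrank_span_eq_card h3, Fintype.card_fin, hW]
        dsimp only
        refine Sigma.ext (Subtype.ext h2) ?_
        rw! [h2]
        rfl }
  refine card_of_equiv_sigma e _ ?_
  rintro ⟨W, hW⟩
  rw [card_linearIndependent (by rw [hW]), hW]

theorem prod_factor (a b : ℕ) (hb : b ≤ a) : ∏ j : Fin b, (q ^ a - q ^ (j : ℕ)) =
    (∏ j : Fin b, q ^ (j : ℕ)) * ∏ e ∈ Finset.Ico (a - b) a, (q ^ (e + 1) - 1) := by
  have h1 : ∏ e ∈ Finset.Ico (a - b) a, (q ^ (e + 1) - 1) = ∏ j : Fin b, (q ^ (a - (j : ℕ)) - 1) := by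
    rw [Finset.prod_Ico_eq_prod_range, show a - (a - b) = b by omega, ← Finset.prod_range_reflect,
      Finset.prod_range]
    refine Finset.prod_congr rfl fun j _ => ?_
    congr 2
    have := j.2
    omega
  rw [h1, ← Finset.prod_mul_distrib]
  refine Finset.prod_congr rfl fun j _ => ?_
  rw [Nat.mul_sub, mul_one, ← pow_add]
  congr 2
  have := j.2
  omega

/-- the count in terms of `q ^ e - 1` -/
theorem card_sub_mul' {a b : ℕ} (ha : finrank F V = a) (hb : b ≤ a) :
    Nat.card {W : Submodule F V // finrank F W = b} * ∏ e ∈ Finset.range b, (q ^ (e + 1) - 1) =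
      ∏ e ∈ Finset.Ico (a - b) a, (q ^ (e + 1) - 1) := by
  have h1 := card_sub_mul (V := V) ha hb
  rw [prod_factor a b hb, prod_factor b b le_rfl, Nat.sub_self, Nat.Ico_zero_eq_range] at h1
  have h2 : 0 < ∏ j : Fin b, q ^ (j : ℕ) := Finset.prod_pos fun j _ => pow_pos Fintype.card_pos _
  apply Nat.eq_of_mul_eq_mul_left h2
  rw [← h1]; ring

theorem card_sub_mul'' {a b : ℕ} (ha : finrank F V = a) (hb : b ≤ a) :
    Nat.card {W : Submodule F V // finrank F W = b} * ∏ e ∈ Finset.range (a - b), (q ^ (e + 1) - 1) =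
      ∏ e ∈ Finset.Ico b a, (q ^ (e + 1) - 1) := by
  have h1 := card_sub_mul' (V := V) ha hb
  have hq : 1 < q := Fintype.one_lt_card
  have h2 : 0 < ∏ e ∈ Finset.range b, (q ^ (e + 1) - 1) := Finset.prod_pos fun j _ => by
    have := Nat.one_lt_pow (n := j + 1) (by omega) hq
    omega
  apply Nat.eq_of_mul_eq_mul_left h2
  have h3 := Finset.prod_range_mul_prod_Ico (fun e => q ^ (e + 1) - 1) hb
  have h4 := Finset.prod_range_mul_prod_Ico (fun e => q ^ (e + 1) - 1) (show a - b ≤ a by omega)
  rw [h3, ← h4, ← h1]; ring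

theorem not_dvd_card {r : ℕ} (hr : r.Prime) {a b : ℕ} (ha : finrank F V = a) (hb : b ≤ a)
    (h : ∀ e, a - b < e → e ≤ a → ¬ r ∣ q ^ e - 1) : ¬ r ∣ Nat.card {W : Submodule F V // finrank F W = b} := by
  intro hd
  have h1 := card_sub_mul' (V := V) ha hb
  have h2 : r ∣ ∏ e ∈ Finset.Ico (a - b) a, (q ^ (e + 1) - 1) := by rw [← h1]; exact hd.mul_right _
  obtain ⟨e, he, hre⟩ := (hr.prime.dvd_finsetProd_iff _).1 h2
  rw [Finset.mem_Ico] at he
  exact h (e + 1) (by omega) (by omega) hre

theorem not_dvd_card' {r : ℕ} (hr : r.Prime) {a b : ℕ} (ha : finrank F V = a) (hb : b ≤ a)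
    (h : ∀ e, b < e → e ≤ a → ¬ r ∣ q ^ e - 1) : ¬ r ∣ Nat.card {W : Submodule F V // finrank F W = b} := by
  intro hd
  have h1 := card_sub_mul'' (V := V) ha hb
  have h2 : r ∣ ∏ e ∈ Finset.Ico b a, (q ^ (e + 1) - 1) := by rw [← h1]; exact hd.mul_right _
  obtain ⟨e, he, hre⟩ := (hr.prime.dvd_finsetProd_iff _).1 h2
  rw [Finset.mem_Ico] at he
  exact h (e + 1) (by omega) (by omega) hre

theorem finrank_map_mkQ (U W : Submodule F V) (h : U ≤ W) : finrank F (W.map U.mkQ) + finrank F U = finrank F W := by
  have h1 := LinearMap.finrank_range_add_finrank_ker (U.mkQ.domRestrict W)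
  have h2 : LinearMap.range (U.mkQ.domRestrict W) = W.map U.mkQ := by
    rw [LinearMap.range_domRestrict]
  have h3 : LinearMap.ker (U.mkQ.domRestrict W) = U.comap W.subtype := by
    rw [LinearMap.ker_domRestrict, Submodule.ker_mkQ]
  rw [h2, h3, (Submodule.comapSubtypeEquivOfLe h).finrank_eq] at h1
  exact h1

theorem card_congr_finrank {V' : Type*} [AddCommGroup V'] [Module F V'] [FiniteDimensional F V']
    (h : finrank F V = finrank F V') (b : ℕ) :
    Nat.card {W : Submodule F V // finrank F W = b} = Nat.card {W : Submodule F V' // finrank F W = b} := by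
  let e := LinearEquiv.ofFinrankEq V V' h
  refine Nat.card_congr ((Submodule.orderIsoMapComap e).toEquiv.subtypeEquiv ?_)
  intro W
  show finrank F W = b ↔ finrank F (W.map (e : V →ₗ[F] V')) = b
  rw [LinearEquiv.finrank_map_eq]

/-- flags -/
theorem card_flags {n m l : ℕ} (hn : finrank F V = n) (hm : m ≤ n) (hl : m ≤ l) :
    Nat.card {P : Submodule F V × Submodule F V // P.1 ≤ P.2 ∧ finrank F P.1 = m ∧ finrank F P.2 = l} =
      Nat.card {W : Submodule F V // finrank F W = m} *
      Nat.card {W : Submodule F (Fin (n - m) → F) // finrank F W = l - m} := by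
  classical
  haveI : Finite V := Module.finite_of_finite F
  haveI : Finite (Submodule F V) := Finite.of_injective (fun W : Submodule F V => (W : Set V)) SetLike.coe_injective
  let e : {P : Submodule F V × Submodule F V // P.1 ≤ P.2 ∧ finrank F P.1 = m ∧ finrank F P.2 = l} ≃
      Σ U : {W : Submodule F V // finrank F W = m}, {W : Submodule F V // U.1 ≤ W ∧ finrank F W = l} :=
    { toFun := fun P => ⟨⟨P.1.1, P.2.2.1⟩, ⟨P.1.2, P.2.1, P.2.2.2⟩⟩
      invFun := fun x => ⟨(x.1.1, x.2.1), x.2.2.1, x.1.2, x.2.2.2⟩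
      left_inv := fun _ => rfl
      right_inv := fun _ => rfl }
  refine card_of_equiv_sigma e _ ?_
  rintro ⟨U, hU⟩
  have hquot : finrank F (V ⧸ U) = n - m := by
    have := Submodule.finrank_quotient_add_finrank U
    omega
  let e2 : {W : Submodule F V // U ≤ W ∧ finrank F W = l} ≃ {W : Submodule F (V ⧸ U) // finrank F W = l - m} :=
    { toFun := fun W => ⟨W.1.map U.mkQ, by
        have h1 := finrank_map_mkQ U W.1 W.2.1
        have h2 := W.2.2
        omega⟩
      invFun := fun W => ⟨W.1.comap U.mkQ, by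
        have h0 : U ≤ W.1.comap U.mkQ := by
          intro x hx
          show U.mkQ x ∈ W.1
          rw [Submodule.mkQ_apply, (Submodule.Quotient.mk_eq_zero U).2 hx]
          exact zero_mem _
        refine ⟨h0, ?_⟩
        have h1 := finrank_map_mkQ U _ h0
        rw [Submodule.map_comap_eq, Submodule.range_mkQ, top_inf_eq] at h1
        have h2 := W.2
        omega⟩
      left_inv := fun W => by
        apply Subtype.ext
        show (W.1.map U.mkQ).comap U.mkQ = W.1
        rw [Submodule.comap_map_mkQ, sup_eq_right.2 W.2.1]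
      right_inv := fun W => by
        apply Subtype.ext
        show (W.1.comap U.mkQ).map U.mkQ = W.1
        rw [Submodule.map_comap_eq, Submodule.range_mkQ, top_inf_eq] }
  rw [Nat.card_congr e2]
  apply card_congr_finrank
  rw [hquot, finrank_fintype_fun_eq_card, Fintype.card_fin]

/-- the number of complements of a subspace is a power of `q` -/
theorem card_compl {n m : ℕ} (hn : finrank F V = n) (U : Submodule F V) (hU : finrank F U = m) :
    Nat.card {W : Submodule F V // IsCompl U W} = q ^ (n * m - m * m) := by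
  classical
  haveI : Finite V := Module.finite_of_finite F
  rw [Nat.card_congr U.isComplEquivProj]
  obtain ⟨W, hW⟩ := U.exists_isCompl
  let f0 : V →ₗ[F] U := U.projectionOnto W hW
  have hf0 : ∀ x : U, f0 x = x := Submodule.projectionOnto_apply_left hW
  let R : (V →ₗ[F] U) →ₗ[F] (U →ₗ[F] U) := LinearMap.lcomp F U U.subtype
  have hR : ∀ f, R f = f ∘ₗ U.subtype := fun f => rfl
  let e : {f : V →ₗ[F] U // ∀ x : U, f x = x} ≃ LinearMap.ker R :=
    { toFun := fun f => ⟨f.1 - f0, by
        rw [LinearMap.mem_ker, hR]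
        ext x
        show ((f.1 x - f0 x : U) : V) = 0
        rw [f.2, hf0, sub_self]; rfl⟩
      invFun := fun g => ⟨g.1 + f0, fun x => by
        have := LinearMap.congr_fun (LinearMap.mem_ker.1 g.2) x
        rw [hR] at this
        show g.1 x + f0 x = x
        rw [hf0]
        have h2 : g.1 x = 0 := this
        rw [h2, zero_add]⟩
      left_inv := fun f => by apply Subtype.ext; show f.1 - f0 + f0 = f.1; abel
      right_inv := fun f => by apply Subtype.ext; show f.1 + f0 - f0 = f.1; abel }
  have hsurj : LinearMap.range R = ⊤ := by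
    rw [LinearMap.range_eq_top]
    intro g
    refine ⟨g ∘ₗ f0, ?_⟩
    rw [hR]
    ext x
    show ((g (f0 x) : U) : V) = g x
    rw [hf0]
  have h1 := LinearMap.finrank_range_add_finrank_ker R
  rw [hsurj, finrank_top, finrank_linearMap, finrank_linearMap, hU, hn] at h1
  rw [Nat.card_congr e, Module.natCard_eq_pow_finrank (K := F), Nat.card_eq_fintype_card]
  congr 1
  omega

/-- complementary pairs -/
theorem card_pairs {n m : ℕ} (hn : finrank F V = n) :
    Nat.card {P : Submodule F V × Submodule F V // IsCompl P.1 P.2 ∧ finrank F P.1 = m} =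
      Nat.card {W : Submodule F V // finrank F W = m} * q ^ (n * m - m * m) := by
  classical
  haveI : Finite V := Module.finite_of_finite F
  haveI : Finite (Submodule F V) := Finite.of_injective (fun W : Submodule F V => (W : Set V)) SetLike.coe_injective
  let e : {P : Submodule F V × Submodule F V // IsCompl P.1 P.2 ∧ finrank F P.1 = m} ≃
      Σ U : {W : Submodule F V // finrank F W = m}, {W : Submodule F V // IsCompl U.1 W} :=
    { toFun := fun P => ⟨⟨P.1.1, P.2.2⟩, ⟨P.1.2, P.2.1⟩⟩
      invFun := fun x => ⟨(x.1.1, x.2.1), x.2.2, x.1.2⟩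
      left_inv := fun _ => rfl
      right_inv := fun _ => rfl }
  refine card_of_equiv_sigma e _ ?_
  rintro ⟨U, hU⟩
  exact card_compl hn U hU

end count

/-- determinant of a matrix of prime degree whose `r`-th power is a scalar which is not an `r`-th power -/
theorem det_of_not_pow {F : Type u} [Field F] {ι : Type*} [Fintype ι] [DecidableEq ι] {r : ℕ} (hr : r.Prime) (hι : Fintype.card ι = r)
    (X : Matrix ι ι F) (z : F)
    (hX : X ^ r = z • (1 : Matrix ι ι F)) (hz : ∀ b : F, b ^ r ≠ z) : X.det = (-1) ^ (r + 1) * z := by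
  have hirr : Irreducible (Polynomial.X ^ r - C z : F[X]) := X_pow_sub_C_irreducible_of_prime hr hz
  have hmon : (Polynomial.X ^ r - C z : F[X]).Monic := monic_X_pow_sub_C _ hr.ne_zero
  have h1 : minpoly F X ∣ (Polynomial.X ^ r - C z : F[X]) := by
    apply minpoly.dvd
    rw [map_sub, map_pow, aeval_X, aeval_C, hX, Algebra.algebraMap_eq_smul_one, sub_self]
  have hint : IsIntegral F X := Matrix.isIntegral X
  have : Nonempty ι := Fintype.card_pos_iff.1 (by rw [hι]; exact hr.pos)
  have h2 : minpoly F X = Polynomial.X ^ r - C z := by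
    rcases (hirr.dvd_iff).1 h1 with h | h
    · exact absurd h (minpoly.not_isUnit F X)
    · exact eq_of_monic_of_associated (minpoly.monic hint) hmon h.symm
  have h3 : X.charpoly = Polynomial.X ^ r - C z := by
    have h4 : minpoly F X ∣ X.charpoly := Matrix.minpoly_dvd_charpoly X
    rw [h2] at h4
    apply Polynomial.eq_of_monic_of_dvd_of_natDegree_le hmon (Matrix.charpoly_monic X) h4
    rw [Matrix.charpoly_natDegree_eq_dim, natDegree_X_pow_sub_C, hι]
  rw [Matrix.det_eq_sign_charpoly_coeff, h3, hι, pow_succ]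
  simp [hr.ne_zero.symm]

/-- a companion block with `X ^ r = z` -/
theorem exists_root_block {F : Type u} [Field F] {r : ℕ} (hr : r.Prime) (z : F) :
    ∃ X : Matrix (Fin r) (Fin r) F, X ^ r = z • (1 : Matrix (Fin r) (Fin r) F) := by
  have hmon : (Polynomial.X ^ r - C z : F[X]).Monic := monic_X_pow_sub_C _ hr.ne_zero
  let pb := AdjoinRoot.powerBasis' hmon
  have hdim : pb.dim = r := by
    show (Polynomial.X ^ r - C z : F[X]).natDegree = r
    rw [natDegree_X_pow_sub_C]
  let eb : Fin pb.dim ≃ Fin r := finCongr hdim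
  refine ⟨Matrix.reindexAlgEquiv F F eb (Algebra.leftMulMatrix pb.basis (AdjoinRoot.root (Polynomial.X ^ r - C z : F[X]))), ?_⟩
  have hroot : (AdjoinRoot.root (Polynomial.X ^ r - C z : F[X])) ^ r = algebraMap F _ z := by
    have h1 : AdjoinRoot.mk (Polynomial.X ^ r - C z : F[X]) (Polynomial.X ^ r - C z : F[X]) = 0 := AdjoinRoot.mk_self
    rw [map_sub, map_pow, AdjoinRoot.mk_X, sub_eq_zero] at h1
    exact h1
  rw [← map_pow, ← map_pow, hroot, AlgHom.commutes, AlgEquiv.commutes, Algebra.algebraMap_eq_smul_one]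

end H85.PrimeSub
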