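import Mathlib
import Cfsg.Prelude.Def_RootSubgroups
import Cfsg.Agent.Lib.H1.Cores
import Cfsg.Agent.Lib.H55.BaerSuzuki

/-!
Root involutions (Timmesfeld): basic calculus for `Cfsg.IsRootInvolutionSet`.
-/

set_option autoImplicit false
open Cfsg

namespace H85.RootInv

variable {G : Type*} [Group G] {D : Set G}

/-! ### Elements of odd order -/

theorem eq_one_of_odd_sq {x : G} (hx : Odd (orderOf x)) (h : x ^ 2 = 1) : x = 1 := by
  have h1 : orderOf x ∣ 2 := orderOf_dvd_of_pow_eq_one h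
  rcases (Nat.dvd_prime Nat.prime_two).1 h1 with h2 | h2
  · exact orderOf_eq_one_iff.1 h2
  · rw [h2] at hx; exact absurd hx (by decide)

theorem pow_of_odd {x : G} (hx : Odd (orderOf x)) : ∃ m : ℕ, (x ^ 2) ^ m = x := by
  obtain ⟨k, hk⟩ := hx
  refine ⟨k + 1, ?_⟩
  rw [← pow_mul, show 2 * (k + 1) = (2 * k + 1) + 1 by ring, pow_succ, ← hk,
    pow_orderOf_eq_one, one_mul]

theorem odd_orderOf_pow {x : G} (hx : Odd (orderOf x)) (n : ℕ) : Odd (orderOf (x ^ n)) :=
  Odd.of_dvd_nat hx (orderOf_pow_dvd n)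

theorem eq_one_of_odd_four {x : G} (hx : Odd (orderOf x)) (h : x ^ 4 = 1) : x = 1 := by
  apply eq_one_of_odd_sq hx
  apply eq_one_of_odd_sq (odd_orderOf_pow hx 2)
  rw [← pow_mul]; exact h

theorem eq_one_of_odd_isPGroup {x : G} (hx : Odd (orderOf x)) {k : ℕ} (h : x ^ 2 ^ k = 1) :
    x = 1 := by
  have h1 : orderOf x ∣ 2 ^ k := orderOf_dvd_of_pow_eq_one h
  have h2 : Nat.Coprime (orderOf x) (2 ^ k) := (Nat.coprime_two_right.2 hx).pow_right k
  exact orderOf_eq_one_iff.1 (Nat.eq_one_of_dvd_coprimes h2 (dvd_refl _) h1)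

theorem sq_inj_of_odd {x y : G} (hx : Odd (orderOf x)) (hy : Odd (orderOf y))
    (h : x ^ 2 = y ^ 2) : x = y := by
  obtain ⟨k, hk⟩ := hx.mul hy
  have e1 : (x ^ 2) ^ (k + 1) = x := by
    rw [← pow_mul, show 2 * (k + 1) = (2 * k + 1) + 1 by ring, pow_succ, ← hk, pow_mul,
      pow_orderOf_eq_one, one_pow, one_mul]
  have e2 : (y ^ 2) ^ (k + 1) = y := by
    rw [← pow_mul, show 2 * (k + 1) = (2 * k + 1) + 1 by ring, pow_succ, ← hk,
      mul_comm (orderOf x), pow_mul, pow_orderOf_eq_one, one_pow, one_mul]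
  rw [← e1, ← e2, h]

theorem commute_of_odd_sq {x z : G} (hx : Odd (orderOf x)) (h : Commute z (x ^ 2)) :
    Commute z x := by
  obtain ⟨m, hm⟩ := pow_of_odd hx
  rw [← hm]; exact h.pow_right m

theorem sq_eq_one_of_inverts {x z : G} (hx : Odd (orderOf x)) (h : x * z * x⁻¹ = z⁻¹) :
    z * z = 1 := by
  have h2 : Commute z (x ^ 2) := by
    have h3 : x ^ 2 * z * (x ^ 2)⁻¹ = z := by
      calc x ^ 2 * z * (x ^ 2)⁻¹ = x * (x * z * x⁻¹) * x⁻¹ := by simp [pow_two, mul_assoc]
        _ = x * z⁻¹ * x⁻¹ := by rw [h]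
        _ = (x * z * x⁻¹)⁻¹ := by group
        _ = z := by rw [h, inv_inv]
    have h4 : x ^ 2 * z = z * x ^ 2 := by rw [mul_inv_eq_iff_eq_mul] at h3; exact h3
    exact h4.symm
  have h3 : Commute z x := commute_of_odd_sq hx h2
  have h4 : z = z⁻¹ := by
    rw [← h, ← h3.eq]; group
  calc z * z = z⁻¹ * z := by rw [← h4]
    _ = 1 := by group

/-! ### Basic facts -/

theorem sq (hD : IsRootInvolutionSet D) {a : G} (ha : a ∈ D) : a * a = 1 := by
  have := pow_orderOf_eq_one a
  rw [hD.orderOf_eq a ha, pow_two] at this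
  exact this

theorem inv_eq (hD : IsRootInvolutionSet D) {a : G} (ha : a ∈ D) : a⁻¹ = a :=
  inv_eq_of_mul_eq_one_left (sq hD ha)

theorem ne_one (hD : IsRootInvolutionSet D) {a : G} (ha : a ∈ D) : a ≠ 1 := by
  rintro rfl
  have := hD.orderOf_eq 1 ha
  simp at this

/-- conjugate of `a` by `b` -/
theorem conj_mem (hD : IsRootInvolutionSet D) {a b : G} (ha : a ∈ D) (hb : b ∈ D) :
    b * a * b ∈ D := by
  have := hD.conj_mem a ha b
  rwa [inv_eq hD hb] at this

theorem mul_inv_rev' (hD : IsRootInvolutionSet D) {a b : G} (ha : a ∈ D) (hb : b ∈ D) :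
    (a * b)⁻¹ = b * a := by
  rw [mul_inv_rev, inv_eq hD ha, inv_eq hD hb]

theorem orderOf_mul_symm (hD : IsRootInvolutionSet D) {a b : G} (ha : a ∈ D) (hb : b ∈ D) :
    orderOf (a * b) = orderOf (b * a) := by
  rw [← orderOf_inv, mul_inv_rev' hD ha hb]

theorem cancel_left (hD : IsRootInvolutionSet D) {a : G} (ha : a ∈ D) (x : G) :
    a * (a * x) = x := by rw [← mul_assoc, sq hD ha, one_mul]

theorem oddP_symm (hD : IsRootInvolutionSet D) {a b : G} (ha : a ∈ D)
    (h : b ∈ oddPartners D a) : a ∈ oddPartners D b :=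
  ⟨ha, h.2.1.symm, by rw [orderOf_mul_symm hD h.1 ha]; exact h.2.2⟩

theorem fourP_symm (hD : IsRootInvolutionSet D) {a b : G} (ha : a ∈ D)
    (h : b ∈ fourPartners D a) : a ∈ fourPartners D b :=
  ⟨ha, by rw [orderOf_mul_symm hD h.1 ha]; exact h.2⟩

theorem tri (hD : IsRootInvolutionSet D) {a b : G} (ha : a ∈ D) (hb : b ∈ D) :
    Commute a b ∨ b ∈ oddPartners D a ∨ b ∈ fourPartners D a := by
  by_cases hc : Commute a b
  · exact Or.inl hc
  · rcases hD.pair a ha b hb with h | h | h
    · exact Or.inl h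
    · refine Or.inr (Or.inl ⟨hb, ?_, h⟩)
      rintro rfl; exact hc rfl
    · exact Or.inr (Or.inr ⟨hb, h.1⟩)

theorem mul_sq_of_commute (hD : IsRootInvolutionSet D) {a b : G} (ha : a ∈ D) (hb : b ∈ D)
    (hc : Commute a b) : (a * b) ^ 2 = 1 := by
  rw [hc.mul_pow, pow_two, pow_two, sq hD ha, sq hD hb, one_mul]

theorem eq_of_mul_eq_one (hD : IsRootInvolutionSet D) {a b : G} (hb : b ∈ D)
    (h : a * b = 1) : a = b := by
  rw [eq_inv_of_mul_eq_one_left h, inv_eq hD hb]

theorem not_comm_of_odd (hD : IsRootInvolutionSet D) {a b : G} (ha : a ∈ D)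
    (h : b ∈ oddPartners D a) : ¬ Commute a b := fun hc =>
  h.2.1 (eq_of_mul_eq_one hD h.1
    (eq_one_of_odd_sq h.2.2 (mul_sq_of_commute hD ha h.1 hc))).symm

theorem not_comm_of_four (hD : IsRootInvolutionSet D) {a b : G} (ha : a ∈ D)
    (h : b ∈ fourPartners D a) : ¬ Commute a b := fun hc => by
  have h1 := orderOf_dvd_of_pow_eq_one (mul_sq_of_commute hD ha h.1 hc)
  rw [h.2] at h1
  exact absurd h1 (by decide)

theorem not_four_of_odd {a b : G} (h : b ∈ oddPartners D a) : b ∉ fourPartners D a := fun h' => by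
  have h1 := h.2.2
  rw [h'.2] at h1
  exact absurd h1 (by decide)

/-! ### Lemma L1 -/

/-- If `h` is an odd partner of `a` and `z ≠ 1` commutes with `a` and `h` then `z a ∉ D`. -/
theorem L1 (hD : IsRootInvolutionSet D) {a h z : G} (ha : a ∈ D) (hh : h ∈ oddPartners D a)
    (hza : Commute z a) (hzh : Commute z h) (hz : z * a ∈ D) : z = 1 := by
  have hzz : z * z = 1 := by
    have h1 := sq hD hz
    rw [hza.symm.mul_mul_mul_comm, sq hD ha, mul_one] at h1
    exact h1
  have hc : Commute z (a * h) := hza.mul_right hzh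
  have hodd := hh.2.2
  have key : ∀ n : ℕ, (z * a * h) ^ n = z ^ n * (a * h) ^ n := by
    intro n; rw [mul_assoc, hc.mul_pow]
  have hne : a * h ≠ 1 := fun h1 => hh.2.1 (eq_of_mul_eq_one hD hh.1 h1).symm
  rcases hD.pair _ hz h hh.1 with h1 | h1 | h1
  · exfalso
    have h2 := mul_sq_of_commute hD hz hh.1 h1
    rw [key, pow_two z, hzz, one_mul] at h2
    exact hne (eq_one_of_odd_sq hodd h2)
  · obtain ⟨k, hk⟩ := h1.mul hodd
    have h2 : (z * a * h) ^ (orderOf (z * a * h) * orderOf (a * h)) = 1 := by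
      rw [pow_mul, pow_orderOf_eq_one, one_pow]
    rw [key, mul_comm (orderOf (z * a * h)), pow_mul (a * h), pow_orderOf_eq_one, one_pow,
      mul_one, mul_comm, hk, pow_succ, pow_mul, pow_two, hzz, one_pow, one_mul] at h2
    exact h2
  · exfalso
    have h2 := pow_orderOf_eq_one (z * a * h)
    rw [h1.1, key, show (4 : ℕ) = 2 * 2 by norm_num, pow_mul z, pow_two z, hzz, one_pow,
      one_mul] at h2
    exact hne (eq_one_of_odd_four hodd h2)

/-! ### Products of order four -/

section four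

variable {a b : G}

theorem four_mem (hD : IsRootInvolutionSet D) (ha : a ∈ D) (h : b ∈ fourPartners D a) :
    (a * b) ^ 2 ∈ D := by
  rcases hD.pair a ha b h.1 with h1 | h1 | h1
  · exact absurd h1 (not_comm_of_four hD ha h)
  · rw [h.2] at h1; exact absurd h1 (by decide)
  · exact h1.2

/-- `b a b = a (ab)²` -/
theorem four_conj_left (hD : IsRootInvolutionSet D) (ha : a ∈ D) :
    b * a * b = a * (a * b) ^ 2 := by
  rw [pow_two]
  calc b * a * b = (a * a) * b * a * b := by rw [sq hD ha, one_mul]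
    _ = a * (a * b * (a * b)) := by group

/-- `a b a = (ab)² b` -/
theorem four_conj_right (hD : IsRootInvolutionSet D) (hb : b ∈ D) :
    a * b * a = (a * b) ^ 2 * b := by
  rw [pow_two]
  calc a * b * a = a * b * a * (b * b) := by rw [sq hD hb, mul_one]
    _ = a * b * (a * b) * b := by group

theorem four_pow_inv (hD : IsRootInvolutionSet D) (ha : a ∈ D) (h : b ∈ fourPartners D a) :
    (b * a) ^ 2 = (a * b) ^ 2 := by
  have h1 : (a * b) ^ 2 * (a * b) ^ 2 = 1 := by
    rw [← pow_add]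
    have := pow_orderOf_eq_one (a * b)
    rwa [h.2] at this
  rw [← mul_inv_rev' hD ha h.1, inv_pow]
  exact inv_eq_of_mul_eq_one_left h1

theorem four_comm_left (hD : IsRootInvolutionSet D) (ha : a ∈ D) (h : b ∈ fourPartners D a) :
    Commute a ((a * b) ^ 2) := by
  have h1 : a * (a * b) ^ 2 * a = (a * b) ^ 2 := by
    rw [← four_pow_inv hD ha h]
    nth_rewrite 1 [four_pow_inv hD ha h]
    rw [pow_two, pow_two]
    calc a * (a * b * (a * b)) * a = (a * a) * b * a * b * a := by group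
      _ = b * a * (b * a) := by rw [sq hD ha, one_mul]; group
  calc a * (a * b) ^ 2 = a * (a * b) ^ 2 * (a * a) := by rw [sq hD ha, mul_one]
    _ = a * (a * b) ^ 2 * a * a := by group
    _ = (a * b) ^ 2 * a := by rw [h1]

theorem four_comm_right (hD : IsRootInvolutionSet D) (ha : a ∈ D) (h : b ∈ fourPartners D a) :
    Commute b ((a * b) ^ 2) := by
  rw [← four_pow_inv hD ha h]
  exact four_comm_left hD h.1 (fourP_symm hD ha h)

theorem four_mul_left_mem (hD : IsRootInvolutionSet D) (ha : a ∈ D) (h : b ∈ fourPartners D a) :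
    a * (a * b) ^ 2 ∈ D := by
  rw [← four_conj_left hD ha]; exact conj_mem hD ha h.1

theorem four_mul_right_mem (hD : IsRootInvolutionSet D) (ha : a ∈ D)
    (h : b ∈ fourPartners D a) : b * (a * b) ^ 2 ∈ D := by
  rw [(four_comm_right hD ha h).eq, ← four_conj_right hD h.1]; exact conj_mem hD h.1 ha

end four

/-! ### Lemma LN2 -/

theorem conj_commute {x y g : G} (h : Commute x y) : Commute (g * x * g⁻¹) (g * y * g⁻¹) := by
  have : g * x * g⁻¹ * (g * y * g⁻¹) = g * y * g⁻¹ * (g * x * g⁻¹) := by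
    calc g * x * g⁻¹ * (g * y * g⁻¹) = g * (x * y) * g⁻¹ := by group
      _ = g * (y * x) * g⁻¹ := by rw [h.eq]
      _ = g * y * g⁻¹ * (g * x * g⁻¹) := by group
  exact this

/-- On a line `{a, e, ae}` with `a ∈ A_d`: `e` does not commute with `d`. -/
theorem line_not_comm (hD : IsRootInvolutionSet D) {a e d : G} (ha : a ∈ oddPartners D d)
    (hd : d ∈ D) (he : e ∈ D) (hae : Commute a e) (h : a * e ∈ D) : ¬ Commute e d := fun hc =>
  ne_one hD he (L1 hD ha.1 (oddP_symm hD hd ha) hae.symm hc (by rw [← hae.eq]; exact h))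

/-- On a line `{a, e, ae}` with `a ∈ A_d`, `e ∈ V_d` one has `ae ∈ A_d`. -/
theorem LN2 (hD : IsRootInvolutionSet D) {a e d : G} (hd : d ∈ D) (ha : a ∈ oddPartners D d)
    (he : e ∈ fourPartners D d) (hae : Commute a e) (h : a * e ∈ D) :
    a * e ∈ oddPartners D d := by
  rcases tri hD hd h with hc | hc | hc
  · exfalso
    have haD := ha.1
    have hda := oddP_symm hD hd ha
    refine ne_one hD h (L1 hD haD hda ((Commute.refl a).mul_left hae.symm) hc.symm ?_)
    · rw [hae.eq, mul_assoc, sq hD haD, mul_one]; exact he.1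
  · exact hc
  · exfalso
    set g := (d * e) ^ 2 with hg
    set p := a * d * a with hp
    have hpD : p ∈ D := conj_mem hD hd ha.1
    have hgD : g ∈ D := four_mem hD hd he
    have hdg : Commute d g := four_comm_left hD hd he
    have heg : Commute e g := four_comm_right hD hd he
    have hed : e * d * e = d * g := four_conj_left hD hd
    -- p commutes with d * g
    have hk : (a * e) * d * (a * e) = d * (d * (a * e)) ^ 2 := four_conj_left hD hd
    have hkc : Commute d (d * (d * (a * e)) ^ 2) :=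
      (Commute.refl d).mul_right (four_comm_left hD hd hc)
    have hpe : e * p * e⁻¹ = d * (d * (a * e)) ^ 2 := by
      rw [← hk, hp, inv_eq hD he.1]
      calc e * (a * d * a) * e = (e * a) * d * (a * e) := by group
        _ = a * e * d * (a * e) := by rw [hae.eq]
    have hpc : Commute p (d * g) := by
      have h1 : Commute (e⁻¹ * (d * (d * (a * e)) ^ 2) * e⁻¹⁻¹) (e⁻¹ * d * e⁻¹⁻¹) :=
        conj_commute hkc.symm
      rw [← hpe, inv_inv, inv_eq hD he.1, hed] at h1
      have h2 : e * (e * p * e) * e = p := by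
        calc e * (e * p * e) * e = (e * e) * p * (e * e) := by group
          _ = p := by rw [sq hD he.1, one_mul, mul_one]
      rwa [h2] at h1
    have hpd : p ∈ oddPartners D d := by
      refine ⟨hpD, ?_, ?_⟩
      · intro h1
        apply not_comm_of_odd hD hd ha
        have : d * a = a * d := by
          calc d * a = (a * a) * d * a := by rw [sq hD ha.1, one_mul]
            _ = a * (a * d * a) := by group
            _ = a * d := by rw [← hp, h1]
        exact this
      · have : d * p = (d * a) ^ 2 := by rw [hp, pow_two]; group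
        rw [this]; exact odd_orderOf_pow ha.2.2 2
    have hdp := oddP_symm hD hd hpd
    have hpd_eq : p * d = d * g * (p * g) := by
      calc p * d = p * (d * g) * g := by
              rw [← mul_assoc p d g, mul_assoc (p * d) g g, sq hD hgD, mul_one]
        _ = d * g * p * g := by rw [hpc.eq]
        _ = d * g * (p * g) := by group
    have hdgc : Commute (d * g) (p * g) := hpc.symm.mul_right (hdg.mul_left (Commute.refl g))
    have hdg2 : (d * g) ^ 2 = 1 := by
      rw [hdg.mul_pow, pow_two, pow_two, sq hD hd, sq hD hgD, one_mul]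
    rcases tri hD hpD hgD with h1 | h1 | h1
    · apply not_comm_of_odd hD hpD hdp
      have h2 : d = d * g * g := by rw [mul_assoc, sq hD hgD, mul_one]
      rw [h2]; exact hpc.mul_right h1
    · have h2 : (p * d) ^ 2 = (p * g) ^ 2 := by
        rw [hpd_eq, hdgc.mul_pow, hdg2, one_mul]
      have h3 : p * d = p * g := sq_inj_of_odd hdp.2.2 h1.2.2 h2
      have h4 : d = g := mul_left_cancel h3
      apply not_comm_of_four hD hd he
      rw [h4]; exact heg.symm
    · have h2 : (p * d) ^ 4 = 1 := by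
        rw [hpd_eq, hdgc.mul_pow, show (4 : ℕ) = 2 * 2 by norm_num, pow_mul (d * g), hdg2,
          one_pow, one_mul, show 2 * 2 = 4 by norm_num, ← h1.2, pow_orderOf_eq_one]
      have h3 := eq_one_of_odd_four hdp.2.2 h2
      exact hpd.2.1 (eq_of_mul_eq_one hD hd h3)

/-! ### Conjugation invariance -/

theorem conj_mul_conj (g x y : G) : g * x * g⁻¹ * (g * y * g⁻¹) = g * (x * y) * g⁻¹ := by group

theorem orderOf_conj' (g x : G) : orderOf (g * x * g⁻¹) = orderOf x :=
  (MulAut.conj g).orderOf_eq x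

theorem oddP_conj (hD : IsRootInvolutionSet D) {a b : G} (g : G) (h : b ∈ oddPartners D a) :
    g * b * g⁻¹ ∈ oddPartners D (g * a * g⁻¹) := by
  refine ⟨hD.conj_mem _ h.1 g, fun h1 => h.2.1 ?_, ?_⟩
  · simpa using h1
  · rw [conj_mul_conj, orderOf_conj']; exact h.2.2

theorem fourP_conj (hD : IsRootInvolutionSet D) {a b : G} (g : G) (h : b ∈ fourPartners D a) :
    g * b * g⁻¹ ∈ fourPartners D (g * a * g⁻¹) := by
  refine ⟨hD.conj_mem _ h.1 g, ?_⟩
  rw [conj_mul_conj, orderOf_conj']; exact h.2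

theorem oddP_conj_iff (hD : IsRootInvolutionSet D) {a b : G} (g : G) :
    g * b * g⁻¹ ∈ oddPartners D (g * a * g⁻¹) ↔ b ∈ oddPartners D a := by
  refine ⟨fun h => ?_, oddP_conj hD g⟩
  have := oddP_conj hD g⁻¹ h
  have e : ∀ x : G, g⁻¹ * (g * x * g⁻¹) * g⁻¹⁻¹ = x := fun x => by group
  rwa [e, e] at this

/-! ### Odd transpositions and the 2-core -/

theorem odd_comm_conj [Finite G] (hD : IsOddTranspositionSet D) {a e q : G} (ha : a ∈ D)
    (he : e ∈ D) (hea : Commute e a) (hq : q ∈ pCore 2 G) : Commute e (q * a * q⁻¹) := by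
  have hQ : IsPGroup 2 (pCore 2 G) := H1.Cores.isPGroup_pCore 2
  have haq : q * a * q⁻¹ ∈ D := hD.1.conj_mem a ha q
  have h2 : (e * (q * a * q⁻¹)) ^ 2 ∈ pCore 2 G := by
    rw [← QuotientGroup.eq_one_iff]
    have h1 : (q : G ⧸ pCore 2 G) = 1 := (QuotientGroup.eq_one_iff q).2 hq
    have h3 : ((e * a) ^ 2 : G) = 1 := mul_sq_of_commute hD.1 he ha hea
    calc (((e * (q * a * q⁻¹)) ^ 2 : G) : G ⧸ pCore 2 G)
        = (e * (q * a * (q : G ⧸ pCore 2 G)⁻¹)) ^ 2 := by
          simp only [QuotientGroup.mk_pow, QuotientGroup.mk_mul, QuotientGroup.mk_inv]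
      _ = (((e * a) ^ 2 : G) : G ⧸ pCore 2 G) := by
          rw [h1]; simp only [inv_one, one_mul, mul_one, QuotientGroup.mk_pow, QuotientGroup.mk_mul]
      _ = 1 := by rw [h3]; rfl
  obtain ⟨k, hk⟩ := hQ ⟨_, h2⟩
  have hk' : (e * (q * a * q⁻¹)) ^ 2 ^ (k + 1) = 1 := by
    have := congrArg Subtype.val hk
    simp only [SubmonoidClass.mk_pow, OneMemClass.coe_one] at this
    rw [pow_succ, mul_comm, pow_mul]; exact this
  rcases hD.1.pair e he _ haq with h | h | h
  · exact h
  · have := eq_of_mul_eq_one hD.1 haq (eq_one_of_odd_isPGroup h hk')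
    rw [← this]
  · exact absurd h.1 (hD.2 e he _ haq)

/-! ### The graph of odd products -/

theorem oddAdj_iff {a b : G} : OddAdj D a b ↔ a ∈ D ∧ b ∈ oddPartners D a :=
  ⟨fun h => ⟨h.1, h.2.1, h.2.2.1.symm, h.2.2.2⟩, fun h => ⟨h.1, h.2.1, h.2.2.1.symm, h.2.2.2⟩⟩

theorem oddAdj_symm (hD : IsRootInvolutionSet D) {a b : G} (h : OddAdj D a b) : OddAdj D b a := by
  rw [oddAdj_iff] at h ⊢
  exact ⟨h.2.1, oddP_symm hD h.1 h.2⟩

theorem reach_symm (hD : IsRootInvolutionSet D) {a b : G}
    (h : Relation.ReflTransGen (OddAdj D) a b) : Relation.ReflTransGen (OddAdj D) b a := by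
  induction h with
  | refl => exact Relation.ReflTransGen.refl
  | tail _ h2 ih => exact Relation.ReflTransGen.head (oddAdj_symm hD h2) ih

theorem oddAdj_conj (hD : IsRootInvolutionSet D) {a b : G} (g : G) (h : OddAdj D a b) :
    OddAdj D (g * a * g⁻¹) (g * b * g⁻¹) := by
  rw [oddAdj_iff] at h ⊢
  exact ⟨hD.conj_mem _ h.1 g, oddP_conj hD g h.2⟩

theorem exists_odd_of_comp {a : G}
    (h : ∃ a' ∈ elemComponentOf (OddAdj D) D a, a' ≠ a) : ∃ d, OddAdj D a d := by
  obtain ⟨a', ⟨_, h1⟩, h2⟩ := h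
  rcases Relation.ReflTransGen.cases_head h1 with h3 | ⟨c, h3, _⟩
  · exact absurd h3.symm h2
  · exact ⟨c, h3⟩

theorem exists_odd_of_not_isolated (hD : IsRootInvolutionSet D) {a : G} (ha : a ∈ D)
    (h : ¬ IsIsolatedElem (OddAdj D) D a) : ∃ d, OddAdj D a d := by
  by_contra hc
  push Not at hc
  exact h ⟨ha, fun b => ⟨hc b, fun h1 => hc b (oddAdj_symm hD h1)⟩⟩

/-- Adjacent (on a line) nonisolated elements are connected by odd products. -/
theorem reach_of_line (hD : IsRootInvolutionSet D) {a e : G} (ha : a ∈ D) (he : e ∈ D)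
    (hae : Commute a e) (h : a * e ∈ D) (h1 : ∃ d, OddAdj D a d) (h2 : ∃ f, OddAdj D e f) :
    Relation.ReflTransGen (OddAdj D) a e := by
  have key : ∀ a e : G, a ∈ D → e ∈ D → Commute a e → a * e ∈ D → (∃ d, OddAdj D a d) →
      Relation.ReflTransGen (OddAdj D) a e ∨ Relation.ReflTransGen (OddAdj D) a (a * e) := by
    intro a e ha he hae h h1
    obtain ⟨d, hd⟩ := h1
    have hd' := oddAdj_iff.1 hd
    have had : a ∈ oddPartners D d := oddP_symm hD ha hd'.2
    have hdD := hd'.2.1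
    have hnc : ¬ Commute e d := line_not_comm hD had hdD he hae h
    rcases tri hD hdD he with h3 | h3 | h3
    · exact absurd h3.symm hnc
    · left
      exact (Relation.ReflTransGen.single hd).tail (oddAdj_iff.2 ⟨hdD, h3⟩)
    · right
      exact (Relation.ReflTransGen.single hd).tail (oddAdj_iff.2 ⟨hdD, LN2 hD hdD had h3 hae h⟩)
  rcases key a e ha he hae h h1 with h3 | h3
  · exact h3
  · rcases key e a he ha hae.symm (by rw [← hae.eq]; exact h) h2 with h4 | h4
    · exact reach_symm hD h4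
    · rw [← hae.eq] at h4
      exact h3.trans (reach_symm hD h4)

theorem line_of_productPartners {a e : G} (h : e ∈ productPartners D a) :
    e ∈ D ∧ Commute a e ∧ a * e ∈ D := by
  have hc : Commute a e := by
    have : e * a = a * e := h.1.2.1
    exact this.symm
  exact ⟨h.1.1, hc, by rw [hc.eq]; exact h.2⟩

theorem closure_normal {S : Set G} (h : ∀ w ∈ S, ∀ g : G, g * w * g⁻¹ ∈ S) :
    (Subgroup.closure S).Normal := by
  refine ⟨fun n hn g => ?_⟩
  have : (Subgroup.closure S).map (MulAut.conj g).toMonoidHom ≤ Subgroup.closure S := by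
    rw [MonoidHom.map_closure, Subgroup.closure_le]
    rintro _ ⟨w, hw, rfl⟩
    exact Subgroup.subset_closure (by simpa using h w hw g)
  have h2 := this (Subgroup.mem_map_of_mem _ hn)
  simpa using h2

/-- A set of involutions closed under conjugation by itself, with no nontrivial odd products,
generates a 2-group (Baer--Suzuki). -/
theorem mem_pCore_of_isolated [Finite G] (hD : IsRootInvolutionSet D) {w : G} (hw : w ∈ D)
    (h : ∀ g : G, g * w * g⁻¹ ∉ oddPartners D w) : w ∈ pCore 2 G := by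
  obtain ⟨N, hN, hN2, hwN⟩ := H55.BaerSuzuki.exists_normal_of_involution w (sq hD hw) (by
    intro x hx hinv
    have h1 : w * (x * w * x⁻¹) = (x ^ 2)⁻¹ := by
      calc w * (x * w * x⁻¹) = w * x * w * x⁻¹ := by group
        _ = w * x * w⁻¹ * x⁻¹ := by rw [inv_eq hD hw]
        _ = (x ^ 2)⁻¹ := by rw [hinv, pow_two, mul_inv_rev]
    have h2 : Odd (orderOf (w * (x * w * x⁻¹))) := by
      rw [h1, orderOf_inv]; exact odd_orderOf_pow hx 2
    have h3 : x * w * x⁻¹ = w := by
      by_contra hne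
      exact h x ⟨hD.conj_mem w hw x, hne, h2⟩
    rw [h3, sq hD hw] at h1
    exact eq_one_of_odd_sq hx (inv_eq_one.1 h1.symm))
  exact H1.Cores.le_pCore hN hN2 hwN

end H85.RootInv
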