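import Mathlib
import Cfsg.Agent.Lib.H85.RootInv

/-!
Root involutions (Timmesfeld): quadrangle-type arguments.
-/

set_option autoImplicit false
open Cfsg

namespace H85.RootInv

variable {G : Type*} [Group G] {D : Set G}

/-- If `a ∈ A_b`, `e` commutes with `a` and `e ∈ V_b` then `(be)² ∈ V_a`. -/
theorem NM (hD : IsRootInvolutionSet D) {a b e : G} (hb : b ∈ D) (ha : a ∈ oddPartners D b)
    (hea : Commute e a) (he : e ∈ fourPartners D b) : (b * e) ^ 2 ∈ fourPartners D a := by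
  have hf := four_mem hD hb he
  have hbf := four_comm_left hD hb he
  have hef := four_comm_right hD hb he
  have hbe := four_conj_left (b := e) hD hb
  rcases tri hD ha.1 hf with h | h | h
  · exfalso
    -- e commutes with (ab)²
    have h1 : e * (b * a) * e = (b * a) * (b * e) ^ 2 := by
      calc e * (b * a) * e = e * b * (a * e) := by group
        _ = e * b * (e * a) := by rw [hea.eq]
        _ = (e * b * e) * a := by group
        _ = b * (b * e) ^ 2 * a := by rw [hbe]
        _ = b * ((b * e) ^ 2 * a) := by group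
        _ = b * (a * (b * e) ^ 2) := by rw [h.eq]
        _ = (b * a) * (b * e) ^ 2 := by group
    have hcc : Commute (b * a) ((b * e) ^ 2) := hbf.mul_left h
    have h2 : e * (b * a) ^ 2 * e = (b * a) ^ 2 := by
      calc e * (b * a) ^ 2 * e = e * (b * a) * (b * a) * e := by rw [pow_two]; group
        _ = e * (b * a) * (e * e) * (b * a) * e := by rw [sq hD he.1, mul_one]
        _ = (e * (b * a) * e) * (e * (b * a) * e) := by group
        _ = (b * a * (b * e) ^ 2) ^ 2 := by rw [h1, ← pow_two]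
        _ = (b * a) ^ 2 * ((b * e) ^ 2) ^ 2 := by rw [hcc.mul_pow]
        _ = (b * a) ^ 2 := by rw [pow_two ((b * e) ^ 2), sq hD hf, mul_one]
    have h3 : Commute e ((b * a) ^ 2) := by
      have : e * (b * a) ^ 2 = (b * a) ^ 2 * e := by
        calc e * (b * a) ^ 2 = e * (b * a) ^ 2 * (e * e) := by rw [sq hD he.1, mul_one]
          _ = (e * (b * a) ^ 2 * e) * e := by group
          _ = (b * a) ^ 2 * e := by rw [h2]
      exact this
    have h4 : Commute e (b * a) := commute_of_odd_sq ha.2.2 h3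
    apply not_comm_of_four hD hb he
    have h5 : b = b * a * a := by rw [mul_assoc, sq hD ha.1, mul_one]
    rw [h5]
    exact (h4.mul_right hea).symm
  · exfalso
    refine ne_one hD he.1 (L1 hD hf (oddP_symm hD ha.1 h) hef hea ?_)
    exact four_mul_right_mem hD hb he
  · exact h

/-- `T g h`: members `e` of `X_g` with `e ∈ V_h`. -/
def T (D : Set G) (g h : G) : Set G := {e | e ∈ fourPartners D h ∧ Commute g e ∧ g * e ∈ D}

theorem NM_maps (hD : IsRootInvolutionSet D) {g h e : G} (hh : h ∈ D)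
    (hg : g ∈ oddPartners D h) (he : e ∈ T D g h) : (h * e) ^ 2 ∈ T D h g :=
  ⟨NM hD hh hg he.2.1.symm he.1, four_comm_left hD hh he.1, four_mul_left_mem hD hh he.1⟩

theorem NM_inj (hD : IsRootInvolutionSet D) {g h e₁ e₂ : G} (hh : h ∈ D)
    (hg : g ∈ oddPartners D h) (he₁ : e₁ ∈ T D g h) (he₂ : e₂ ∈ T D g h)
    (heq : (h * e₁) ^ 2 = (h * e₂) ^ 2) : e₁ = e₂ := by
  have h1 := sq hD he₁.1.1
  have h2 := sq hD he₂.1.1
  have hgg := sq hD hg.1
  -- z = e₁ e₂ commutes with h
  have hc1 := four_conj_left (b := e₁) hD hh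
  have hc2 := four_conj_left (b := e₂) hD hh
  have hzh : Commute (e₁ * e₂) h := by
    have h3 : e₁ * h * e₁ = e₂ * h * e₂ := by rw [hc1, hc2, heq]
    have : e₁ * e₂ * h = h * (e₁ * e₂) := by
      calc e₁ * e₂ * h = e₁ * e₂ * h * (e₂ * e₂) := by rw [h2, mul_one]
        _ = e₁ * (e₂ * h * e₂) * e₂ := by group
        _ = e₁ * (e₁ * h * e₁) * e₂ := by rw [h3]
        _ = (e₁ * e₁) * h * (e₁ * e₂) := by group
        _ = h * (e₁ * e₂) := by rw [h1, one_mul]
    exact this
  have hzg : Commute (e₁ * e₂) g := (he₁.2.1.symm).mul_left he₂.2.1.symm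
  have ha1 : g * e₁ ∈ oddPartners D h := LN2 hD hh hg he₁.1 he₁.2.1 he₁.2.2
  have ha2 : g * e₂ ∈ oddPartners D h := LN2 hD hh hg he₂.1 he₂.2.1 he₂.2.2
  -- g e₁ inverts z
  have hinv : (h * (g * e₁)) * (e₁ * e₂) * (h * (g * e₁))⁻¹ = (e₁ * e₂)⁻¹ := by
    have e1 : (h * (g * e₁))⁻¹ = e₁ * g * h := by
      rw [mul_inv_rev, mul_inv_rev, inv_eq hD hh, inv_eq hD hg.1, inv_eq hD he₁.1.1]
    have e2 : (e₁ * e₂)⁻¹ = e₂ * e₁ := by
      rw [mul_inv_rev, inv_eq hD he₁.1.1, inv_eq hD he₂.1.1]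
    have hzh' : Commute (e₂ * e₁) h := by rw [← e2]; exact hzh.inv_left
    have hzg' : Commute (e₂ * e₁) g := by rw [← e2]; exact hzg.inv_left
    rw [e1, e2]
    calc h * (g * e₁) * (e₁ * e₂) * (e₁ * g * h)
        = h * g * (e₁ * e₁) * (e₂ * e₁) * (g * h) := by group
      _ = h * g * ((e₂ * e₁) * g) * h := by rw [h1, mul_one]; group
      _ = h * g * (g * (e₂ * e₁)) * h := by rw [hzg'.eq]
      _ = h * (g * g) * (e₂ * e₁) * h := by group
      _ = h * ((e₂ * e₁) * h) := by rw [hgg, mul_one]; group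
      _ = h * (h * (e₂ * e₁)) := by rw [hzh'.eq]
      _ = e₂ * e₁ := cancel_left hD hh _
  have hzz : (e₁ * e₂) * (e₁ * e₂) = 1 := sq_eq_one_of_inverts ha1.2.2 hinv
  have hc12 : Commute e₁ e₂ := by
    have : e₁ * e₂ = e₂ * e₁ := by
      calc e₁ * e₂ = (e₁ * e₂)⁻¹ := (inv_eq_of_mul_eq_one_left hzz).symm
        _ = e₂ * e₁ := by rw [mul_inv_rev, inv_eq hD he₁.1.1, inv_eq hD he₂.1.1]
    exact this
  have hz1 : e₁ * e₂ = 1 := by
    refine L1 hD ha2.1 (oddP_symm hD hh ha2) (hzg.mul_right ?_) hzh ?_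
    · exact hc12.mul_left (Commute.refl e₂)
    · have : e₁ * e₂ * (g * e₂) = g * e₁ := by
        calc e₁ * e₂ * (g * e₂) = e₁ * (e₂ * g) * e₂ := by group
          _ = e₁ * (g * e₂) * e₂ := by rw [he₂.2.1.eq]
          _ = e₁ * g * (e₂ * e₂) := by group
          _ = g * e₁ := by rw [h2, mul_one, he₁.2.1.eq]
      rw [this]; exact he₁.2.2
  exact eq_of_mul_eq_one hD he₂.1.1 hz1

theorem NM_surj [Finite G] (hD : IsRootInvolutionSet D) {g h b : G} (hh : h ∈ D)
    (hg : g ∈ oddPartners D h) (hb : b ∈ T D g h) : ∃ f ∈ T D h g, (g * f) ^ 2 = b := by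
  have hh' : h ∈ oddPartners D g := oddP_symm hD hh hg
  let φ : T D g h → T D h g := fun e => ⟨(h * e.1) ^ 2, NM_maps hD hh hg e.2⟩
  let ψ : T D h g → T D g h := fun e => ⟨(g * e.1) ^ 2, NM_maps hD hg.1 hh' e.2⟩
  have hφ : Function.Injective φ := fun x y hxy =>
    Subtype.ext (NM_inj hD hh hg x.2 y.2 (congrArg Subtype.val hxy))
  have hψ : Function.Injective ψ := fun x y hxy =>
    Subtype.ext (NM_inj hD hg.1 hh' x.2 y.2 (congrArg Subtype.val hxy))
  have hs : Function.Surjective (ψ ∘ φ) := Finite.surjective_of_injective (hψ.comp hφ)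
  obtain ⟨f, hf⟩ := hs ⟨b, hb⟩
  exact ⟨(φ f).1, (φ f).2, congrArg Subtype.val hf⟩

/-- The 3-cycle argument. -/
theorem R3_odd (hD : IsRootInvolutionSet D) {a b x y : G} (ha : a ∈ D)
    (hx : x ∈ D) (hb : b ∈ D) (hab : Commute a b) (hby : b ≠ y) (hcby : Commute b y)
    (hy : a * y * a = y * b) (hxy : Commute x y) (hxb : x * b * x = b * y) :
    x ∈ oddPartners D a ∧ Commute b ((a * x) ^ 3) := by
  have hxx := sq hD hx
  have haa := sq hD ha
  have hbb := sq hD hb
  have i : (a * x)⁻¹ = x * a := mul_inv_rev' hD ha hx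
  have c1 : (a * x) * b * (a * x)⁻¹ = y := by
    rw [i]
    calc a * x * b * (x * a) = a * (x * b * x) * a := by group
      _ = a * (b * y) * a := by rw [hxb]
      _ = a * b * y * a := by group
      _ = b * a * y * a := by rw [hab.eq]
      _ = b * (a * y * a) := by group
      _ = b * (y * b) := by rw [hy]
      _ = b * (b * y) := by rw [hcby.eq]
      _ = y := cancel_left hD hb _
  have c2 : (a * x) * y * (a * x)⁻¹ = y * b := by
    rw [i]
    calc a * x * y * (x * a) = a * (x * y) * x * a := by group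
      _ = a * (y * x) * x * a := by rw [hxy.eq]
      _ = a * y * (x * x) * a := by group
      _ = y * b := by rw [hxx, mul_one, hy]
  have c3 : (a * x) * (y * b) * (a * x)⁻¹ = b := by
    have : (a * x) * (y * b) * (a * x)⁻¹ = ((a * x) * y * (a * x)⁻¹) * ((a * x) * b * (a * x)⁻¹) := by
      group
    rw [this, c1, c2, ← hcby.eq, mul_assoc]
    rw [show y * y = 1 from ?_, mul_one]
    have h1 : b * b = 1 := hbb
    have h2 : (a * x) * (b * b) * (a * x)⁻¹ = 1 := by rw [h1]; group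
    have h3 : (a * x) * (b * b) * (a * x)⁻¹ = y * y := by
      nth_rewrite 1 [← c1]; nth_rewrite 1 [← c1]; group
    rw [← h3]; exact h2
  have c4 : (a * x) ^ 3 * b * ((a * x) ^ 3)⁻¹ = b := by
    calc (a * x) ^ 3 * b * ((a * x) ^ 3)⁻¹
        = (a * x) * ((a * x) * ((a * x) * b * (a * x)⁻¹) * (a * x)⁻¹) * (a * x)⁻¹ := by
          simp [pow_succ, mul_assoc]
      _ = b := by rw [c1, c2, c3]
  have hcomm : Commute b ((a * x) ^ 3) := by
    have : (a * x) ^ 3 * b = b * (a * x) ^ 3 := mul_inv_eq_iff_eq_mul.1 c4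
    exact this.symm
  have hne : ¬ Commute b (a * x) := by
    intro h
    apply hby
    rw [← c1, ← h.eq]; group
  refine ⟨?_, hcomm⟩
  rcases tri hD ha hx with h | h | h
  · exfalso
    apply hne
    have h1 := mul_sq_of_commute hD ha hx h
    have h2 : (a * x) ^ 3 = a * x := by rw [pow_succ, h1, one_mul]
    rwa [h2] at hcomm
  · exact h
  · exfalso
    apply hne
    have h1 := pow_orderOf_eq_one (a * x)
    rw [h.2, pow_succ] at h1
    have h2 : a * x = ((a * x) ^ 3)⁻¹ := (inv_eq_of_mul_eq_one_right h1).symm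
    rw [h2]; exact hcomm.inv_right

/-- The order-3 conclusion. -/
theorem R3 (hD : IsRootInvolutionSet D) {a b x y : G} (ha : a ∈ D)
    (hx : x ∈ D) (hb : b ∈ D) (hab : Commute a b) (hby : b ≠ y) (hcby : Commute b y)
    (hy : a * y * a = y * b) (hxy : Commute x y) (hxb : x * b * x = b * y) (hl : b * a ∈ D) :
    orderOf (a * x) = 3 := by
  obtain ⟨hodd, hc⟩ := R3_odd hD ha hx hb hab hby hcby hy hxy hxb
  have hne1 : a * x ≠ 1 := fun h1 => hodd.2.1 (eq_of_mul_eq_one hD hx h1).symm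
  have h3 : (a * x) ^ 3 = 1 := by
    by_contra hne
    obtain ⟨m, hm⟩ := pow_of_odd (odd_orderOf_pow hodd.2.2 3)
    -- a' = a (ax)^3 = r^{-j} a r^j
    set s := ((a * x) ^ 3) ^ m with hs
    have hs2 : s * s = (a * x) ^ 3 := by
      rw [hs, ← pow_add, ← two_mul, pow_mul]; exact hm
    have hinv : a * s * a = s⁻¹ := by
      have h4 : a * (a * x) * a⁻¹ = (a * x)⁻¹ := by
        rw [mul_inv_rev' hD ha hx, inv_eq hD ha, cancel_left hD ha]
      have h5 : a * s * a⁻¹ = s⁻¹ := by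
        rw [hs, ← pow_mul, ← conj_pow, h4, inv_pow]
      rwa [inv_eq hD ha] at h5
    have ha' : a * (a * x) ^ 3 = s⁻¹ * a * s⁻¹⁻¹ := by
      rw [← hs2, inv_inv]
      calc a * (s * s) = (a * s * a) * a⁻¹ * s := by group
        _ = s⁻¹ * a * s := by rw [hinv, inv_eq hD ha]
    have haD : a * (a * x) ^ 3 ∈ D := by rw [ha']; exact hD.conj_mem a ha _
    have hap : a * (a * x) ^ 3 ∈ oddPartners D a := by
      refine ⟨haD, fun h => hne ?_, ?_⟩
      · exact mul_left_cancel (h.trans (mul_one a).symm)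
      · rw [cancel_left hD ha]; exact odd_orderOf_pow hodd.2.2 3
    exact ne_one hD hb (L1 hD ha hap hab.symm (hab.symm.mul_right hc) hl)
  have h4 := orderOf_dvd_of_pow_eq_one h3
  rcases (Nat.dvd_prime Nat.prime_three).1 h4 with h5 | h5
  · exact absurd (orderOf_eq_one_iff.1 h5) hne1
  · exact h5

end H85.RootInv
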