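import Mathlib
import Cfsg.Agent.Lib.H85.RootInv2

/-!
Root involutions (Timmesfeld): the connected case.
-/

set_option autoImplicit false
open Cfsg
open scoped commutatorElement

namespace H85.RootInv

variable {G : Type*} [Group G] {D : Set G}

/-- reflection swapping two odd partners -/
theorem odd_swap (hD : IsRootInvolutionSet D) {a b : G} (ha : a ∈ D) (h : b ∈ oddPartners D a) :
    ∃ c ∈ D, c * a * c⁻¹ = b ∧ c * b * c⁻¹ = a := by
  obtain ⟨m, hm⟩ := pow_of_odd h.2.2
  obtain ⟨m', hm'⟩ := pow_of_odd (odd_orderOf_pow h.2.2 m)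
  set s := (a * b) ^ m with hs
  have hss : s * s = a * b := by
    rw [hs, ← pow_add, ← two_mul, pow_mul]; exact hm
  set t := s ^ m' with ht
  have htt : t * t = s := by
    rw [ht, ← pow_add, ← two_mul, pow_mul]; exact hm'
  have haa := sq hD ha
  have hinv0 : a * (a * b) * a⁻¹ = (a * b)⁻¹ := by
    rw [mul_inv_rev' hD ha h.1, inv_eq hD ha, cancel_left hD ha]
  have hinv : a * s * a = s⁻¹ := by
    have h5 : a * s * a⁻¹ = s⁻¹ := by rw [hs, ← conj_pow, hinv0, inv_pow]
    rwa [inv_eq hD ha] at h5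
  have hinvt : a * t * a = t⁻¹ := by
    have h5 : a * t * a⁻¹ = t⁻¹ := by
      rw [ht, ← conj_pow, inv_eq hD ha, hinv, inv_pow]
    rwa [inv_eq hD ha] at h5
  have hcD : a * s ∈ D := by
    have : a * s = t⁻¹ * a * t⁻¹⁻¹ := by
      rw [← htt, inv_inv]
      calc a * (t * t) = (a * t * a) * a⁻¹ * t := by group
        _ = t⁻¹ * a * t := by rw [hinvt, inv_eq hD ha]
    rw [this]; exact hD.conj_mem a ha _
  have e1 : (a * s) * a * (a * s)⁻¹ = b := by
    rw [inv_eq hD hcD]
    calc (a * s) * a * (a * s) = a * s * (a * a) * s := by group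
      _ = a * (s * s) := by rw [haa, mul_one, mul_assoc]
      _ = b := by rw [hss, cancel_left hD ha]
  refine ⟨a * s, hcD, e1, ?_⟩
  rw [← e1, inv_eq hD hcD]
  have h2 := sq hD hcD
  calc a * s * (a * s * a * (a * s)) * (a * s) = (a * s * (a * s)) * a * (a * s * (a * s)) := by
        group
    _ = a := by rw [h2, one_mul, mul_one]

theorem conj_of_reach (hD : IsRootInvolutionSet D) {a b : G}
    (h : Relation.ReflTransGen (OddAdj D) a b) : ∃ g : G, g * a * g⁻¹ = b := by
  induction h with
  | refl => exact ⟨1, by group⟩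
  | @tail x y _ h2 ih =>
    obtain ⟨g, hg⟩ := ih
    obtain ⟨c, _, hc, _⟩ := odd_swap hD h2.1 (oddAdj_iff.1 h2).2
    refine ⟨c * g, ?_⟩
    rw [← hc, ← hg]; group

theorem ncard_oddP_conj (hD : IsRootInvolutionSet D) (a g : G) :
    (oddPartners D (g * a * g⁻¹)).ncard = (oddPartners D a).ncard := by
  have : oddPartners D (g * a * g⁻¹) = (fun x => g * x * g⁻¹) '' oddPartners D a := by
    ext x
    constructor
    · intro hx
      refine ⟨g⁻¹ * x * g, ?_, by group⟩
      rw [← oddP_conj_iff hD g]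
      have : g * (g⁻¹ * x * g) * g⁻¹ = x := by group
      rw [this]; exact hx
    · rintro ⟨y, hy, rfl⟩
      exact oddP_conj hD g hy
  rw [this, Set.ncard_image_of_injective]
  intro x y hxy
  simpa using hxy

theorem oddP_eq_of_subset [Finite G] (hD : IsRootInvolutionSet D)
    (hc : IsConnectedSet (OddAdj D) D) {a b : G} (ha : a ∈ D) (hb : b ∈ D)
    (h : oddPartners D a ⊆ oddPartners D b) : oddPartners D a = oddPartners D b := by
  obtain ⟨g, hg⟩ := conj_of_reach hD (hc a ha b hb)
  refine Set.eq_of_subset_of_ncard_le h ?_ (Set.toFinite _)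
  rw [← hg, ncard_oddP_conj hD]

theorem oddP_conj_eq (hD : IsRootInvolutionSet D) {a b : G} (g : G)
    (h : oddPartners D a = oddPartners D b) :
    oddPartners D (g * a * g⁻¹) = oddPartners D (g * b * g⁻¹) := by
  ext x
  have e : g * (g⁻¹ * x * g) * g⁻¹ = x := by group
  rw [← e, oddP_conj_iff hD, oddP_conj_iff hD, h]

theorem comm_of_mem {D : Set G} {a b : G} (h : b ∈ commutingMembers D a) : Commute b a := h.2

/-- (I) -/
theorem oddP_subset_of_comm (hD : IsRootInvolutionSet D) {a c : G} (ha : a ∈ D) (hc : c ∈ D)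
    (h : commutingMembers D a = commutingMembers D c) : oddPartners D a ⊆ oddPartners D c := by
  intro b hb
  have hac : c ∈ commutingMembers D a := by rw [h]; exact ⟨hc, rfl⟩
  rcases tri hD hc hb.1 with h1 | h1 | h1
  · exfalso
    have : b ∈ commutingMembers D a := by rw [h]; exact ⟨hb.1, h1.symm⟩
    exact not_comm_of_odd hD ha hb (comm_of_mem this).symm
  · exact h1
  · exfalso
    have hcb := fourP_symm hD hc h1
    have h2 := NM hD hb.1 (oddP_symm hD ha hb) (comm_of_mem hac) hcb
    have hf : (b * c) ^ 2 ∈ commutingMembers D a := by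
      rw [h]; exact ⟨four_mem hD hb.1 hcb, (four_comm_right hD hb.1 hcb).symm.eq⟩
    exact not_comm_of_four hD ha h2 (comm_of_mem hf).symm

theorem mem_pCore_of_isolated' {P : Type*} [Group P] [Finite P] {w : P} (hw : w * w = 1)
    (h : ∀ g : P, Odd (orderOf (w * (g * w * g⁻¹))) → g * w * g⁻¹ = w) : w ∈ pCore 2 P := by
  have hwi : w⁻¹ = w := inv_eq_of_mul_eq_one_left hw
  obtain ⟨N, hN, hN2, hwN⟩ := H55.BaerSuzuki.exists_normal_of_involution w hw (by
    intro x hx hinv
    have h1 : w * (x * w * x⁻¹) = (x ^ 2)⁻¹ := by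
      calc w * (x * w * x⁻¹) = w * x * w * x⁻¹ := by group
        _ = w * x * w⁻¹ * x⁻¹ := by rw [hwi]
        _ = (x ^ 2)⁻¹ := by rw [hinv, pow_two, mul_inv_rev]
    have h2 : Odd (orderOf (w * (x * w * x⁻¹))) := by
      rw [h1, orderOf_inv]; exact odd_orderOf_pow hx 2
    have h3 : x * w * x⁻¹ = w := h x h2
    rw [h3, hw] at h1
    exact eq_one_of_odd_sq hx (inv_eq_one.1 h1.symm))
  exact H1.Cores.le_pCore hN hN2 hwN

theorem eq_bot_of_le_commutator {H : Subgroup G} [Group.IsSolvable H] (h : H ≤ ⁅H, H⁆) :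
    H = ⊥ := by
  by_contra hne
  rw [← ne_eq, ← Subgroup.nontrivial_iff_ne_bot] at hne
  have h1 := Group.IsSolvable.commutator_lt_top_of_nontrivial H
  have h2 : (commutator H).map H.subtype = ⁅H, H⁆ := by
    rw [commutator_def, Subgroup.map_commutator, ← MonoidHom.range_eq_map, H.range_subtype]
  have h3 : (commutator H).map H.subtype < (⊤ : Subgroup H).map H.subtype :=
    Subgroup.map_subtype_lt_map_subtype.2 h1
  rw [h2, ← MonoidHom.range_eq_map, H.range_subtype] at h3
  exact absurd h (not_le_of_gt h3)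

/-- Classes with equal `A_d` generate 2-groups, and members never are commutators of two others. -/
theorem no_commutator [Finite G] (hD : IsRootInvolutionSet D)
    {b c k h : G} (hb : b ∈ D) (hk : k ∈ D) (hc : c ∈ D)
    (hh : h ∈ oddPartners D b)
    (hck : oddPartners D c = oddPartners D b) (hkb : oddPartners D k = oddPartners D b)
    (heq : (b * c) ^ 2 = k) : False := by
  have : Fact (Nat.Prime 2) := ⟨Nat.prime_two⟩
  set B : Set G := {x | x ∈ D ∧ oddPartners D x = oddPartners D b} with hB
  set P : Subgroup G := Subgroup.closure B with hP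
  have hno : ∀ x ∈ B, ∀ y ∈ B, y ∉ oddPartners D x := by
    intro x hx y hy hxy
    rw [hx.2, ← hy.2] at hxy
    exact hxy.2.1 rfl
  have hinv : ∀ x ∈ B, ∀ y ∈ B, y * x * y⁻¹ ∈ B := by
    intro x hx y hy
    refine ⟨hD.conj_mem x hx.1 y, ?_⟩
    have h1 : oddPartners D (y * x * y⁻¹) = oddPartners D (y * y * y⁻¹) :=
      oddP_conj_eq hD y (hx.2.trans hy.2.symm)
    rw [h1]
    have : y * y * y⁻¹ = y := by group
    rw [this]; exact hy.2
  have hinv' : ∀ g ∈ P, ∀ x ∈ B, g * x * g⁻¹ ∈ B := by
    intro g hg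
    refine Subgroup.closure_induction (p := fun g _ => ∀ x ∈ B, g * x * g⁻¹ ∈ B) ?_ ?_ ?_ ?_ hg
    · exact fun y hy x hx => hinv x hx y hy
    · intro x hx; simpa using hx
    · intro g₁ g₂ _ _ h1 h2 x hx
      have : g₁ * g₂ * x * (g₁ * g₂)⁻¹ = g₁ * (g₂ * x * g₂⁻¹) * g₁⁻¹ := by group
      rw [this]; exact h1 _ (h2 x hx)
    · intro g _ h1 x hx
      -- finiteness: conj by g maps B into B hence onto
      have hinj : Set.InjOn (fun x => g * x * g⁻¹) B := by
        intro x _ y _ hxy; simpa using hxy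
      have hmaps : Set.MapsTo (fun x => g * x * g⁻¹) B B := h1
      have himg : (fun x => g * x * g⁻¹) '' B = B := by
        apply Set.eq_of_subset_of_ncard_le hmaps.image_subset _ (Set.toFinite _)
        rw [hinj.ncard_image]
      rw [← himg] at hx
      obtain ⟨y, hy, rfl⟩ := hx
      have : g⁻¹ * (g * y * g⁻¹) * g⁻¹⁻¹ = y := by group
      rw [this]; exact hy
  have hPsub : ∀ x (hx : x ∈ B), (⟨x, Subgroup.subset_closure hx⟩ : P) ∈ pCore 2 P := by
    intro x hx
    apply mem_pCore_of_isolated'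
    · apply Subtype.ext; exact sq hD hx.1
    · intro g hg
      apply Subtype.ext
      by_contra hne
      have h1 := hinv' g.1 g.2 x hx
      refine hno x hx _ h1 ⟨h1.1, hne, ?_⟩
      rw [← Subgroup.orderOf_coe] at hg
      exact hg
  have htop : pCore 2 P = ⊤ := by
    rw [eq_top_iff]
    have h1 : (⊤ : Subgroup P).map P.subtype ≤ (pCore 2 P).map P.subtype := by
      rw [← MonoidHom.range_eq_map, P.range_subtype]
      nth_rewrite 1 [hP]
      rw [Subgroup.closure_le]
      intro x hx
      exact ⟨_, hPsub x hx, rfl⟩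
    exact Subgroup.map_subtype_le_map_subtype.1 h1
  have hP2 : IsPGroup 2 P := by
    have h1 : IsPGroup 2 (pCore 2 P) := H1.Cores.isPGroup_pCore 2
    rw [htop] at h1
    exact h1.of_equiv Subgroup.topEquiv
  have hnil : Group.IsNilpotent P := hP2.isNilpotent
  have hsol : Group.IsSolvable P := inferInstance
  have hbB : b ∈ B := ⟨hb, rfl⟩
  have hcB : c ∈ B := ⟨hc, hck⟩
  have hkB : k ∈ B := ⟨hk, hkb⟩
  have hkPP : k ∈ ⁅P, P⁆ := by
    have : k = ⁅b, c⁆ := by
      rw [← heq, commutatorElement_def, inv_eq hD hb, inv_eq hD hc, pow_two]; group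
    rw [this]
    exact Subgroup.commutator_mem_commutator (Subgroup.subset_closure hbB)
      (Subgroup.subset_closure hcB)
  have hle : P ≤ ⁅P, P⁆ := by
    nth_rewrite 1 [hP]
    rw [Subgroup.closure_le]
    intro x hx
    have h1 : h ∈ oddPartners D k := by rw [hkb]; exact hh
    have h2 : h ∈ oddPartners D x := by rw [hx.2]; exact hh
    obtain ⟨c₁, _, hc1, _⟩ := odd_swap hD hk h1
    obtain ⟨c₂, _, _, hc2⟩ := odd_swap hD hx.1 h2
    have hr : (c₂ * c₁) * k * (c₂ * c₁)⁻¹ = x := by
      rw [← hc2, ← hc1]; group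
    have hrB : ∀ y ∈ B, (c₂ * c₁) * y * (c₂ * c₁)⁻¹ ∈ B := by
      intro y hy
      refine ⟨hD.conj_mem y hy.1 _, ?_⟩
      rw [oddP_conj_eq hD (c₂ * c₁) (hy.2.trans hkb.symm), hr]
      exact hx.2
    generalize c₂ * c₁ = r at hr hrB
    have hrP : P.map (MulAut.conj r).toMonoidHom ≤ P := by
      rw [hP, MonoidHom.map_closure, Subgroup.closure_le]
      rintro _ ⟨y, hy, rfl⟩
      exact Subgroup.subset_closure (by simpa using hrB y hy)
    have h3 : (MulAut.conj r).toMonoidHom k ∈ (⁅P, P⁆).map (MulAut.conj r).toMonoidHom :=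
      Subgroup.mem_map_of_mem _ hkPP
    rw [Subgroup.map_commutator] at h3
    have h4 := Subgroup.commutator_mono hrP hrP h3
    have h5 : (MulAut.conj r).toMonoidHom k = x := by
      rw [← hr]; simp
    rw [h5] at h4
    exact h4
  have hbot := eq_bot_of_le_commutator hle
  have : b ∈ P := Subgroup.subset_closure hbB
  rw [hbot, Subgroup.mem_bot] at this
  exact ne_one hD hb this

/-- (II) -/
theorem comm_subset_of_oddP [Finite G] (hD : IsRootInvolutionSet D)
    (hconn : IsConnectedSet (OddAdj D) D) {a b : G} (ha : a ∈ D) (hb : b ∈ D)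
    (hab : oddPartners D a = oddPartners D b) : commutingMembers D a ⊆ commutingMembers D b := by
  intro c hc
  refine ⟨hc.1, ?_⟩
  by_contra hncb
  have hcD := hc.1
  have hca : Commute c a := hc.2
  have hcb4 : c ∈ fourPartners D b := by
    rcases tri hD hb hcD with h | h | h
    · exact absurd h.symm hncb
    · rw [← hab] at h
      exact absurd hca.symm (not_comm_of_odd hD ha h)
    · exact h
  set k := (b * c) ^ 2 with hk
  have hkD : k ∈ D := four_mem hD hb hcb4
  have hbk : Commute b k := four_comm_left hD hb hcb4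
  have hck : Commute c k := four_comm_right hD hb hcb4
  have hbkD : b * k ∈ D := four_mul_left_mem hD hb hcb4
  have hckD : c * k ∈ D := four_mul_right_mem hD hb hcb4
  have hcbc : c * b * c = b * k := four_conj_left hD hb
  have hAbk : oddPartners D (b * k) = oddPartners D b := by
    have h1 := oddP_conj_eq hD c hab
    have h2 : c * a * c⁻¹ = a := by rw [hca.eq]; group
    have h3 : c * b * c⁻¹ = b * k := by rw [inv_eq hD hcD]; exact hcbc
    rw [h2, h3] at h1
    rw [← h1]; exact hab
  have hsub : oddPartners D k ⊆ oddPartners D b := by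
    intro x hx
    have hkx := oddP_symm hD hkD hx
    rcases tri hD hb hx.1 with h | h | h
    · exact absurd h (line_not_comm hD hkx hx.1 hb hbk.symm (by rw [← hbk.eq]; exact hbkD))
    · exact h
    · exfalso
      have h1 := LN2 hD hx.1 hkx (fourP_symm hD hb h) hbk.symm (by rw [← hbk.eq]; exact hbkD)
      have h2 := oddP_symm hD hx.1 h1
      rw [← hbk.eq, hAbk] at h2
      exact not_four_of_odd h2 h
  have hAk : oddPartners D k = oddPartners D b := oddP_eq_of_subset hD hconn hkD hb hsub
  have hsub2 : oddPartners D k ⊆ oddPartners D c := by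
    intro h hh
    have hkh := oddP_symm hD hkD hh
    rcases tri hD hcD hh.1 with h1 | h1 | h1
    · exact absurd h1 (line_not_comm hD hkh hh.1 hcD hck.symm (by rw [← hck.eq]; exact hckD))
    · exact h1
    · exfalso
      have hT : c ∈ T D k h :=
        ⟨fourP_symm hD hcD h1, hck.symm, by rw [← hck.eq]; exact hckD⟩
      obtain ⟨f, hf, hfc⟩ := NM_surj hD hh.1 hkh hT
      have hfD : f ∈ D := hf.1.1
      have hfc1 : Commute f c := by rw [← hfc]; exact four_comm_right hD hkD hf.1
      have h2 : f * k * f = k * c := by rw [← hfc]; exact four_conj_left hD hkD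
      have h3 : b * c * b = c * k := by rw [hck.eq]; exact four_conj_right hD hcD
      have hne : c ≠ k := by
        intro h4
        apply not_comm_of_four hD hb hcb4
        rw [h4]; exact hbk
      obtain ⟨h5, _⟩ := R3_odd hD hfD hb hcD hfc1 hne hck h2 hbk h3
      have h6 := oddP_symm hD hfD h5
      rw [← hAk] at h6
      exact not_four_of_odd h6 hf.1
  have hAc : oddPartners D k = oddPartners D c := oddP_eq_of_subset hD hconn hkD hcD hsub2
  have hne : b ≠ c := by
    intro h
    apply not_comm_of_four hD hb hcb4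
    rw [h]
  obtain ⟨h, hh⟩ : ∃ h, h ∈ oddPartners D b := by
    rcases Relation.ReflTransGen.cases_head (hconn b hb c hcD) with h1 | ⟨x, h1, _⟩
    · exact absurd h1 hne
    · exact ⟨x, (oddAdj_iff.1 h1).2⟩
  exact no_commutator hD hb hkD hcD hh (hAc.symm.trans hAk) hAk hk.symm

/-- `C_D(a) = C_D(b)` iff `A_a = A_b`. -/
theorem comm_eq_iff [Finite G] (hD : IsRootInvolutionSet D)
    (hconn : IsConnectedSet (OddAdj D) D) {a b : G} (ha : a ∈ D) (hb : b ∈ D) :
    commutingMembers D a = commutingMembers D b ↔ oddPartners D a = oddPartners D b :=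
  ⟨fun h => Set.Subset.antisymm (oddP_subset_of_comm hD ha hb h)
    (oddP_subset_of_comm hD hb ha h.symm),
   fun h => Set.Subset.antisymm (comm_subset_of_oddP hD hconn ha hb h)
    (comm_subset_of_oddP hD hconn hb ha h.symm)⟩

theorem union_eq_diff (hD : IsRootInvolutionSet D) {a : G} (ha : a ∈ D) :
    commutingMembers D a ∪ fourPartners D a = D \ oddPartners D a := by
  ext x
  constructor
  · rintro (h | h)
    · exact ⟨h.1, fun h1 => not_comm_of_odd hD ha h1 (comm_of_mem h).symm⟩
    · exact ⟨h.1, fun h1 => not_four_of_odd h1 h⟩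
  · rintro ⟨h1, h2⟩
    rcases tri hD ha h1 with h | h | h
    · exact Or.inl ⟨h1, h.symm⟩
    · exact absurd h h2
    · exact Or.inr h

theorem oddP_eq_iff (hD : IsRootInvolutionSet D) {a b : G} (ha : a ∈ D) (hb : b ∈ D) :
    commutingMembers D a ∪ fourPartners D a = commutingMembers D b ∪ fourPartners D b ↔
      oddPartners D a = oddPartners D b := by
  rw [union_eq_diff hD ha, union_eq_diff hD hb]
  constructor
  · intro h
    have h1 : D \ (D \ oddPartners D a) = D \ (D \ oddPartners D b) := by rw [h]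
    rwa [Set.sdiff_sdiff_cancel_left (fun x hx => hx.1),
      Set.sdiff_sdiff_cancel_left (fun x hx => hx.1)] at h1
  · intro h; rw [h]

end H85.RootInv
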