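import Mathlib
import Cfsg.Agent.Lib.H85.RootInv3
import Cfsg.Prelude.Def_QuasithinSetup

/-!
Root involutions (Timmesfeld): normal subgroups.
-/

set_option autoImplicit false
open Cfsg

namespace H85.RootInv

section general

variable {G : Type*} [Group G]

/-- A 2-subgroup normalised by a normal subgroup `N`, intersected with `N`, lies in `O_p(G)`. -/
theorem inf_le_pCore [Finite G] {p : ℕ} {E N : Subgroup G} [N.Normal] (hE : IsPGroup p E)
    (h : ∀ n ∈ N, ∀ x ∈ E, n * x * n⁻¹ ∈ E) {x : G} (hx : x ∈ E) (hxN : x ∈ N) :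
    x ∈ pCore p G := by
  have hn : (E.subgroupOf N).Normal := ⟨fun y hy n => by
    rw [Subgroup.mem_subgroupOf] at hy ⊢
    exact h n n.2 y hy⟩
  have h1 : E.subgroupOf N ≤ pCore p N := H1.Cores.le_pCore hn (hE.comap_subtype)
  have h2 : x ∈ (pCore p N).map N.subtype := ⟨⟨x, hxN⟩, h1 (Subgroup.mem_subgroupOf.2 hx), rfl⟩
  rw [H1.Cores.map_subtype_pCore] at h2
  exact h2.2

theorem twoZCore_solvable [Finite G] : Group.IsSolvable (twoZCore G) := by
  have : Fact (Nat.Prime 2) := ⟨Nat.prime_two⟩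
  have hQ : IsPGroup 2 (pCore 2 G) := H1.Cores.isPGroup_pCore 2
  have hnil : Group.IsNilpotent (pCore 2 G) := hQ.isNilpotent
  have hsol : Group.IsSolvable (pCore 2 G) := inferInstance
  let g : twoZCore G →* Subgroup.center (G ⧸ pCore 2 G) :=
    ((QuotientGroup.mk' (pCore 2 G)).comp (twoZCore G).subtype).codRestrict
      (Subgroup.center (G ⧸ pCore 2 G)) (fun x => x.2)
  have hle : pCore 2 G ≤ twoZCore G := by
    intro x hx
    show (QuotientGroup.mk' (pCore 2 G)) x ∈ Subgroup.center (G ⧸ pCore 2 G)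
    have : (QuotientGroup.mk' (pCore 2 G)) x = 1 := (QuotientGroup.eq_one_iff x).2 hx
    rw [this]; exact Subgroup.one_mem _
  have hcs : Group.IsSolvable (Subgroup.center (G ⧸ pCore 2 G)) :=
    Group.isSolvable_of_comm fun a b => Subtype.ext (Subgroup.mem_center_iff.1 b.2 a.1)
  refine Group.isSolvable_of_ker_le_range (Subgroup.inclusion hle) g ?_
  intro x hx
  have h1 : (QuotientGroup.mk' (pCore 2 G)) x.1 = 1 := congrArg Subtype.val (MonoidHom.mem_ker.1 hx)
  have h2 : x.1 ∈ pCore 2 G := (QuotientGroup.eq_one_iff x.1).1 h1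
  exact ⟨⟨x.1, h2⟩, rfl⟩

end general

variable {G : Type*} [Group G] {D : Set G}

theorem exists_line (hD : IsRootInvolutionSet D) (hc : IsConnectedSet (OddAdj D) D)
    (hDD : (D ∩ commutingProducts D).Nonempty) {d : G} (hd : d ∈ D) :
    ∃ b ∈ D, Commute d b ∧ d * b ∈ D := by
  obtain ⟨x, hx, a, ha, b, hb, hab, _, rfl⟩ := hDD
  obtain ⟨g, hg⟩ := conj_of_reach hD (hc _ hx d hd)
  have hab' : Commute a b := hab
  refine ⟨g * a * g⁻¹, hD.conj_mem a ha g, ?_, ?_⟩
  · rw [← hg]
    exact conj_commute ((Commute.refl a).mul_left hab'.symm)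
  · rw [← hg, conj_mul_conj]
    have : a * b * a = b := by rw [hab'.eq, mul_assoc, sq hD ha, mul_one]
    rw [this]; exact hD.conj_mem b hb g

theorem eq_top_of_mem (hD : IsRootInvolutionSet D) (hc : IsConnectedSet (OddAdj D) D)
    {N : Subgroup G} (hN : N.Normal) {x : G} (hx : x ∈ D) (hxN : x ∈ N) : N = ⊤ := by
  rw [eq_top_iff, ← hD.generates, Subgroup.closure_le]
  intro y hy
  obtain ⟨g, hg⟩ := conj_of_reach hD (hc x hx y hy)
  rw [← hg]; exact hN.conj_mem x hxN g

theorem normal_comm (hD : IsRootInvolutionSet D) (hc : IsConnectedSet (OddAdj D) D)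
    (hDD : (D ∩ commutingProducts D).Nonempty) {N : Subgroup G} (hN : N.Normal) (hNT : N ≠ ⊤)
    {d : G} (hd : d ∈ D) {n : G} (hn : n ∈ N) : Commute d (n * d * n⁻¹) := by
  have hno : ∀ x ∈ D, x ∉ N := fun x hx hxN => hNT (eq_top_of_mem hD hc hN hx hxN)
  set e := n * d * n⁻¹ with he
  have heD : e ∈ D := hD.conj_mem d hd n
  have hdeN : d * e ∈ N := by
    have : d * e = d * n * d⁻¹ * n⁻¹ := by rw [he, inv_eq hD hd]; group
    rw [this]; exact N.mul_mem (hN.conj_mem n hn d) (N.inv_mem hn)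
  rcases tri hD hd heD with h | h | h
  · exact h
  · exfalso
    obtain ⟨b, hb, hdb, hdbD⟩ := exists_line hD hc hDD hd
    have hde := oddP_symm hD hd h
    have huN : e * d ∈ N := by
      rw [← mul_inv_rev' hD hd heD]; exact N.inv_mem hdeN
    have heb : e * b = (e * d) * (d * b) := by
      calc e * b = e * (d * d) * b := by rw [sq hD hd, mul_one]
        _ = (e * d) * (d * b) := by group
    have hsq : (e * b) ^ 2 ∈ N := by
      have h1 : (e * b) ^ 2 = (e * d) * ((d * b) * (e * d) * (d * b)⁻¹) * ((d * b) ^ 2) := by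
        rw [heb, pow_two, pow_two]; group
      rw [h1, mul_sq_of_commute hD hd hb hdb, mul_one]
      exact N.mul_mem huN (hN.conj_mem _ huN _)
    rcases tri hD heD hb with h1 | h1 | h1
    · exact line_not_comm hD hde heD hb hdb hdbD h1.symm
    · obtain ⟨m, hm⟩ := pow_of_odd h1.2.2
      have h2 : e * b ∈ N := by rw [← hm]; exact N.pow_mem hsq m
      rw [heb] at h2
      exact hno _ hdbD ((N.mul_mem_cancel_left huN).1 h2)
    · exact hno _ (four_mem hD heD h1) hsq
  · exact absurd (N.pow_mem hdeN 2) (hno _ (four_mem hD hd h))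

theorem normal_mem_pCore [Finite G] (hD : IsRootInvolutionSet D)
    (hc : IsConnectedSet (OddAdj D) D)
    (hDD : (D ∩ commutingProducts D).Nonempty) {N : Subgroup G} (hN : N.Normal) (hNT : N ≠ ⊤)
    {d : G} (hd : d ∈ D) {n : G} (hn : n ∈ N) : d * (n * d * n⁻¹) ∈ pCore 2 G := by
  set S : Set G := {x | ∃ n ∈ N, n * d * n⁻¹ = x} with hS
  have hcomm : ∀ x ∈ S, ∀ y ∈ S, Commute x y := by
    rintro _ ⟨n₁, h1, rfl⟩ _ ⟨n₂, h2, rfl⟩
    have h3 := normal_comm hD hc hDD hN hNT hd (N.mul_mem (N.inv_mem h1) h2)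
    have h4 := conj_commute (g := n₁) h3
    have h5 : n₁ * (n₁⁻¹ * n₂ * d * (n₁⁻¹ * n₂)⁻¹) * n₁⁻¹ = n₂ * d * n₂⁻¹ := by group
    rwa [h5] at h4
  have hcomm2 : ∀ x ∈ Subgroup.closure S, ∀ y ∈ Subgroup.closure S, Commute x y := by
    intro x hx
    have hxS : ∀ y ∈ S, Commute x y := by
      intro y hy
      refine Subgroup.closure_induction (p := fun x _ => Commute x y) ?_ ?_ ?_ ?_ hx
      · exact fun z hz => hcomm z hz y hy
      · exact Commute.one_left y
      · exact fun a b _ _ h1 h2 => h1.mul_left h2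
      · exact fun a _ h1 => h1.inv_left
    intro y hy
    refine Subgroup.closure_induction (p := fun y _ => Commute x y) ?_ ?_ ?_ ?_ hy
    · exact fun z hz => hxS z hz
    · exact Commute.one_right x
    · exact fun a b _ _ h1 h2 => h1.mul_right h2
    · exact fun a _ h1 => h1.inv_right
  have hsq : ∀ x ∈ Subgroup.closure S, x ^ 2 = 1 := by
    intro x hx
    refine Subgroup.closure_induction (p := fun x _ => x ^ 2 = 1) ?_ ?_ ?_ ?_ hx
    · rintro _ ⟨n₁, h1, rfl⟩
      rw [pow_two]; exact sq hD (hD.conj_mem d hd n₁)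
    · exact one_pow 2
    · intro a b ha hb h1 h2
      rw [(hcomm2 a ha b hb).mul_pow, h1, h2, one_mul]
    · intro a _ h1
      rw [inv_pow, h1, inv_one]
  have hE : IsPGroup 2 (Subgroup.closure S) := by
    intro x
    refine ⟨1, ?_⟩
    apply Subtype.ext
    rw [pow_one]; exact hsq x.1 x.2
  have hinv : ∀ n ∈ N, ∀ x ∈ Subgroup.closure S, n * x * n⁻¹ ∈ Subgroup.closure S := by
    intro m hm x hx
    have h1 : (Subgroup.closure S).map (MulAut.conj m).toMonoidHom ≤ Subgroup.closure S := by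
      rw [MonoidHom.map_closure, Subgroup.closure_le]
      rintro _ ⟨_, ⟨n₁, h1, rfl⟩, rfl⟩
      apply Subgroup.subset_closure
      refine ⟨m * n₁, N.mul_mem hm h1, ?_⟩
      show m * n₁ * d * (m * n₁)⁻¹ = m * (n₁ * d * n₁⁻¹) * m⁻¹
      group
    exact h1 ⟨x, hx, rfl⟩
  refine inf_le_pCore hE hinv ?_ ?_ (N := N)
  · refine Subgroup.mul_mem _ (Subgroup.subset_closure ⟨1, N.one_mem, by group⟩)
      (Subgroup.subset_closure ⟨n, hn, rfl⟩)
  · have : d * (n * d * n⁻¹) = d * n * d⁻¹ * n⁻¹ := by rw [inv_eq hD hd]; group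
    rw [this]; exact N.mul_mem (hN.conj_mem n hn d) (N.inv_mem hn)

theorem normal_le_twoZCore [Finite G] (hD : IsRootInvolutionSet D)
    (hc : IsConnectedSet (OddAdj D) D)
    (hDD : (D ∩ commutingProducts D).Nonempty) {N : Subgroup G} (hN : N.Normal) (hNT : N ≠ ⊤) :
    N ≤ twoZCore G := by
  intro n hn
  show (QuotientGroup.mk' (pCore 2 G)) n ∈ Subgroup.center (G ⧸ pCore 2 G)
  rw [Subgroup.mem_center_iff]
  intro g
  obtain ⟨g, rfl⟩ := QuotientGroup.mk'_surjective (pCore 2 G) g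
  have hle : (⊤ : Subgroup G) ≤ (Subgroup.centralizer
      {(QuotientGroup.mk' (pCore 2 G)) n}).comap (QuotientGroup.mk' (pCore 2 G)) := by
    rw [← hD.generates, Subgroup.closure_le]
    intro d hd
    show (QuotientGroup.mk' (pCore 2 G)) d ∈ Subgroup.centralizer {(QuotientGroup.mk' (pCore 2 G)) n}
    rw [Subgroup.mem_centralizer_iff]
    intro h hh
    rw [Set.mem_singleton_iff] at hh
    subst hh
    have h1 := normal_mem_pCore hD hc hDD hN hNT hd hn
    rw [← map_mul, ← map_mul]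
    have h2 : (QuotientGroup.mk' (pCore 2 G)) (d * (n * d * n⁻¹)) = 1 :=
      (QuotientGroup.eq_one_iff _).2 h1
    have h3 : d * n = (d * (n * d * n⁻¹)) * (n * d) := by
      have hdd := sq hD hd
      calc d * n = d * n * (d * d) := by rw [hdd, mul_one]
        _ = (d * (n * d * n⁻¹)) * (n * d) := by group
    rw [h3, map_mul _ (d * (n * d * n⁻¹)), h2, one_mul]
  have := hle (Subgroup.mem_top g)
  rw [Subgroup.mem_comap, Subgroup.mem_centralizer_iff] at this
  exact (this _ rfl).symm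

theorem perfect (hD : IsRootInvolutionSet D)
    (hc : IsConnectedSet (OddAdj D) D)
    (hDD : (D ∩ commutingProducts D).Nonempty) : commutator G = ⊤ := by
  have hcl : ∀ x ∈ D, ∀ y ∈ D, Abelianization.of x = Abelianization.of y := by
    intro x hx y hy
    obtain ⟨g, hg⟩ := conj_of_reach hD (hc x hx y hy)
    rw [← hg, map_mul, map_mul, map_inv, mul_comm (Abelianization.of g), mul_assoc,
      mul_inv_cancel, mul_one]
  obtain ⟨x, hx, a, ha, b, hb, hab, _, rfl⟩ := hDD
  have h1 : Abelianization.of a = 1 := by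
    have h2 := hcl (a * b) hx a ha
    have h3 := hcl b hb a ha
    rw [map_mul, h3] at h2
    exact mul_eq_left.1 h2
  rw [eq_top_iff, ← hD.generates, Subgroup.closure_le]
  intro y hy
  have h2 : Abelianization.of y = 1 := by rw [← h1]; exact hcl y hy a ha
  rw [← Abelianization.ker_of]
  exact h2

theorem not_solvable (hD : IsRootInvolutionSet D)
    (hc : IsConnectedSet (OddAdj D) D)
    (hDD : (D ∩ commutingProducts D).Nonempty) : ¬ Group.IsSolvable G := by
  intro hs
  have hp := perfect hD hc hDD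
  obtain ⟨x, hx, _⟩ := hDD
  have : Nontrivial G := ⟨x, 1, ne_one hD hx⟩
  exact absurd hp (Group.IsSolvable.commutator_lt_top_of_nontrivial G).ne

end H85.RootInv
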