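import Mathlib
set_option autoImplicit false
set_option maxHeartbeats 400000

/-! Largest order of an abelian permutation group of degree n. -/

namespace H85.AbPerm
open MulAction

/-- the bounding function -/
def f : ℕ → ℕ
  | 0 => 1
  | 1 => 1
  | 2 => 2
  | 3 => 3
  | 4 => 4
  | (n+5) => 3 * f (n+2)

theorem f_step (n : ℕ) : f (n+5) = 3 * f (n+2) := by
  rw [f]

theorem f_pos (n : ℕ) : 1 ≤ f n := by
  induction n using Nat.strong_induction_on with
  | _ n ih =>
    match n, ih with
    | 0, _ => decide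
    | 1, _ => decide
    | 2, _ => decide
    | 3, _ => decide
    | 4, _ => decide
    | (n+5), ih =>
      rw [f_step]
      have := ih (n+2) (by omega)
      omega

theorem small (n : ℕ) : f n ≤ f (n+1) ∧ 2 * f n ≤ f (n+2) ∧ 3 * f n ≤ f (n+3) ∧ 4 * f n ≤ f (n+4) := by
  induction n using Nat.strong_induction_on with
  | _ n ih =>
    match n, ih with
    | 0, _ => decide
    | 1, _ => decide
    | 2, _ => decide
    | 3, _ => decide
    | 4, _ => decide
    | (n+5), ih =>
      obtain ⟨h1, h2, h3, h4⟩ := ih (n+2) (by omega)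
      have e0 := f_step n
      have e1 : f (n+5+1) = 3 * f (n+2+1) := f_step (n+1)
      have e2 : f (n+5+2) = 3 * f (n+2+2) := f_step (n+2)
      have e3 : f (n+5+3) = 3 * f (n+2+3) := f_step (n+3)
      have e4 : f (n+5+4) = 3 * f (n+2+4) := f_step (n+4)
      refine ⟨?_, ?_, ?_, ?_⟩ <;> omega

theorem mul_le (m : ℕ) : ∀ n, m * f n ≤ f (n+m) := by
  induction m using Nat.strong_induction_on with
  | _ m ih =>
    intro n
    obtain ⟨h1, h2, h3, h4⟩ := small n
    match m, ih with
    | 0, _ => simp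
    | 1, _ => simpa using h1
    | 2, _ => exact h2
    | 3, _ => exact h3
    | 4, _ => exact h4
    | (m+5), ih =>
      have := ih (m+2) (by omega) n
      obtain ⟨_, _, h, _⟩ := small (n+(m+2))
      have e : n + (m+2) + 3 = n + (m+5) := by ring
      rw [e] at h
      calc (m+5) * f n ≤ 3 * ((m+2) * f n) := by nlinarith [f_pos n, Nat.zero_le (m * f n)]
        _ ≤ 3 * f (n+(m+2)) := by omega
        _ ≤ _ := h

theorem f_three (k : ℕ) : f (3*k) = 3^k := by
  induction k using Nat.strong_induction_on with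
  | _ k ih =>
    match k, ih with
    | 0, _ => decide
    | 1, _ => decide
    | (k+2), ih =>
      have e : 3 * (k+2) = (3*k+1)+5 := by ring
      have e' : 3*k+1+2 = 3 * (k+1) := by ring
      rw [e, f_step, e', ih (k+1) (by omega)]
      ring

theorem f_three_two (k : ℕ) : f (3*k+2) = 2 * 3^k := by
  induction k with
  | zero => decide
  | succ k ih =>
    have e : 3 * (k+1) + 2 = (3*k)+5 := by ring
    rw [e, f_step, ih]
    ring

theorem f_three_one (k : ℕ) : f (3*(k+1)+1) = 4 * 3^k := by
  induction k with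
  | zero => decide
  | succ k ih =>
    have e : 3 * (k+1+1) + 1 = (3*k+2)+5 := by ring
    have e' : 3*k+2+2 = 3 * (k+1) + 1 := by ring
    rw [e, f_step, e', ih]
    ring

universe u v

theorem comm_fix {A : Type u} {X : Type v} [CommGroup A] [MulAction A X] {x : X} {k : A}
    (hk : k ∈ stabilizer A x) {y : X} (hy : y ∈ orbit A x) : k • y = y := by
  obtain ⟨a, rfl⟩ := hy
  rw [← mul_smul, mul_comm, mul_smul, mem_stabilizer_iff.1 hk]

theorem compl_stable {A : Type u} {X : Type v} [CommGroup A] [MulAction A X] {x : X} (k : A)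
    {y : X} (hy : y ∉ orbit A x) : k • y ∉ orbit A x := by
  intro h
  apply hy
  have := mem_orbit_of_mem_orbit (k⁻¹) h
  rwa [inv_smul_smul] at this

/-- the action of a stabiliser on the complement of the orbit -/
@[reducible] def act {A : Type u} {X : Type v} [CommGroup A] [MulAction A X] (x : X) :
    MulAction (stabilizer A x) {y : X // y ∉ orbit A x} where
  smul k y := ⟨(k : A) • y.1, compl_stable _ y.2⟩
  one_smul y := Subtype.ext (one_smul A y.1)
  mul_smul k l y := Subtype.ext (mul_smul (k : A) (l : A) y.1)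

theorem act_faithful {A : Type u} {X : Type v} [CommGroup A] [MulAction A X] [FaithfulSMul A X] (x : X) :
    letI := act (A := A) x
    FaithfulSMul (stabilizer A x) {y : X // y ∉ orbit A x} := by
  letI := act (A := A) x
  refine ⟨?_⟩
  intro k l h
  apply Subtype.ext
  apply FaithfulSMul.eq_of_smul_eq_smul (α := X)
  intro y
  by_cases hy : y ∈ orbit A x
  · rw [comm_fix k.2 hy, comm_fix l.2 hy]
  · exact congrArg Subtype.val (h ⟨y, hy⟩)

theorem card_compl {A : Type u} {X : Type v} [CommGroup A] [MulAction A X] [Finite X] (x : X) :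
    Nat.card {y : X // y ∉ orbit A x} + Nat.card (orbit A x) = Nat.card X := by
  classical
  have := Fintype.ofFinite X
  simp only [Nat.card_eq_fintype_card]
  have h := Fintype.card_subtype_compl (fun y : X => y ∈ orbit A x)
  have h2 := Fintype.card_subtype_le (fun y : X => y ∈ orbit A x)
  have h3 : Fintype.card (orbit A x) = Fintype.card {y : X // y ∈ orbit A x} := rfl
  omega

theorem card_eq {A : Type u} {X : Type v} [CommGroup A] [MulAction A X] [Finite A] (x : X) :
    Nat.card A = Nat.card (orbit A x) * Nat.card (stabilizer A x) := by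
  rw [← Nat.card_prod]
  exact (Nat.card_congr (MulAction.orbitProdStabilizerEquivGroup A x)).symm

theorem card_le (n : ℕ) : ∀ (A : Type u) (X : Type v) [CommGroup A] [Finite A] [MulAction A X]
    [FaithfulSMul A X] [Finite X], Nat.card X = n → Nat.card A ≤ f n := by
  induction n using Nat.strong_induction_on with
  | _ n ih =>
    intro A X _ _ _ _ _ hn
    rcases isEmpty_or_nonempty X with hX | ⟨⟨x⟩⟩
    · have : Subsingleton A := ⟨fun a b => FaithfulSMul.eq_of_smul_eq_smul (α := X) (fun y => hX.elim y)⟩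
      have h1 : Nat.card A ≤ 1 := Finite.card_le_one_iff_subsingleton.2 this
      exact h1.trans (f_pos n)
    · have hc := card_compl (A := A) x
      have hpos : 0 < Nat.card (orbit A x) := by
        have : Nonempty (orbit A x) := ⟨⟨x, mem_orbit_self x⟩⟩
        exact Nat.card_pos
      letI := act (A := A) x
      haveI := act_faithful (A := A) x
      have h1 := ih (Nat.card {y : X // y ∉ orbit A x}) (by omega) (stabilizer A x)
        {y : X // y ∉ orbit A x} rfl
      rw [card_eq (A := A) x]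
      have h2 := mul_le (Nat.card (orbit A x)) (Nat.card {y : X // y ∉ orbit A x})
      rw [hc, hn] at h2
      exact (Nat.mul_le_mul_left _ h1).trans h2

theorem card_le_orbit (A : Type u) (X : Type v) [CommGroup A] [Finite A] [MulAction A X]
    [FaithfulSMul A X] [Finite X] (x : X) :
    Nat.card A ≤ Nat.card (orbit A x) * f (Nat.card {y : X // y ∉ orbit A x}) := by
  letI := act (A := A) x
  haveI := act_faithful (A := A) x
  have h1 := card_le (Nat.card {y : X // y ∉ orbit A x}) (stabilizer A x)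
        {y : X // y ∉ orbit A x} rfl
  rw [card_eq (A := A) x]
  exact Nat.mul_le_mul_left _ h1

/-- subgroup version -/
theorem perm_le {X : Type u} [Finite X] (A : Subgroup (Equiv.Perm X)) (hA : IsMulCommutative A) :
    Nat.card A ≤ f (Nat.card X) := by
  letI : CommGroup A := { mul_comm := fun a b => hA.is_comm.comm a b }
  exact card_le (Nat.card X) A X rfl

theorem perm_le_orbit {X : Type u} [Finite X] (A : Subgroup (Equiv.Perm X)) (hA : IsMulCommutative A)
    (x : X) : Nat.card A ≤ Nat.card (orbit A x) * f (Nat.card X - Nat.card (orbit A x)) := by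
  letI : CommGroup A := { mul_comm := fun a b => hA.is_comm.comm a b }
  have h1 := card_le_orbit A X x
  have h2 := card_compl (A := A) x
  have h3 : Nat.card {y : X // y ∉ orbit A x} = Nat.card X - Nat.card (orbit A x) := by omega
  rwa [h3] at h1

/-- numeric bound -/
theorem num (k m n : ℕ) (hk : 2 ≤ k) (h0 : m ≠ 0) (h2 : m ≠ 2) (h3 : m ≠ 3) (hmn : n + m = 3 * k + 2) :
    m * f n ≤ 16 * 3 ^ (k-2) := by
  obtain ⟨j, rfl⟩ : ∃ j, k = j + 2 := ⟨k-2, by omega⟩
  simp only [Nat.add_sub_cancel]
  match m, h0, h2, h3, hmn with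
  | 1, _, _, _, h =>
    have : n = 3 * ((j+1)+1)+1 := by omega
    subst this
    rw [f_three_one (j+1), pow_succ]
    omega
  | 4, _, _, _, h =>
    have : n = 3 * (j+1)+1 := by omega
    subst this
    rw [f_three_one j]
    omega
  | 5, _, _, _, h =>
    have : n = 3 * (j+1) := by omega
    subst this
    rw [f_three (j+1), pow_succ]
    omega
  | (m+6), _, _, _, h =>
    have h1 := mul_le (m+3) n
    have : n + (m+3) = 3 * (j+1) + 2 := by omega
    rw [this, f_three_two, pow_succ] at h1
    nlinarith [f_pos n, Nat.zero_le (m * f n)]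

/-- an abelian group of even permutations with an orbit of length two is small -/
theorem half {X : Type u} [Finite X] [DecidableEq X] [Fintype X] (A : Subgroup (Equiv.Perm X)) (hA : IsMulCommutative A)
    (hs : ∀ a ∈ A, Equiv.Perm.sign a = 1) (x : X) (hx : Nat.card (orbit A x) = 2) :
    2 * Nat.card A ≤ f (Nat.card X) := by
  classical
  -- the two points
  obtain ⟨y, hyx, hO⟩ : ∃ y, y ≠ x ∧ orbit A x = {x, y} := by
    have h2 : (orbit A x).ncard = 2 := by rw [← hx]; rfl
    obtain ⟨a, b, hab, h⟩ := Set.ncard_eq_two.1 h2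
    have hx' : x ∈ orbit A x := mem_orbit_self x
    rw [h] at hx'
    rcases hx' with rfl | rfl
    · exact ⟨b, hab.symm, h⟩
    · exact ⟨a, hab, by rw [h, Set.pair_comm]⟩
  set t : Equiv.Perm X := Equiv.swap x y with ht
  have htc : ∀ a ∈ A, a * t = t * a := by
    intro a ha
    have h1 : a x ∈ orbit A x := ⟨⟨a, ha⟩, rfl⟩
    have hy : y ∈ orbit A x := by rw [hO]; simp
    have h2 : a y ∈ orbit A x := mem_orbit_of_mem_orbit (⟨a, ha⟩ : A) hy
    rw [hO] at h1 h2
    have h3 : a * t * a⁻¹ = t := by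
      rw [ht, ← Equiv.swap_apply_apply]
      rcases h1 with h1 | h1 <;> rcases h2 with h2 | h2
      · exact absurd (a.injective (h1.trans h2.symm)) (Ne.symm hyx)
      · rw [h1, h2]
      · rw [h1, h2, Equiv.swap_comm]
      · exact absurd (a.injective (h1.trans h2.symm)) (Ne.symm hyx)
    calc a * t = (a * t * a⁻¹) * a := by group
      _ = t * a := by rw [h3]
  have htA : t ∉ A := by
    intro h
    have := hs t h
    rw [ht, Equiv.Perm.sign_swap hyx.symm] at this
    exact absurd this (by decide)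
  -- the bigger abelian group
  have ht2 : t * t = 1 := Equiv.swap_mul_self x y
  set B : Subgroup (Equiv.Perm X) := Subgroup.closure (↑A ∪ {t}) with hB
  have hBc : IsMulCommutative B := by
    rw [hB]
    apply Subgroup.isMulCommutative_closure
    intro a ha b hb
    rcases ha with ha | ha <;> rcases hb with hb | hb
    · exact congrArg Subtype.val (hA.is_comm.comm (⟨a, ha⟩ : A) ⟨b, hb⟩)
    · rw [Set.mem_singleton_iff] at hb; subst hb; exact htc a ha
    · rw [Set.mem_singleton_iff] at ha; subst ha; exact (htc b hb).symm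
    · rw [Set.mem_singleton_iff] at ha hb; rw [ha, hb]
  have hAB : A < B := by
    refine lt_of_le_of_ne (fun a ha => Subgroup.subset_closure (Or.inl ha)) ?_
    intro h
    apply htA
    rw [h]
    exact Subgroup.subset_closure (Or.inr rfl)
  have h1 := perm_le B hBc
  have h2 : 2 * Nat.card A ≤ Nat.card B := by
    obtain ⟨c, hc⟩ := Subgroup.card_dvd_of_le hAB.le
    have hpos : 0 < Nat.card B := Nat.card_pos
    have hne : c ≠ 1 := by
      rintro rfl
      rw [mul_one] at hc
      exact absurd (Subgroup.eq_of_le_of_card_ge hAB.le hc.le) hAB.ne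
    have : c ≠ 0 := by
      rintro rfl
      omega
    rw [hc]
    nlinarith [Nat.zero_le (Nat.card A), show 2 ≤ c by omega]
  exact h2.trans h1

/-- bound for groups of even permutations, degree `3k+2` -/
theorem alt_bound (k : ℕ) (hk : 2 ≤ k) {X : Type u} [DecidableEq X] [Fintype X] (hX : Nat.card X = 3 * k + 2)
    (A : Subgroup (Equiv.Perm X)) (hA : IsMulCommutative A)
    (hs : ∀ a ∈ A, Equiv.Perm.sign a = 1) : Nat.card A ≤ 16 * 3 ^ (k-2) := by
  classical
  by_cases h : ∃ x : X, Nat.card (orbit A x) ≠ 3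
  · obtain ⟨x, hx⟩ := h
    have hpos : 0 < Nat.card (orbit A x) := by
      have : Nonempty (orbit A x) := ⟨⟨x, mem_orbit_self x⟩⟩
      exact Nat.card_pos
    have hc : Nat.card (orbit A x) ≤ Nat.card X := Nat.card_le_card_of_injective _ Subtype.val_injective
    by_cases h2 : Nat.card (orbit A x) = 2
    · have := half A hA hs x h2
      rw [hX, f_three_two] at this
      obtain ⟨j, rfl⟩ : ∃ j, k = j + 2 := ⟨k-2, by omega⟩
      simp only [Nat.add_sub_cancel]
      rw [pow_succ, pow_succ] at this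
      omega
    · exact (perm_le_orbit A hA x).trans (num k _ _ hk hpos.ne' h2 hx (by omega))
  · push Not at h
    exfalso
    have h1 : Nat.card X = Nat.card (Quotient (MulAction.orbitRel A X)) * 3 := by
      have e := MulAction.selfEquivSigmaOrbits A X
      rw [Nat.card_congr e, Nat.card_sigma]
      have : ∀ ω : Quotient (MulAction.orbitRel A X), Nat.card (orbit A ω.out) = 3 := fun ω => h _
      rw [Finset.sum_congr rfl (fun ω _ => this ω), Finset.sum_const, smul_eq_mul, Finset.card_univ, Nat.card_eq_fintype_card]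
    omega

/-- existence predicate -/
def P (n a : ℕ) : Prop := ∃ A : Subgroup (Equiv.Perm (Fin n)), IsMulCommutative A ∧ Nat.card A = a ∧
  ∀ x ∈ A, Equiv.Perm.sign x = 1

/-- existence predicate -/
def Q (n a : ℕ) : Prop := ∃ A : Subgroup (Equiv.Perm (Fin n)), IsMulCommutative A ∧ Nat.card A = a

/-- block sum hom -/
noncomputable def hom (n m : ℕ) : Equiv.Perm (Fin n) × Equiv.Perm (Fin m) →* Equiv.Perm (Fin (n+m)) :=
  (MulEquiv.toMonoidHom (Equiv.permCongrHom (finSumFinEquiv : Fin n ⊕ Fin m ≃ Fin (n+m)))).comp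
    (Equiv.Perm.sumCongrHom (Fin n) (Fin m))

theorem hom_inj (n m : ℕ) : Function.Injective (hom n m) := by
  intro a b h
  exact Equiv.Perm.sumCongrHom_injective ((Equiv.permCongrHom _).injective h)

theorem hom_sign (n m : ℕ) (x : Equiv.Perm (Fin n) × Equiv.Perm (Fin m)) :
    Equiv.Perm.sign (hom n m x) = Equiv.Perm.sign x.1 * Equiv.Perm.sign x.2 := by
  have : hom n m x = (finSumFinEquiv : Fin n ⊕ Fin m ≃ Fin (n+m)).permCongr (Equiv.Perm.sumCongr x.1 x.2) := rfl
  rw [this, Equiv.Perm.sign_permCongr, Equiv.Perm.sign_sumCongr]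

theorem prod_comm {G H : Type*} [Group G] [Group H] (A : Subgroup G) (B : Subgroup H)
    (hA : IsMulCommutative A) (hB : IsMulCommutative B) : IsMulCommutative (A.prod B) := by
  refine ⟨⟨?_⟩⟩
  rintro ⟨⟨a, b⟩, ha, hb⟩ ⟨⟨c, d⟩, hc, hd⟩
  apply Subtype.ext
  apply Prod.ext
  · exact congrArg Subtype.val (hA.is_comm.comm (⟨a, ha⟩ : A) ⟨c, hc⟩)
  · exact congrArg Subtype.val (hB.is_comm.comm (⟨b, hb⟩ : B) ⟨d, hd⟩)

theorem map_comm {G H : Type*} [Group G] [Group H] (A : Subgroup G) (φ : G →* H)
    (hA : IsMulCommutative A) : IsMulCommutative (A.map φ) := by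
  refine ⟨⟨?_⟩⟩
  rintro ⟨_, a, ha, rfl⟩ ⟨_, c, hc, rfl⟩
  apply Subtype.ext
  change φ a * φ c = φ c * φ a
  rw [← map_mul, ← map_mul]
  exact congrArg φ (congrArg Subtype.val (hA.is_comm.comm (⟨a, ha⟩ : A) ⟨c, hc⟩))

theorem card_map_prod {n m : ℕ} (A : Subgroup (Equiv.Perm (Fin n))) (B : Subgroup (Equiv.Perm (Fin m))) :
    Nat.card ((A.prod B).map (hom n m)) = Nat.card A * Nat.card B := by
  rw [Nat.card_congr ((A.prod B).equivMapOfInjective _ (hom_inj n m)).symm.toEquiv]
  rw [Nat.card_congr (Subgroup.prodEquiv A B).toEquiv, Nat.card_prod]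

theorem P_mul {n m a b : ℕ} (h1 : P n a) (h2 : P m b) : P (n+m) (a*b) := by
  obtain ⟨A, hA, rfl, hAs⟩ := h1
  obtain ⟨B, hB, rfl, hBs⟩ := h2
  refine ⟨(A.prod B).map (hom n m), map_comm _ _ (prod_comm A B hA hB), card_map_prod A B, ?_⟩
  rintro _ ⟨⟨x, y⟩, ⟨hx, hy⟩, rfl⟩
  rw [hom_sign, hAs _ hx, hBs _ hy, one_mul]

theorem Q_mul {n m a b : ℕ} (h1 : Q n a) (h2 : Q m b) : Q (n+m) (a*b) := by
  obtain ⟨A, hA, rfl⟩ := h1
  obtain ⟨B, hB, rfl⟩ := h2
  exact ⟨(A.prod B).map (hom n m), map_comm _ _ (prod_comm A B hA hB), card_map_prod A B⟩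

theorem Q_of_P {n a : ℕ} (h : P n a) : Q n a := by
  obtain ⟨A, h1, h2, _⟩ := h
  exact ⟨A, h1, h2⟩

theorem P_zero : P 0 1 := ⟨⊥, inferInstance, by simp, by
  intro x hx
  rw [Subgroup.mem_bot] at hx
  rw [hx]; simp⟩

theorem P_three : P 3 3 := by
  have h1 : Nat.card (alternatingGroup (Fin 3)) = 3 := by
    have := two_mul_nat_card_alternatingGroup (α := Fin 3)
    simp [Nat.card_eq_fintype_card, Fintype.card_perm, Nat.factorial] at this ⊢
    omega
  refine ⟨alternatingGroup (Fin 3), ?_, h1, fun x hx => hx⟩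
  haveI : Fact (Nat.Prime 3) := ⟨by norm_num⟩
  haveI := isCyclic_of_prime_card (α := alternatingGroup (Fin 3)) h1
  exact ⟨⟨fun a b => (IsCyclic.commGroup (α := alternatingGroup (Fin 3))).mul_comm a b⟩⟩

theorem Q_two : Q 2 2 := by
  have h1 : Nat.card (⊤ : Subgroup (Equiv.Perm (Fin 2))) = 2 := by
    rw [Subgroup.card_top, Nat.card_perm]; simp [Nat.factorial]
  refine ⟨⊤, ?_, h1⟩
  haveI : Fact (Nat.Prime 2) := ⟨by norm_num⟩
  haveI := isCyclic_of_prime_card (α := (⊤ : Subgroup (Equiv.Perm (Fin 2)))) h1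
  exact ⟨⟨fun a b => (IsCyclic.commGroup (α := (⊤ : Subgroup (Equiv.Perm (Fin 2))))).mul_comm a b⟩⟩

theorem P_four : P 4 4 := by
  have hα : Nat.card (Fin 4) = 4 := by simp
  have h1 := alternatingGroup.kleinFour_card_of_card_eq_four (α := Fin 4) hα
  have h2 := alternatingGroup.kleinFour_isKleinFour (α := Fin 4) hα
  refine ⟨(alternatingGroup.kleinFour (Fin 4)).map (alternatingGroup (Fin 4)).subtype, ?_, ?_, ?_⟩
  · apply map_comm
    exact ⟨⟨fun a b => mul_comm_of_exponent_two h2.exponent_two a b⟩⟩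
  · rw [Subgroup.card_map_of_injective (Subgroup.subtype_injective _), h1]
  · rintro _ ⟨x, _, rfl⟩
    exact x.2

theorem P_three_pow (k : ℕ) : P (3*k) (3^k) := by
  induction k with
  | zero => exact P_zero
  | succ k ih => exact P_mul ih P_three

theorem P_one_mod (k : ℕ) : P (3*(k+1)+1) (4*3^k) := by
  have := P_mul (P_three_pow k) P_four
  rw [mul_comm 4]
  exact this

theorem P_two_mod (k : ℕ) : P (3*(k+2)+2) (16*3^k) := by
  have := P_mul (P_mul (P_three_pow k) P_four) P_four
  have e : 3^k*4*4 = 16*3^k := by ring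
  rw [← e]
  exact this

theorem Q_two_mod (k : ℕ) : Q (3*k+2) (2*3^k) := by
  have := Q_mul (Q_of_P (P_three_pow k)) Q_two
  rw [mul_comm 2]
  exact this

/-- transfer to the alternating group -/
theorem greatest_alt {n a : ℕ} (h : P n a)
    (hub : ∀ A : Subgroup (Equiv.Perm (Fin n)), IsMulCommutative A → (∀ x ∈ A, Equiv.Perm.sign x = 1) →
      Nat.card A ≤ a) :
    IsGreatest {c : ℕ | ∃ A : Subgroup (alternatingGroup (Fin n)), IsMulCommutative A ∧ Nat.card A = c} a := by
  constructor
  · obtain ⟨A, hA, hc, hs⟩ := h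
    have hle : A ≤ alternatingGroup (Fin n) := hs
    refine ⟨A.subgroupOf (alternatingGroup (Fin n)), ?_, ?_⟩
    · refine ⟨⟨?_⟩⟩
      rintro ⟨⟨x, hx⟩, hx'⟩ ⟨⟨y, hy⟩, hy'⟩
      apply Subtype.ext
      apply Subtype.ext
      change x * y = y * x
      exact congrArg Subtype.val (hA.is_comm.comm (⟨x, hx'⟩ : A) ⟨y, hy'⟩)
    · rw [Nat.card_congr (Subgroup.subgroupOfEquivOfLe hle).toEquiv, hc]
  · rintro c ⟨A, hA, rfl⟩
    have := hub (A.map (alternatingGroup (Fin n)).subtype) (map_comm _ _ hA) (by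
      rintro _ ⟨x, _, rfl⟩
      exact x.2)
    rwa [Subgroup.card_map_of_injective (Subgroup.subtype_injective _)] at this

theorem greatest_sym {n a : ℕ} (h : Q n a) (hub : f n ≤ a) :
    IsGreatest {c : ℕ | ∃ A : Subgroup (Equiv.Perm (Fin n)), IsMulCommutative A ∧ Nat.card A = c} a := by
  constructor
  · exact h
  · rintro c ⟨A, hA, rfl⟩
    have := perm_le A hA
    rw [Nat.card_eq_fintype_card (α := Fin n), Fintype.card_fin] at this
    exact this.trans hub

end H85.AbPerm
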