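import Mathlib
import Cfsg.Agent.Lib.H45.SLnGen
import Cfsg.Agent.Lib.H50.FTPG
import Cfsg.Agent.Lib.H95.SpBasic
set_option autoImplicit false
set_option maxHeartbeats 400000
set_option linter.unusedSectionVars false

/-! Generation of `SL(U)` and `Sp(U)` by transvections; construction of the alternating form. -/

namespace H85.Mc

section slgen
variable {k U : Type*} [Field k] [AddCommGroup U] [Module k U] [FiniteDimensional k U]

/-- any group containing all transvections contains all maps of determinant one -/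
theorem sl_le (h2 : 2 ≤ Module.finrank k U) (M : Subgroup (U ≃ₗ[k] U))
    (hM : ∀ (u : U) (f : Module.Dual k U), f u = 0 → ∃ g ∈ M, ∀ x, g x = x + f x • u) :
    ∀ g : U ≃ₗ[k] U, LinearMap.det (g : U →ₗ[k] U) = 1 → g ∈ M := by
  classical
  intro g hg
  obtain ⟨n, hn⟩ : ∃ n, Module.finrank k U = n := ⟨_, rfl⟩
  let b : Module.Basis (Fin n) k U := Module.finBasisOfFinrankEq k U hn
  haveI : Nontrivial (Fin n) := Fin.nontrivial_iff_two_le.2 (by omega)
  let e : U ≃ₗ[k] (Fin n → k) := b.equivFun
  let Φ : Matrix.SpecialLinearGroup (Fin n) k →* (U ≃ₗ[k] U) :=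
    { toFun := fun A => e.trans ((Matrix.SpecialLinearGroup.toLin' A).trans e.symm)
      map_one' := by
        apply LinearEquiv.ext
        intro x
        rw [map_one]
        simp
      map_mul' := by
        intro A B
        apply LinearEquiv.ext
        intro x
        rw [map_mul]
        simp }
  have hΦ : ∀ A x, e (Φ A x) = A.1.mulVec (e x) := by
    intro A x
    change e (e.symm (Matrix.toLin' A.1 (e x))) = _
    rw [LinearEquiv.apply_symm_apply, Matrix.toLin'_apply]
  have htop : M.comap Φ = ⊤ := by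
    apply H45.SLnGen.eq_top_of_transvection_mem
    intro i j hij c
    rw [Subgroup.mem_comap]
    obtain ⟨t, ht, htx⟩ := hM (b i) (c • b.coord j) (by
      rw [LinearMap.smul_apply, Module.Basis.coord_apply, Module.Basis.repr_self, Finsupp.single_eq_of_ne hij.symm, smul_zero])
    have : Φ (Matrix.SpecialLinearGroup.transvection hij c) = t := by
      apply LinearEquiv.ext
      intro x
      apply e.injective
      rw [hΦ, htx, H45.SLnGen.tv_val, Matrix.add_mulVec, Matrix.one_mulVec, map_add, map_smul]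
      congr 1
      ext l
      rw [Matrix.single_mulVec]
      change Function.update (0 : Fin n → k) i (c * b.equivFun x j) l = ((c • b.coord j) x • b.equivFun (b i)) l
      rw [LinearMap.smul_apply, Module.Basis.coord_apply, Pi.smul_apply, Module.Basis.equivFun_apply,
        Module.Basis.equivFun_apply, Module.Basis.repr_self]
      by_cases hl : l = i
      · subst hl; simp
      · rw [Function.update_of_ne hl, Finsupp.single_eq_of_ne hl]; simp
    rw [this]; exact ht
  have hdet : (LinearMap.toMatrix b b (g : U →ₗ[k] U)).det = 1 := by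
    rw [LinearMap.det_toMatrix]; exact hg
  obtain ⟨A, hA⟩ : ∃ A : Matrix.SpecialLinearGroup (Fin n) k, A.1 = LinearMap.toMatrix b b (g : U →ₗ[k] U) :=
    ⟨⟨_, hdet⟩, rfl⟩
  have h3 : A ∈ M.comap Φ := by
    rw [htop]; trivial
  rw [Subgroup.mem_comap] at h3
  have h4 : Φ A = g := by
    apply LinearEquiv.ext
    intro x
    apply e.injective
    rw [hΦ, hA]
    have h5 := LinearMap.toMatrix_mulVec_repr b b (g : U →ₗ[k] U) x
    ext i
    exact congrFun h5 i
  rwa [h4] at h3

end slgen

section form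
variable {p : ℕ} [hpf : Fact p.Prime] {U : Type*} [AddCommGroup U] [Module (ZMod p) U] [FiniteDimensional (ZMod p) U]

theorem pair_ker {k E : Type*} [Field k] [AddCommGroup E] [Module k E] {f g h : Module.Dual k E}
    (hk : ∀ x, f x = 0 → g x = 0 → h x = 0) : h ∈ Submodule.span k ({f, g} : Set (Module.Dual k E)) := by
  have h1 : h ∈ Submodule.span k (Set.range (![f, g] : Fin 2 → E →ₗ[k] k)) := by
    apply mem_span_of_iInf_ker_le_ker
    intro x hx
    rw [Submodule.mem_iInf] at hx
    exact hk x (hx 0) (hx 1)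
  rwa [Matrix.range_cons, Matrix.range_cons, Matrix.range_empty, Set.union_empty, Set.singleton_union] at h1

/-- from a symmetric correspondence to an alternating form -/
theorem exists_form (hdim : 3 ≤ Module.finrank (ZMod p) U) (F : U → Module.Dual (ZMod p) U)
    (h0 : ∀ v, v ≠ 0 → F v ≠ 0) (halt : ∀ v, v ≠ 0 → F v v = 0)
    (hsymm : ∀ v w, v ≠ 0 → w ≠ 0 → (F v w = 0 ↔ F w v = 0))
    (hsurj : ∀ f : Module.Dual (ZMod p) U, f ≠ 0 → ∃ x, x ≠ 0 ∧ ∃ c : ZMod p, f = c • F x) :
    ∃ B : LinearMap.BilinForm (ZMod p) U, B.IsAlt ∧ B.Nondegenerate ∧ ∀ v, v ≠ 0 → ∃ c : ZMod p, c ≠ 0 ∧ B v = c • F v := by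
  classical
  haveI : Finite (ZMod p) := inferInstance
  let e : Module.Dual (ZMod p) U ≃ₗ[ZMod p] U := LinearEquiv.ofFinrankEq _ _ (Subspace.dual_finrank_eq)
  have hspan : ∀ (a b c : Module.Dual (ZMod p) U), c ∈ Submodule.span (ZMod p) {a, b} ↔
      e c ∈ Submodule.span (ZMod p) {e a, e b} := by
    intro a b c
    rw [Submodule.mem_span_pair, Submodule.mem_span_pair]
    constructor
    · rintro ⟨s, t, h⟩
      exact ⟨s, t, by rw [← h, map_add, map_smul, map_smul]⟩
    · rintro ⟨s, t, h⟩
      refine ⟨s, t, e.injective ?_⟩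
      rw [← h, map_add, map_smul, map_smul]
  have key : ∀ u v w x, u ≠ 0 → v ≠ 0 → w ≠ 0 → w ∈ Submodule.span (ZMod p) {u, v} → F u x = 0 → F v x = 0 → F w x = 0 := by
    intro u v w x hu hv hw hwuv h1 h2
    by_cases hx : x = 0
    · rw [hx, map_zero]
    rw [hsymm w x hw hx]
    rw [hsymm u x hu hx] at h1
    rw [hsymm v x hv hx] at h2
    obtain ⟨s, t, rfl⟩ := Submodule.mem_span_pair.1 hwuv
    rw [map_add, map_smul, map_smul, h1, h2, smul_zero, smul_zero, add_zero]
  have hcol : ∀ u v w, u ≠ 0 → v ≠ 0 → w ≠ 0 →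
      (w ∈ Submodule.span (ZMod p) {u, v} ↔ e (F w) ∈ Submodule.span (ZMod p) {e (F u), e (F v)}) := by
    intro u v w hu hv hw
    rw [← hspan]
    constructor
    · intro h
      exact pair_ker (fun x h1 h2 => key u v w x hu hv hw h h1 h2)
    · intro h
      by_contra hcon
      obtain ⟨f, hfw, hfs⟩ := Submodule.exists_le_ker_of_notMem hcon
      have hf0 : f ≠ 0 := by rintro rfl; exact hfw rfl
      obtain ⟨x, hx, c, rfl⟩ := hsurj f hf0
      have hc : c ≠ 0 := by rintro rfl; exact hf0 (zero_smul _ _)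
      have hu' : (c • F x) u = 0 := hfs (Submodule.subset_span (by simp))
      have hv' : (c • F x) v = 0 := hfs (Submodule.subset_span (by simp))
      rw [LinearMap.smul_apply, smul_eq_mul] at hu' hv' hfw
      have h1 : F u x = 0 := (hsymm u x hu hx).2 ((mul_eq_zero.1 hu').resolve_left hc)
      have h2 : F v x = 0 := (hsymm v x hv hx).2 ((mul_eq_zero.1 hv').resolve_left hc)
      obtain ⟨s, t, hst⟩ := Submodule.mem_span_pair.1 h
      have h3 : F w x = 0 := by
        rw [← hst, LinearMap.add_apply, LinearMap.smul_apply, LinearMap.smul_apply, h1, h2, smul_zero, smul_zero, add_zero]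
      apply hfw
      rw [(hsymm w x hw hx).1 h3, mul_zero]
  obtain ⟨σ, φ, hφ, hφπ⟩ := H50.FTPG.ftpg (π := fun v => e (F v))
    (fun v hv h => h0 v hv (e.map_eq_zero_iff.1 h)) hcol hdim
  have hσ : ∀ c : ZMod p, σ c = c := by
    intro c
    have : (σ : ZMod p →+* ZMod p) = RingHom.id _ := Subsingleton.elim _ _
    exact congrArg (fun f : ZMod p →+* ZMod p => f c) this
  let φL : U →ₗ[ZMod p] U :=
    { toFun := φ
      map_add' := φ.map_add
      map_smul' := fun c v => by rw [hφ, hσ, RingHom.id_apply] }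
  let B : LinearMap.BilinForm (ZMod p) U := (e.symm : U →ₗ[ZMod p] Module.Dual (ZMod p) U).comp φL
  have hB : ∀ v, v ≠ 0 → ∃ c : ZMod p, c ≠ 0 ∧ B v = c • F v := by
    intro v hv
    obtain ⟨c, hc, h⟩ := hφπ v hv
    refine ⟨c, hc, ?_⟩
    change e.symm (φ v) = _
    rw [h, map_smul, LinearEquiv.symm_apply_apply]
  have hBalt : B.IsAlt := by
    intro v
    by_cases hv : v = 0
    · rw [hv, map_zero]
    · obtain ⟨c, _, h⟩ := hB v hv
      rw [h, LinearMap.smul_apply, halt v hv, smul_zero]
  have hsep : LinearMap.SeparatingLeft B := by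
    intro v hv
    by_contra hv0
    obtain ⟨c, hc, h⟩ := hB v hv0
    apply h0 v hv0
    ext x
    have := hv x
    rw [h, LinearMap.smul_apply, smul_eq_mul] at this
    exact (mul_eq_zero.1 this).resolve_left hc
  refine ⟨B, hBalt, ⟨hsep, ?_⟩, hB⟩
  intro y hy
  apply hsep
  intro x
  rw [← LinearMap.BilinForm.IsAlt.neg_eq hBalt, hy, neg_zero]

end form

end H85.Mc
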