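import Mathlib
set_option autoImplicit false
set_option maxHeartbeats 400000
set_option linter.unusedSectionVars false

/-! Abstract connected systems of transvections (McLaughlin's theorem). -/

namespace H85.Mc

variable {k X Y : Type*} [Field k] [AddCommGroup X] [Module k X] [AddCommGroup Y] [Module k Y]

/-- a connected system of transvections -/
structure Sys (B : X →ₗ[k] Y →ₗ[k] k) (D : X → Y → Prop) : Prop where
  nzx : ∀ {x y}, D x y → x ≠ 0
  nzy : ∀ {x y}, D x y → y ≠ 0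
  perp : ∀ {x y}, D x y → B x y = 0
  smulx : ∀ {x y} {c : k}, D x y → c ≠ 0 → D (c • x) y
  smuly : ∀ {x y} {c : k}, D x y → c ≠ 0 → D x (c • y)
  addx : ∀ {x x' y}, D x y → D x' y → x + x' ≠ 0 → D (x + x') y
  addy : ∀ {x y y'}, D x y → D x y' → y + y' ≠ 0 → D x (y + y')
  conj : ∀ {x y x' y'}, D x y → D x' y' → D (x' + B x' y • x) (y' - B x y' • y)
  neigh : ∀ {x y}, D x y → ∃ x' y', D x' y' ∧ B x' y ≠ 0 ∧ B x y' ≠ 0
  conn : ∀ {x y x' y'}, D x y → D x' y' →
    Relation.ReflTransGen (fun a b : X × Y => D b.1 b.2 ∧ B b.1 a.2 ≠ 0 ∧ B a.1 b.2 ≠ 0) (x, y) (x', y')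
  rad : ∀ {x y r s}, D x y → D (x + r) (y + s) → (∀ x' y', D x' y' → B r y' = 0) →
    (∀ x' y', D x' y' → B x' s = 0) → r = 0 ∧ s = 0

/-- non-perpendicularity -/
def np (B : X →ₗ[k] Y →ₗ[k] k) (D : X → Y → Prop) (x x' : X) : Prop := ∃ y, D x y ∧ B x' y ≠ 0

/-- centres -/
def Cen (D : X → Y → Prop) (x : X) : Prop := ∃ y, D x y

variable {B : X →ₗ[k] Y →ₗ[k] k} {D : X → Y → Prop}

theorem finrank_inf_ker [FiniteDimensional k Y] (N : Submodule k Y) (f : Y →ₗ[k] k) (hf : ∃ y ∈ N, f y ≠ 0) :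
    Module.finrank k N = Module.finrank k (N ⊓ LinearMap.ker f : Submodule k Y) + 1 := by
  have h1 := LinearMap.finrank_range_add_finrank_ker (f.domRestrict N)
  have h2 : LinearMap.range (f.domRestrict N) = ⊤ := by
    obtain ⟨y, hy, hfy⟩ := hf
    rw [LinearMap.range_eq_top]
    intro c
    refine ⟨⟨(c / f y) • y, N.smul_mem _ hy⟩, ?_⟩
    change f ((c / f y) • y) = c
    rw [map_smul, smul_eq_mul, div_mul_cancel₀ _ hfy]
  have h3 : Module.finrank k (LinearMap.ker (f.domRestrict N)) =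
      Module.finrank k (N ⊓ LinearMap.ker f : Submodule k Y) := by
    have h4 : LinearMap.ker (f.domRestrict N) = Submodule.comap N.subtype (LinearMap.ker f) := by
      ext y; simp
    rw [h4, ← Submodule.map_comap_subtype]
    exact (LinearEquiv.finrank_eq (Submodule.equivMapOfInjective _ N.injective_subtype _))
  rw [h2, finrank_top, Module.finrank_self] at h1
  omega

namespace Sys

variable (S : Sys B D)
include S

theorem flip : Sys B.flip (fun y x => D x y) where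
  nzx := fun h => S.nzy h
  nzy := fun h => S.nzx h
  perp := fun h => S.perp h
  smulx := fun h hc => S.smuly h hc
  smuly := fun h hc => S.smulx h hc
  addx := fun h h' hn => S.addy h h' hn
  addy := fun h h' hn => S.addx h h' hn
  conj := by
    intro x y x' y' h h'
    have h1 := S.conj (S.smuly h (c := (-1 : k)) (by simp)) h'
    rw [neg_one_smul, smul_neg, sub_neg_eq_add, map_neg, neg_smul] at h1
    change D (y' - B y' x • y) (x' + B y x' • x)
    rw [sub_eq_add_neg]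
    exact h1
  neigh := by
    intro x y h
    obtain ⟨x', y', h1, h2, h3⟩ := S.neigh h
    exact ⟨y', x', h1, h3, h2⟩
  conn := by
    intro x y x' y' h h'
    have h1 := S.conn h h'
    have h2 : ∀ a : X × Y, Relation.ReflTransGen
        (fun a b : X × Y => D b.1 b.2 ∧ B b.1 a.2 ≠ 0 ∧ B a.1 b.2 ≠ 0) (y, x) a →
        Relation.ReflTransGen
        (fun a b : Y × X => D b.2 b.1 ∧ B.flip b.1 a.2 ≠ 0 ∧ B.flip a.1 b.2 ≠ 0) (x, y) (a.2, a.1) := by
      intro a ha
      induction ha with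
      | refl => exact Relation.ReflTransGen.refl
      | tail _ hbc ih => exact ih.tail ⟨hbc.1, hbc.2.2, hbc.2.1⟩
    exact h2 _ h1
  rad := by
    intro x y r s h h' h1 h2
    have := S.rad h h' (fun a b hab => h2 b a hab) (fun a b hab => h1 b a hab)
    exact ⟨this.2, this.1⟩

theorem negx {x : X} {y : Y} (h : D x y) : D (-x) y := by
  have := S.smulx h (c := (-1 : k)) (by simp)
  rwa [neg_one_smul] at this

theorem conjc {x : X} {y : Y} {x' : X} {y' : Y} (h : D x y) (h' : D x' y') (c : k) :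
    D (x' + (c * B x' y) • x) (y' - (c * B x y') • y) := by
  by_cases hc : c = 0
  · subst hc; simpa using h'
  · have := S.conj (S.smuly h hc) h'
    rw [map_smul, smul_eq_mul, smul_smul, mul_comm (B x y') c] at this
    exact this

theorem A4 {x : X} {y : Y} {x' : X} {y' : Y} (h : D x y) (h' : D x' y') (h1 : B x' y ≠ 0)
    (h2 : B x y' = 0) : D x y' := by
  have h3 := S.conj h h'
  rw [h2, zero_smul, sub_zero] at h3
  have h4 := S.addx h3 (S.negx h') (by
    rw [add_comm x', add_assoc, add_neg_cancel, add_zero]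
    exact smul_ne_zero h1 (S.nzx h))
  rw [add_comm x', add_assoc, add_neg_cancel, add_zero] at h4
  have h5 := S.smulx h4 (inv_ne_zero h1)
  rwa [smul_smul, inv_mul_cancel₀ h1, one_smul] at h5

/-- axes of a centre -/
def M (x : X) : Submodule k Y where
  carrier := {y | y = 0 ∨ D x y}
  zero_mem' := Or.inl rfl
  add_mem' := by
    rintro a b (rfl | ha) (rfl | hb)
    · left; simp
    · right; simpa using hb
    · right; simpa using ha
    · by_cases h : a + b = 0
      · left; exact h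
      · right; exact S.addy ha hb h
  smul_mem' := by
    rintro c a (rfl | ha)
    · left; simp
    · by_cases h : c = 0
      · left; rw [h, zero_smul]
      · right; exact S.smuly ha h

theorem mem_M {x : X} {y : Y} : y ∈ S.M x ↔ y = 0 ∨ D x y := Iff.rfl

theorem mem_M_of_ne {x : X} {y : Y} (hy : y ≠ 0) : y ∈ S.M x ↔ D x y := by
  rw [mem_M]; tauto

theorem of_mem_M {x : X} {y : Y} (h : y ∈ S.M x) (hy : y ≠ 0) : D x y := (S.mem_M_of_ne hy).1 h

theorem M_perp {x : X} {y : Y} (h : y ∈ S.M x) : B x y = 0 := by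
  rcases h with rfl | h
  · simp
  · exact S.perp h

theorem inf_eq {x : X} {y : Y} {x' : X} {y' : Y} (h : D x y) (h' : D x' y') (h1 : B x' y ≠ 0)
    (h2 : B x y' ≠ 0) : S.M x ⊓ LinearMap.ker (B x') = S.M x' ⊓ LinearMap.ker (B x) := by
  apply le_antisymm
  · rintro z ⟨hz, hz'⟩
    rw [SetLike.mem_coe, LinearMap.mem_ker] at hz'
    refine ⟨?_, S.M_perp hz⟩
    by_cases h0 : z = 0
    · left; exact h0
    · right
      exact S.A4 h' (S.of_mem_M hz h0) h2 hz'
  · rintro z ⟨hz, hz'⟩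
    rw [SetLike.mem_coe, LinearMap.mem_ker] at hz'
    refine ⟨?_, S.M_perp hz⟩
    by_cases h0 : z = 0
    · left; exact h0
    · right
      exact S.A4 h (S.of_mem_M hz h0) h1 hz'

section fd
variable [FiniteDimensional k Y]

theorem finrank_adj {x : X} {y : Y} {x' : X} {y' : Y} (h : D x y) (h' : D x' y') (h1 : B x' y ≠ 0)
    (h2 : B x y' ≠ 0) : Module.finrank k (S.M x) = Module.finrank k (S.M x') := by
  rw [finrank_inf_ker (S.M x) (B x') ⟨y, Or.inr h, h1⟩, finrank_inf_ker (S.M x') (B x) ⟨y', Or.inr h', h2⟩,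
    S.inf_eq h h' h1 h2]

theorem finrank_const {x x' : X} (h : Cen D x) (h' : Cen D x') :
    Module.finrank k (S.M x) = Module.finrank k (S.M x') := by
  obtain ⟨y, h⟩ := h
  obtain ⟨y', h'⟩ := h'
  have key : ∀ b : X × Y, Relation.ReflTransGen
      (fun a b : X × Y => D b.1 b.2 ∧ B b.1 a.2 ≠ 0 ∧ B a.1 b.2 ≠ 0) (x, y) b →
      D b.1 b.2 ∧ Module.finrank k (S.M x) = Module.finrank k (S.M b.1) := by
    intro b hb
    induction hb with
    | refl => exact ⟨h, rfl⟩
    | tail _ hbc ih =>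
      refine ⟨hbc.1, ih.2.trans ?_⟩
      exact S.finrank_adj ih.1 hbc.1 hbc.2.1 hbc.2.2
  exact (key _ (S.conn h h')).2

theorem np_symm {x x' : X} (h : np B D x x') (h' : Cen D x') : np B D x' x := by
  obtain ⟨y, hy, hxy⟩ := h
  by_contra hcon
  have h1 : ∀ y', D x' y' → B x y' = 0 := by
    intro y' hy'
    by_contra h2
    exact hcon ⟨y', hy', h2⟩
  have h2 : S.M x' ≤ S.M x := by
    rintro z (rfl | hz)
    · exact Submodule.zero_mem _
    · exact Or.inr (S.A4 hy hz hxy (h1 z hz))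
  have h3 : S.M x' = S.M x := Submodule.eq_of_le_of_finrank_eq h2 (S.finrank_const h' ⟨y, hy⟩)
  have h4 : y ∈ S.M x' := by rw [h3]; exact Or.inr hy
  exact hxy (S.M_perp h4)

theorem np_comm {x x' : X} (h : Cen D x) (h' : Cen D x') : np B D x x' ↔ np B D x' x :=
  ⟨fun h1 => S.np_symm h1 h', fun h1 => S.np_symm h1 h⟩

omit [FiniteDimensional k Y] in
theorem not_np {x x' : X} (h : ¬ np B D x x') {y : Y} (hy : D x y) : B x' y = 0 := by
  by_contra h1
  exact h ⟨y, hy, h1⟩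

omit [FiniteDimensional k Y] in
theorem line {x x' : X} (h : np B D x x') (h' : Cen D x') (c : k) : Cen D (x' + c • x) := by
  obtain ⟨y, hy, hxy⟩ := h
  obtain ⟨y', hy'⟩ := h'
  have := S.conjc hy hy' (c / B x' y)
  rw [div_mul_cancel₀ _ hxy] at this
  exact ⟨_, this⟩

omit [FiniteDimensional k Y] in
theorem neg_cen {x : X} (h : Cen D x) : Cen D (-x) := by
  obtain ⟨y, hy⟩ := h
  exact ⟨y, S.negx hy⟩

omit [FiniteDimensional k Y] in
theorem smul_cen {x : X} (h : Cen D x) {c : k} (hc : c ≠ 0) : Cen D (c • x) := by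
  obtain ⟨y, hy⟩ := h
  exact ⟨y, S.smulx hy hc⟩

theorem common {x x' : X} (h : Cen D x) (h' : Cen D x') : ∃ z, Cen D z ∧ np B D z x ∧ np B D z x' := by
  obtain ⟨y, h⟩ := h
  obtain ⟨y', h'⟩ := h'
  have key : ∀ b : X × Y, Relation.ReflTransGen
      (fun a b : X × Y => D b.1 b.2 ∧ B b.1 a.2 ≠ 0 ∧ B a.1 b.2 ≠ 0) (x, y) b →
      D b.1 b.2 ∧ ∃ z, Cen D z ∧ np B D z x ∧ np B D z b.1 := by
    intro b hb
    induction hb with
    | refl =>
      refine ⟨h, ?_⟩
      obtain ⟨z, w, hz, h1, h2⟩ := S.neigh h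
      exact ⟨z, ⟨w, hz⟩, ⟨w, hz, h2⟩, ⟨w, hz, h2⟩⟩
    | @tail b c _ hbc ih =>
      obtain ⟨hb, z, hz, hzx, hzb⟩ := ih
      obtain ⟨hc, hcb, hbc'⟩ := hbc
      refine ⟨hc, ?_⟩
      have hbcn : np B D b.1 c.1 := ⟨b.2, hb, hcb⟩
      by_cases h1 : np B D z c.1
      · exact ⟨z, hz, hzx, h1⟩
      by_cases h2 : np B D b.1 x
      · exact ⟨b.1, ⟨_, hb⟩, h2, hbcn⟩
      -- take z + b
      have hcenb : Cen D b.1 := ⟨_, hb⟩
      have hcenc : Cen D c.1 := ⟨_, hc⟩
      have hcenx : Cen D x := ⟨_, h⟩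
      have hs : Cen D (b.1 + (1:k) • z) := S.line hzb hcenb 1
      rw [one_smul] at hs
      refine ⟨b.1 + z, hs, ?_, ?_⟩
      · apply S.np_symm _ hs
        obtain ⟨w, hw, hzw⟩ := S.np_symm hzx hcenx
        refine ⟨w, hw, ?_⟩
        have h3 : ¬ np B D x b.1 := fun h4 => h2 (S.np_symm h4 hcenb)
        rw [map_add, LinearMap.add_apply, S.not_np h3 hw, zero_add]
        exact hzw
      · apply S.np_symm _ hs
        obtain ⟨w, hw, hbw⟩ := S.np_symm hbcn hcenc
        refine ⟨w, hw, ?_⟩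
        have h3 : ¬ np B D c.1 z := fun h4 => h1 (S.np_symm h4 hz)
        rw [map_add, LinearMap.add_apply, S.not_np h3 hw, add_zero]
        exact hbw
  exact (key _ (S.conn h h')).2

/-- claim (a) of the sum lemma -/
theorem sum_a {v w z : X} (hv : Cen D v) (hw : Cen D w) (hz : Cen D z) (hvw : ¬ np B D v w)
    (hs : ¬ Cen D (v + w)) (hzv : np B D z v) (hzw : np B D z w) :
    ∀ χ ∈ S.M z, B (v + w) χ = 0 := by
  have hwv : ¬ np B D w v := fun h => hvw (S.np_symm h hv)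
  -- nonzero on w
  have h1 : ∀ χ, D z χ → B w χ ≠ 0 → B (v + w) χ = 0 := by
    intro χ hχ hwχ
    obtain ⟨ω, hω, hzω⟩ := S.np_symm hzw hw
    have h2 := S.conjc hχ hω (-(B w χ)⁻¹)
    have e1 : w + (-(B w χ)⁻¹ * B w χ) • z = w - z := by
      rw [neg_mul, inv_mul_cancel₀ hwχ, neg_smul, one_smul, sub_eq_add_neg]
    rw [e1] at h2
    have hv1 : Cen D (v + z) := by
      have := S.line hzv hv 1
      rwa [one_smul] at this
    have h3 : ¬ np B D (w - z) (v + z) := by
      intro h4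
      have := S.line h4 hv1 1
      rw [one_smul] at this
      apply hs
      have e : v + z + (w - z) = v + w := by abel
      rwa [e] at this
    have h4 := S.not_np h3 h2
    have e2 : B v ω = 0 := S.not_np hwv hω
    have e3 : B z χ = 0 := S.perp hχ
    simp only [map_add, map_sub, LinearMap.add_apply, map_smul, smul_eq_mul, e2, e3] at h4
    have h5 : B z ω * (B v χ + B w χ) = 0 := by
      field_simp at h4
      linear_combination h4
    rcases mul_eq_zero.1 h5 with h6 | h6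
    · exact absurd h6 hzω
    · rw [map_add, LinearMap.add_apply]; exact h6
  rintro χ (rfl | hχ)
  · simp
  by_cases hwχ : B w χ = 0
  · obtain ⟨χ0, hχ0, hwχ0⟩ := hzw
    have h2 : B w (χ + χ0) ≠ 0 := by rw [map_add, hwχ, zero_add]; exact hwχ0
    have h3 : D z (χ + χ0) := S.addy hχ hχ0 (by
      intro h; rw [h, map_zero] at h2; exact h2 rfl)
    have h4 := h1 _ h3 h2
    rw [map_add, h1 _ hχ0 hwχ0, add_zero] at h4
    exact h4
  · exact h1 χ hχ hwχ

theorem sum_b (h2 : (2 : k) ≠ 0) {v w z : X} (hv : Cen D v) (hw : Cen D w) (hz : Cen D z) (hvw : ¬ np B D v w)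
    (hs : ¬ Cen D (v + w)) (hzv : np B D z v) : ∀ χ ∈ S.M z, B (v + w) χ = 0 := by
  have hwv : ¬ np B D w v := fun h => hvw (S.np_symm h hv)
  by_cases hzw : np B D z w
  · exact S.sum_a hv hw hz hvw hs hzv hzw
  have hwz : ¬ np B D w z := fun h => hzw (S.np_symm h hz)
  -- a common neighbour of v, w which is not perpendicular to z
  obtain ⟨z0, hz0, hz0v, hz0w, hzz0⟩ : ∃ z0, Cen D z0 ∧ np B D z0 v ∧ np B D z0 w ∧ np B D z z0 := by
    obtain ⟨z0, hz0, hz0v, hz0w⟩ := S.common hv hw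
    by_cases h3 : np B D z z0
    · exact ⟨z0, hz0, hz0v, hz0w, h3⟩
    obtain ⟨φ, hφ, hz0φ⟩ := S.np_symm hz0v hv
    obtain ⟨ζ, hζ, hvζ⟩ := hz0v
    obtain ⟨ζ', hζ', hwζ'⟩ := hz0w
    obtain ⟨χ, hχ, hvχ⟩ := hzv
    refine ⟨z0 + B z0 φ • v, ⟨_, S.conj hφ hζ⟩, ⟨_, S.conj hφ hζ, ?_⟩, ⟨_, S.conj hφ hζ', ?_⟩, ⟨χ, hχ, ?_⟩⟩
    · rw [map_sub, map_smul, S.perp hφ, smul_zero, sub_zero]; exact hvζ
    · rw [map_sub, map_smul, S.not_np hvw hφ, smul_zero, sub_zero]; exact hwζ'
    · rw [map_add, LinearMap.add_apply, S.not_np h3 hχ, zero_add, map_smul, LinearMap.smul_apply, smul_eq_mul]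
      exact mul_ne_zero hz0φ hvχ
  obtain ⟨ζ0, hζ0, hzζ0⟩ := S.np_symm hzz0 hz0
  obtain ⟨φ, hφ, hzφ⟩ := S.np_symm hzv hv
  obtain ⟨ω, hω, hz0ω⟩ := S.np_symm hz0w hw
  obtain ⟨c, hc, hcφ⟩ : ∃ c : k, c ≠ 0 ∧ B z φ + c * B z0 φ ≠ 0 := by
    by_cases h3 : B z φ + B z0 φ = 0
    · refine ⟨-1, by simp, ?_⟩
      intro h4
      apply hzφ
      have : 2 * B z φ = 0 := by linear_combination h3 + h4
      rcases mul_eq_zero.1 this with h5 | h5
      · exact absurd h5 h2
      · exact h5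
    · exact ⟨1, one_ne_zero, by rwa [one_mul]⟩
  have hconj : ∀ χ, D z χ → D (z + c • z0) (χ - ((c / B z ζ0) * B z0 χ) • ζ0) := by
    intro χ hχ
    have := S.conjc hζ0 hχ (c / B z ζ0)
    rwa [div_mul_cancel₀ _ hzζ0] at this
  obtain ⟨χ1, hχ1⟩ := hz
  have hz1 : Cen D (z + c • z0) := ⟨_, hconj χ1 hχ1⟩
  have hz1v : np B D (z + c • z0) v := by
    apply S.np_symm _ hz1
    refine ⟨φ, hφ, ?_⟩
    rw [map_add, LinearMap.add_apply, map_smul, LinearMap.smul_apply, smul_eq_mul]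
    exact hcφ
  have hz1w : np B D (z + c • z0) w := by
    apply S.np_symm _ hz1
    refine ⟨ω, hω, ?_⟩
    rw [map_add, LinearMap.add_apply, S.not_np hwz hω, zero_add, map_smul, LinearMap.smul_apply, smul_eq_mul]
    exact mul_ne_zero hc hz0ω
  have ha0 := S.sum_a hv hw hz0 hvw hs hz0v hz0w
  have ha1 := S.sum_a hv hw hz1 hvw hs hz1v hz1w
  rintro χ (rfl | hχ)
  · simp
  have h5 := ha1 _ (Or.inr (hconj χ hχ))
  rw [map_sub, map_smul, ha0 ζ0 (Or.inr hζ0), smul_zero, sub_zero] at h5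
  exact h5

theorem sum_c (h2 : (2 : k) ≠ 0) {v w : X} (hv : Cen D v) (hw : Cen D w) (hs : ¬ Cen D (v + w)) :
    ∀ z χ, D z χ → B (v + w) χ = 0 := by
  have hvw : ¬ np B D v w := by
    intro h
    have := S.line h hw 1
    rw [one_smul, add_comm] at this
    exact hs this
  have hwv : ¬ np B D w v := fun h => hvw (S.np_symm h hv)
  intro z χ hχ
  by_cases h3 : np B D z v
  · exact S.sum_b h2 hv hw ⟨χ, hχ⟩ hvw hs h3 χ (Or.inr hχ)
  by_cases h4 : np B D z w
  · rw [add_comm] at hs ⊢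
    exact S.sum_b h2 hw hv ⟨χ, hχ⟩ hwv hs h4 χ (Or.inr hχ)
  · rw [map_add, LinearMap.add_apply, S.not_np h3 hχ, S.not_np h4 hχ, add_zero]

/-- no two centres differ by a radical vector -/
theorem rad_zero (h2 : (2 : k) ≠ 0) {v r : X} (hv : Cen D v) (hv' : Cen D (v + r))
    (hr : ∀ x y, D x y → B r y = 0) : r = 0 := by
  by_contra hr0
  -- (i)
  have hi : ∀ φ u ψ, D v φ → D u φ → D (v + r) ψ → B u ψ = 0 := by
    intro φ u ψ h1 h2 h3
    by_contra h4
    have h5 : B (v + r) φ = 0 := by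
      rw [map_add, LinearMap.add_apply, S.perp h1, hr _ _ h1, add_zero]
    have h6 : D (v + r) φ := S.A4 h3 h2 h4 h5
    have h7 : D (v + r) (φ + 0) := by rwa [add_zero]
    exact hr0 (S.rad h1 h7 hr (fun _ _ _ => by simp)).1
  have hnp : ∀ w, Cen D w → (np B D v w ↔ np B D (v + r) w) := by
    intro w hw
    rw [S.np_comm hv hw, S.np_comm hv' hw]
    constructor
    · rintro ⟨ω, hω, h⟩
      exact ⟨ω, hω, by rw [map_add, LinearMap.add_apply, hr _ _ hω, add_zero]; exact h⟩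
    · rintro ⟨ω, hω, h⟩
      refine ⟨ω, hω, ?_⟩
      rw [map_add, LinearMap.add_apply, hr _ _ hω, add_zero] at h
      exact h
  obtain ⟨φ, hφ⟩ := hv
  obtain ⟨z, ζ, hz, hzφ, hvζ⟩ := S.neigh hφ
  have hvz : np B D (v + r) z := (hnp z ⟨ζ, hz⟩).1 ⟨φ, hφ, hzφ⟩
  by_cases hcase : ∃ ψ, D v ψ ∧ B z ψ = 0
  · obtain ⟨ψ, hψ, hzψ⟩ := hcase
    have h3 : D z ψ := S.A4 hz hψ hvζ hzψ
    obtain ⟨ψ', hψ', h4⟩ := hvz
    exact h4 (hi ψ z ψ' hψ h3 hψ')
  · push Not at hcase
    -- one-dimensional case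
    have hM : S.M v ⊓ LinearMap.ker (B z) = ⊥ := by
      rw [eq_bot_iff]
      rintro y ⟨hy, hy'⟩
      rw [Submodule.mem_bot]
      rcases hy with hy | hy
      · exact hy
      · exact absurd hy' (hcase y hy)
    have hfr : Module.finrank k (S.M v) = 1 := by
      rw [finrank_inf_ker (S.M v) (B z) ⟨φ, Or.inr hφ, hzφ⟩, hM, finrank_bot]
    have hfr' : Module.finrank k (S.M (v + r)) = 1 := by
      rw [S.finrank_const hv' ⟨φ, hφ⟩, hfr]
    have hone : ∀ (x : X) (a b : Y), Module.finrank k (S.M x) = 1 → D x a → D x b → ∃ c : k, c ≠ 0 ∧ b = c • a := by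
      intro x a b hx ha hb
      obtain ⟨c, hc⟩ := (finrank_eq_one_iff_of_nonzero' (⟨a, Or.inr ha⟩ : S.M x)
        (fun h => S.nzy ha (congrArg Subtype.val h))).1 hx ⟨b, Or.inr hb⟩
      have hc' : c • a = b := congrArg Subtype.val hc
      refine ⟨c, ?_, hc'.symm⟩
      rintro rfl
      rw [zero_smul] at hc'
      exact S.nzy hb hc'.symm
    obtain ⟨ψ0, hψ0, hzψ0⟩ := hvz
    obtain ⟨ψ, hψ, hzψ⟩ : ∃ ψ, D (v + r) ψ ∧ B z ψ = B z φ :=
      ⟨(B z φ / B z ψ0) • ψ0, S.smuly hψ0 (div_ne_zero hzφ hzψ0), by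
        rw [map_smul, smul_eq_mul, div_mul_cancel₀ _ hzψ0]⟩
    -- same kernel on centres
    have hker : ∀ w, Cen D w → (B w φ = 0 ↔ B w ψ = 0) := by
      intro w hw
      have e1 : np B D v w ↔ B w φ ≠ 0 := by
        constructor
        · rintro ⟨a, ha, haw⟩
          obtain ⟨c, hc, rfl⟩ := hone v φ a hfr hφ ha
          rw [map_smul, smul_eq_mul] at haw
          exact right_ne_zero_of_mul haw
        · intro h; exact ⟨φ, hφ, h⟩
      have e2 : np B D (v + r) w ↔ B w ψ ≠ 0 := by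
        constructor
        · rintro ⟨a, ha, haw⟩
          obtain ⟨c, hc, rfl⟩ := hone (v + r) ψ a hfr' hψ ha
          rw [map_smul, smul_eq_mul] at haw
          exact right_ne_zero_of_mul haw
        · intro h; exact ⟨ψ, hψ, h⟩
      have := hnp w hw
      rw [e1, e2] at this
      exact not_iff_not.1 this
    have heq : ∀ w, Cen D w → B w (ψ - φ) = 0 := by
      intro w hw
      rw [map_sub, sub_eq_zero]
      by_cases h0 : B w φ = 0
      · rw [h0, (hker w hw).1 h0]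
      · set c := B w φ / B z φ with hc
        have hc0 : c ≠ 0 := div_ne_zero h0 hzφ
        have hcz : Cen D (-(c • z)) := S.neg_cen (S.smul_cen ⟨ζ, hz⟩ hc0)
        have h5 : B (w + -(c • z)) ψ = 0 := by
          by_cases h6 : Cen D (w + -(c • z))
          · apply (hker _ h6).1
            rw [map_add, LinearMap.add_apply, map_neg, LinearMap.neg_apply, map_smul, LinearMap.smul_apply,
              smul_eq_mul, hc, div_mul_cancel₀ _ hzφ, add_neg_cancel]
          · exact S.sum_c h2 hw hcz h6 _ _ hψ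
        rw [map_add, LinearMap.add_apply, map_neg, LinearMap.neg_apply, map_smul, LinearMap.smul_apply,
              smul_eq_mul, hzψ, hc, div_mul_cancel₀ _ hzφ] at h5
        linear_combination h5
    have h6 : D (v + r) (φ + (ψ - φ)) := by rwa [add_sub_cancel]
    exact hr0 (S.rad hφ h6 hr (fun x' y' h => heq x' ⟨y', h⟩)).1

/-- centres together with zero form a subspace -/
theorem add_cen (h2 : (2 : k) ≠ 0) {v w : X} (hv : Cen D v) (hw : Cen D w) (h0 : v + w ≠ 0) : Cen D (v + w) := by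
  by_contra hcon
  have h1 := S.sum_c h2 hv hw hcon
  have h3 : Cen D (-v + (v + w)) := by rw [neg_add_cancel_left]; exact hw
  exact h0 (S.rad_zero h2 (S.neg_cen hv) h3 h1)

end fd
end Sys

end H85.Mc
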