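import Mathlib
import Cfsg.Agent.Lib.H85.McSys
set_option autoImplicit false
set_option maxHeartbeats 400000
set_option linter.unusedSectionVars false

/-! Abstract connected systems of transvections: the dichotomy. -/

namespace H85.Mc
namespace Sys

variable {k X Y : Type*} [Field k] [AddCommGroup X] [Module k X] [AddCommGroup Y] [Module k Y]
variable {B : X →ₗ[k] Y →ₗ[k] k} {D : X → Y → Prop}
variable (S : Sys B D) [FiniteDimensional k Y]
include S

/-- perpendicular independent centres have no common axis -/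
theorem no_common (h2 : (2 : k) ≠ 0) {v w : X} {φ : Y} (hv : D v φ) (hw : D w φ) (hvw : ¬ np B D v w)
    (hli : ∀ c : k, w ≠ c • v) : False := by
  have hwv : ¬ np B D w v := fun h => hvw (S.np_symm h ⟨_, hv⟩)
  obtain ⟨z, ζ, hz, hzφ, hvζ⟩ := S.neigh hv
  have h3 : ∀ ζ', D z ζ' → B v ζ' = 0 → B w ζ' = 0 := by
    intro ζ' h4 h5
    exact S.not_np hvw (S.A4 hv h4 hzφ h5)
  set c := B w ζ / B v ζ with hc
  have h4 : ∀ ζ', D z ζ' → B (w + -(c • v)) ζ' = 0 := by
    intro ζ' h5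
    have h6 : B w (ζ' + -(B v ζ' / B v ζ) • ζ) = 0 := by
      by_cases h0 : ζ' + -(B v ζ' / B v ζ) • ζ = 0
      · rw [h0, map_zero]
      · have h7 : ζ' + -(B v ζ' / B v ζ) • ζ ∈ S.M z :=
          (S.M z).add_mem (Or.inr h5) ((S.M z).smul_mem _ (Or.inr hz))
        apply h3 _ (S.of_mem_M h7 h0)
        rw [map_add, map_smul, smul_eq_mul, neg_mul, div_mul_cancel₀ _ hvζ, add_neg_cancel]
    rw [map_add, map_smul, smul_eq_mul] at h6
    rw [map_add, LinearMap.add_apply, map_neg, LinearMap.neg_apply, map_smul, LinearMap.smul_apply, smul_eq_mul, hc]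
    rw [← h6]
    field_simp
  have h0 : w + -(c • v) ≠ 0 := by
    intro h; apply hli c
    rw [← sub_eq_add_neg, sub_eq_zero] at h
    exact h
  have hD : D (w + -(c • v)) φ := by
    by_cases hc0 : c = 0
    · rw [hc0, zero_smul, neg_zero, add_zero]; exact hw
    · exact S.addx hw (S.negx (S.smulx hv hc0)) h0
  have h5 : B z φ = 0 := by
    by_contra h6
    obtain ⟨ζ', h7, h8⟩ := S.np_symm (⟨φ, hD, h6⟩ : np B D (w + -(c • v)) z) ⟨ζ, hz⟩
    exact h8 (h4 ζ' h7)
  exact hzφ h5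

/-- if there are two independent axes to every centre then independent centres are not perpendicular -/
theorem np_of_indep (h2 : (2 : k) ≠ 0) {v w : X} (hdim : 2 ≤ Module.finrank k (S.M v)) (hv : Cen D v) (hw : Cen D w)
    (hli : ∀ c : k, w ≠ c • v) : np B D v w := by
  by_contra hvw
  have hwv : ¬ np B D w v := fun h => hvw (S.np_symm h hv)
  obtain ⟨u, hu, huv, huw⟩ := S.common hv hw
  have hvu := S.np_symm huv hv
  have hwu := S.np_symm huw hw
  -- an axis of v killing u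
  obtain ⟨α, hα, huα⟩ : ∃ α, D v α ∧ B u α = 0 := by
    by_contra hcon
    push Not at hcon
    have hM : S.M v ⊓ LinearMap.ker (B u) = ⊥ := by
      rw [eq_bot_iff]
      rintro y ⟨hy, hy'⟩
      rw [Submodule.mem_bot]
      rcases hy with hy | hy
      · exact hy
      · exact absurd hy' (hcon y hy)
    obtain ⟨y, hy, huy⟩ := hvu
    have := finrank_inf_ker (S.M v) (B u) ⟨y, Or.inr hy, huy⟩
    rw [hM, finrank_bot] at this
    omega
  obtain ⟨μ, hμ, hvμ⟩ := huv
  have h3 : D u α := S.A4 hμ hα hvμ huα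
  obtain ⟨ω, hω, huω⟩ := hwu
  have h4 : D w α := S.A4 hω h3 huω (S.not_np hvw hα)
  exact S.no_common h2 hα h4 hvw hli

omit [FiniteDimensional k Y] in
/-- the full case -/
theorem full (hI : ∀ v w, Cen D v → Cen D w → ¬ np B D v w → ∃ c : k, w = c • v) {v : X} {φ : Y}
    (hv : Cen D v) (hφ : ∃ w, D w φ) (h : B v φ = 0) : D v φ := by
  obtain ⟨w, hw⟩ := hφ
  by_cases h1 : np B D v w
  · obtain ⟨ψ, hψ, h2⟩ := h1
    exact S.A4 hψ hw h2 h
  · obtain ⟨c, rfl⟩ := hI v w hv ⟨_, hw⟩ h1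
    have hc : c ≠ 0 := by
      rintro rfl
      exact S.nzx hw (zero_smul _ _)
    have := S.smulx hw (inv_ne_zero hc)
    rwa [smul_smul, inv_mul_cancel₀ hc, one_smul] at this

/-- dichotomy -/
theorem dich (h2 : (2 : k) ≠ 0) : (∀ v φ, Cen D v → (∃ w, D w φ) → B v φ = 0 → D v φ) ∨
    ((∀ v φ ψ, D v φ → D v ψ → ∃ c : k, ψ = c • φ) ∧
      ∃ v w, Cen D v ∧ Cen D w ∧ ¬ np B D v w ∧ ∀ c : k, w ≠ c • v) := by
  by_cases hI : ∀ v w, Cen D v → Cen D w → ¬ np B D v w → ∃ c : k, w = c • v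
  · left
    intro v φ hv hφ h
    exact S.full hI hv hφ h
  · right
    push Not at hI
    obtain ⟨v0, w0, hv0, hw0, hnp, hli⟩ := hI
    refine ⟨?_, v0, w0, hv0, hw0, hnp, hli⟩
    have h3 : Module.finrank k (S.M v0) ≤ 1 := by
      by_contra h4
      exact hnp (S.np_of_indep h2 (by omega) hv0 hw0 hli)
    intro v φ ψ hφ hψ
    have h4 : Module.finrank k (S.M v) ≤ 1 := by rwa [S.finrank_const ⟨φ, hφ⟩ hv0]
    have h5 : Module.finrank k (S.M v) ≠ 0 := by
      intro h0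
      have : S.M v = ⊥ := Submodule.finrank_eq_zero.1 h0
      have h6 : φ ∈ S.M v := Or.inr hφ
      rw [this, Submodule.mem_bot] at h6
      exact S.nzy hφ h6
    have h6 : Module.finrank k (S.M v) = 1 := by omega
    obtain ⟨c, hc⟩ := (finrank_eq_one_iff_of_nonzero' (⟨φ, Or.inr hφ⟩ : S.M v)
        (fun h => S.nzy hφ (congrArg Subtype.val h))).1 h6 ⟨ψ, Or.inr hψ⟩
    exact ⟨c, (congrArg Subtype.val hc).symm⟩

/-- centres form a subspace -/
def CU (h2 : (2 : k) ≠ 0) : Submodule k X where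
  carrier := {x | x = 0 ∨ Cen D x}
  zero_mem' := Or.inl rfl
  add_mem' := by
    rintro a b (rfl | ha) (rfl | hb)
    · left; simp
    · right; simpa using hb
    · right; simpa using ha
    · by_cases h : a + b = 0
      · left; exact h
      · right; exact S.add_cen h2 ha hb h
  smul_mem' := by
    rintro c a (rfl | ha)
    · left; simp
    · by_cases h : c = 0
      · left; rw [h, zero_smul]
      · right; exact S.smul_cen ha h

omit S [FiniteDimensional k Y] in
theorem mem_CU (S : Sys B D) [FiniteDimensional k Y] (h2 : (2 : k) ≠ 0) {x : X} : x ∈ S.CU h2 ↔ x = 0 ∨ Cen D x := Iff.rfl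

/-- a centre is not killed by all axes -/
theorem cen_nondeg (h2 : (2 : k) ≠ 0) {x : X} (hx : x ∈ S.CU h2) (h : ∀ z y, D z y → B x y = 0) : x = 0 := by
  rcases hx with rfl | ⟨φ, hφ⟩
  · rfl
  · obtain ⟨z, ζ, hz, _, h3⟩ := S.neigh hφ
    exact absurd (h z ζ hz) h3

section onedim
variable (h1 : ∀ v φ ψ, D v φ → D v ψ → ∃ c : k, ψ = c • φ)
include h1

omit [FiniteDimensional k Y] in
theorem np_iff {v : X} {φ : Y} (hφ : D v φ) (w : X) : np B D v w ↔ B w φ ≠ 0 := by
  constructor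
  · rintro ⟨ψ, hψ, h⟩
    obtain ⟨c, rfl⟩ := h1 v φ ψ hφ hψ
    rw [map_smul, smul_eq_mul] at h
    exact right_ne_zero_of_mul h
  · intro h; exact ⟨φ, hφ, h⟩

theorem symm_iff {v w : X} {φ ψ : Y} (hφ : D v φ) (hψ : D w ψ) : B w φ = 0 ↔ B v ψ = 0 := by
  rw [← not_iff_not]
  change B w φ ≠ 0 ↔ B v ψ ≠ 0
  rw [← S.np_iff h1 hφ, ← S.np_iff h1 hψ]
  exact S.np_comm ⟨_, hφ⟩ ⟨_, hψ⟩

end onedim

end Sys
end H85.Mc
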