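import Mathlib
import Cfsg.Agent.Lib.H85.McSys2
set_option autoImplicit false
set_option maxHeartbeats 400000
set_option linter.unusedSectionVars false

/-! Components of a system of transvections. -/

namespace H85.Mc

variable {k X Y : Type*} [Field k] [AddCommGroup X] [Module k X] [AddCommGroup Y] [Module k Y]

/-- a system of transvections -/
structure Pre (B : X →ₗ[k] Y →ₗ[k] k) (D : X → Y → Prop) : Prop where
  nzx : ∀ {x y}, D x y → x ≠ 0
  nzy : ∀ {x y}, D x y → y ≠ 0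
  perp : ∀ {x y}, D x y → B x y = 0
  smulx : ∀ {x y} {c : k}, D x y → c ≠ 0 → D (c • x) y
  smuly : ∀ {x y} {c : k}, D x y → c ≠ 0 → D x (c • y)
  addx : ∀ {x x' y}, D x y → D x' y → x + x' ≠ 0 → D (x + x') y
  addy : ∀ {x y y'}, D x y → D x y' → y + y' ≠ 0 → D x (y + y')
  conj : ∀ {x y x' y'}, D x y → D x' y' → D (x' + B x' y • x) (y' - B x y' • y)
  neigh : ∀ {x y}, D x y → ∃ x' y', D x' y' ∧ B x' y ≠ 0 ∧ B x y' ≠ 0

/-- adjacency -/
def adj (B : X →ₗ[k] Y →ₗ[k] k) (D : X → Y → Prop) (a b : X × Y) : Prop :=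
  D a.1 a.2 ∧ D b.1 b.2 ∧ B b.1 a.2 ≠ 0 ∧ B a.1 b.2 ≠ 0

/-- connectedness -/
def con (B : X →ₗ[k] Y →ₗ[k] k) (D : X → Y → Prop) (a b : X × Y) : Prop := Relation.ReflTransGen (adj B D) a b

/-- component -/
def Dc (B : X →ₗ[k] Y →ₗ[k] k) (D : X → Y → Prop) (a : X × Y) (x : X) (y : Y) : Prop := D x y ∧ con B D a (x, y)

variable {B : X →ₗ[k] Y →ₗ[k] k} {D : X → Y → Prop}

theorem adj_symm {a b : X × Y} (h : adj B D a b) : adj B D b a := ⟨h.2.1, h.1, h.2.2.2, h.2.2.1⟩

theorem con_symm {a b : X × Y} (h : con B D a b) : con B D b a := by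
  induction h with
  | refl => exact Relation.ReflTransGen.refl
  | tail _ hbc ih => exact Relation.ReflTransGen.head (adj_symm hbc) ih

theorem con_trans {a b c : X × Y} (h : con B D a b) (h' : con B D b c) : con B D a c :=
  Relation.ReflTransGen.trans h h'

theorem con_refl (a : X × Y) : con B D a a := Relation.ReflTransGen.refl

theorem con_of_adj {a b : X × Y} (h : adj B D a b) : con B D a b := Relation.ReflTransGen.single h

namespace Pre
variable (S : Pre B D)
include S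

theorem negx {x : X} {y : Y} (h : D x y) : D (-x) y := by
  have := S.smulx h (c := (-1 : k)) (by simp)
  rwa [neg_one_smul] at this

theorem A4 {x : X} {y : Y} {x' : X} {y' : Y} (h : D x y) (h' : D x' y') (h1 : B x' y ≠ 0)
    (h2 : B x y' = 0) : D x y' := by
  have h3 := S.conj h h'
  rw [h2, zero_smul, sub_zero] at h3
  have h4 := S.addx h3 (S.negx h') (by
    rw [add_comm x', add_assoc, add_neg_cancel, add_zero]
    exact smul_ne_zero h1 (S.nzx h))
  rw [add_comm x', add_assoc, add_neg_cancel, add_zero] at h4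
  have h5 := S.smulx h4 (inv_ne_zero h1)
  rwa [smul_smul, inv_mul_cancel₀ h1, one_smul] at h5

/-- **connection lemma** -/
theorem con_of {a b : X × Y} (ha : D a.1 a.2) (hb : D b.1 b.2) (h : B b.1 a.2 ≠ 0) : con B D a b := by
  by_cases h2 : B a.1 b.2 = 0
  · have h3 : D a.1 b.2 := S.A4 ha hb h h2
    obtain ⟨z, χ, hz, hz1, hz2⟩ := S.neigh h3
    -- hz1 : B z b.2 ≠ 0, hz2 : B a.1 χ ≠ 0
    obtain ⟨z', χ', hz', h4, h5, h6⟩ : ∃ z' χ', D z' χ' ∧ B z' b.2 ≠ 0 ∧ B a.1 χ' ≠ 0 ∧ B z' a.2 ≠ 0 := by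
      by_cases h0 : B z a.2 = 0
      · refine ⟨z + B z b.2 • b.1, χ - B b.1 χ • b.2, S.conj hb hz, ?_, ?_, ?_⟩
        · rw [map_add, LinearMap.add_apply, map_smul, LinearMap.smul_apply, S.perp hb, smul_zero, add_zero]
          exact hz1
        · rw [map_sub, map_smul, h2, smul_zero, sub_zero]; exact hz2
        · rw [map_add, LinearMap.add_apply, h0, zero_add, map_smul, LinearMap.smul_apply, smul_eq_mul]
          exact mul_ne_zero hz1 h
      · exact ⟨z, χ, hz, hz1, hz2, h0⟩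
    obtain ⟨z'', χ'', hz'', k1, k2, k3, k4⟩ : ∃ z' χ', D z' χ' ∧ B z' b.2 ≠ 0 ∧ B a.1 χ' ≠ 0 ∧ B z' a.2 ≠ 0 ∧
        B b.1 χ' ≠ 0 := by
      by_cases h0 : B b.1 χ' = 0
      · refine ⟨z' + B z' a.2 • a.1, χ' - B a.1 χ' • a.2, S.conj ha hz', ?_, ?_, ?_, ?_⟩
        · rw [map_add, LinearMap.add_apply, map_smul, LinearMap.smul_apply, h2, smul_zero, add_zero]
          exact h4
        · rw [map_sub, map_smul, S.perp ha, smul_zero, sub_zero]; exact h5
        · rw [map_add, LinearMap.add_apply, map_smul, LinearMap.smul_apply, S.perp ha, smul_zero, add_zero]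
          exact h6
        · rw [map_sub, map_smul, h0, zero_sub, smul_eq_mul, neg_ne_zero]
          exact mul_ne_zero h5 h
      · exact ⟨z', χ', hz', h4, h5, h6, h0⟩
    have e1 : adj B D a (z'', χ'') := ⟨ha, hz'', k3, k2⟩
    have e2 : adj B D (z'', χ'') b := ⟨hz'', hb, k4, k1⟩
    exact con_trans (con_of_adj e1) (con_of_adj e2)
  · exact con_of_adj ⟨ha, hb, h, h2⟩

theorem con_of' {a b : X × Y} (ha : D a.1 a.2) (hb : D b.1 b.2) (h : B a.1 b.2 ≠ 0) : con B D a b :=
  con_symm (S.con_of hb ha h)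

theorem con_same_x {x : X} {y y' : Y} (h : D x y) (h' : D x y') : con B D (x, y) (x, y') := by
  obtain ⟨z, χ, hz, h1, h2⟩ := S.neigh h
  have e1 : con B D (x, y) (z, χ) := con_of_adj ⟨h, hz, h1, h2⟩
  have e2 : con B D (z, χ) (x, y') := S.con_of (a := (z, χ)) (b := (x, y')) hz h' h2
  exact con_trans e1 e2

theorem con_same_y {x x' : X} {y : Y} (h : D x y) (h' : D x' y) : con B D (x, y) (x', y) := by
  obtain ⟨z, χ, hz, h1, h2⟩ := S.neigh h
  have e1 : con B D (x, y) (z, χ) := con_of_adj ⟨h, hz, h1, h2⟩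
  have e2 : con B D (z, χ) (x', y) := S.con_of' (a := (z, χ)) (b := (x', y)) hz h' h1
  exact con_trans e1 e2

/-- a component is a connected system -/
theorem sys (a : X × Y) (hrad : ∀ {x y r s}, Dc B D a x y → Dc B D a (x + r) (y + s) →
    (∀ x' y', Dc B D a x' y' → B r y' = 0) →
    (∀ x' y', Dc B D a x' y' → B x' s = 0) → r = 0 ∧ s = 0) : Sys B (Dc B D a) where
  nzx := fun h => S.nzx h.1
  nzy := fun h => S.nzy h.1
  perp := fun h => S.perp h.1
  smulx := fun h hc => ⟨S.smulx h.1 hc, con_trans h.2 (S.con_same_y h.1 (S.smulx h.1 hc))⟩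
  smuly := fun h hc => ⟨S.smuly h.1 hc, con_trans h.2 (S.con_same_x h.1 (S.smuly h.1 hc))⟩
  addx := fun h h' h0 => ⟨S.addx h.1 h'.1 h0, con_trans h.2 (S.con_same_y h.1 (S.addx h.1 h'.1 h0))⟩
  addy := fun h h' h0 => ⟨S.addy h.1 h'.1 h0, con_trans h.2 (S.con_same_x h.1 (S.addy h.1 h'.1 h0))⟩
  conj := by
    intro x y x' y' h h'
    refine ⟨S.conj h.1 h'.1, ?_⟩
    by_cases h0 : B x' y = 0
    · have h1 := S.conj h.1 h'.1
      rw [h0, zero_smul, add_zero] at h1 ⊢
      exact con_trans h'.2 (S.con_same_x h'.1 h1)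
    · refine con_trans h.2 (S.con_of (a := (x, y)) h.1 (S.conj h.1 h'.1) ?_)
      change B (x' + B x' y • x) y ≠ 0
      rw [map_add, LinearMap.add_apply, map_smul, LinearMap.smul_apply, S.perp h.1, smul_zero, add_zero]
      exact h0
  neigh := by
    intro x y h
    obtain ⟨z, χ, hz, h1, h2⟩ := S.neigh h.1
    exact ⟨z, χ, ⟨hz, con_trans h.2 (con_of_adj ⟨h.1, hz, h1, h2⟩)⟩, h1, h2⟩
  conn := by
    intro x y x' y' h h'
    have h1 : con B D (x, y) (x', y') := con_trans (con_symm h.2) h'.2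
    have key : ∀ b : X × Y, con B D (x, y) b → con B D a b ∧
        Relation.ReflTransGen (fun a' b : X × Y => Dc B D a b.1 b.2 ∧ B b.1 a'.2 ≠ 0 ∧ B a'.1 b.2 ≠ 0) (x, y) b := by
      intro b hb
      induction hb with
      | refl => exact ⟨h.2, Relation.ReflTransGen.refl⟩
      | @tail b c _ hbc ih =>
        have h3 : con B D a c := con_trans ih.1 (con_of_adj hbc)
        exact ⟨h3, ih.2.tail ⟨⟨hbc.2.1, h3⟩, hbc.2.2.1, hbc.2.2.2⟩⟩
    exact (key _ h1).2
  rad := hrad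

/-- different components are perpendicular -/
theorem orth {a b : X × Y} (hab : ¬ con B D a b) {x x' : X} {y y' : Y} (h : Dc B D a x y) (h' : Dc B D b x' y') :
    B x' y = 0 ∧ B x y' = 0 := by
  constructor
  · by_contra h0
    exact hab (con_trans h.2 (con_trans (S.con_of (a := (x, y)) (b := (x', y')) h.1 h'.1 h0) (con_symm h'.2)))
  · by_contra h0
    exact hab (con_trans h.2 (con_trans (S.con_of' (a := (x, y)) (b := (x', y')) h.1 h'.1 h0) (con_symm h'.2)))

end Pre

end H85.Mc
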