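import Mathlib
import Cfsg.Agent.Lib.H85.McComp
import Cfsg.Agent.Lib.H55.BaerSuzuki
import Cfsg.Agent.Lib.H13.Cores
set_option autoImplicit false
set_option maxHeartbeats 400000
set_option linter.unusedSectionVars false

/-! The system of transvections in a linear group over a prime field. -/

namespace H85.Mc

section chain
variable {k V : Type*} [Field k] [AddCommGroup V] [Module k V]

/-- stabiliser of a chain -/
def chain (X1 X2 : Submodule k V) (h12 : X1 ≤ X2) : Subgroup (V ≃ₗ[k] V) where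
  carrier := {g | (∀ x, g x - x ∈ X2) ∧ (∀ x ∈ X2, g x - x ∈ X1) ∧ ∀ x ∈ X1, g x = x}
  one_mem' := by
    refine ⟨fun x => ?_, fun x _ => ?_, fun x _ => rfl⟩
    · rw [show (1 : V ≃ₗ[k] V) x = x from rfl, sub_self]; exact X2.zero_mem
    · rw [show (1 : V ≃ₗ[k] V) x = x from rfl, sub_self]; exact X1.zero_mem
  mul_mem' := by
    rintro g h ⟨g1, g2, g3⟩ ⟨h1, h2, h3⟩
    refine ⟨fun x => ?_, fun x hx => ?_, fun x hx => ?_⟩
    · have e : (g * h) x - x = (g (h x) - h x) + (h x - x) := by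
        rw [LinearEquiv.mul_apply]; abel
      rw [e]; exact X2.add_mem (g1 _) (h1 _)
    · have e : (g * h) x - x = (g (h x) - h x) + (h x - x) := by
        rw [LinearEquiv.mul_apply]; abel
      have hx' : h x ∈ X2 := by
        have := X2.add_mem (h1 x) hx
        rwa [sub_add_cancel] at this
      rw [e]; exact X1.add_mem (g2 _ hx') (h2 _ hx)
    · rw [LinearEquiv.mul_apply, h3 x hx, g3 x hx]
  inv_mem' := by
    rintro g ⟨g1, g2, g3⟩
    have hg : ∀ x, g (g⁻¹ x) = x := fun x => g.apply_symm_apply x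
    have e : ∀ x, g⁻¹ x - x = -(g (g⁻¹ x) - g⁻¹ x) := fun x => by rw [hg]; abel
    refine ⟨fun x => ?_, fun x hx => ?_, fun x hx => ?_⟩
    · rw [e]; exact X2.neg_mem (g1 _)
    · have h1 : g⁻¹ x ∈ X2 := by
        have h2 : g⁻¹ x - x ∈ X2 := by rw [e]; exact X2.neg_mem (g1 _)
        have := X2.add_mem h2 hx
        rwa [sub_add_cancel] at this
      rw [e]; exact X1.neg_mem (g2 _ h1)
    · apply g.injective
      rw [hg, g3 x hx]

theorem chain_pow {p : ℕ} (hp : p.Prime) (hpk : (p : k) = 0) (h3 : 3 ≤ p) {X1 X2 : Submodule k V} {h12 : X1 ≤ X2}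
    {g : V ≃ₗ[k] V} (hg : g ∈ chain X1 X2 h12) : g ^ p = 1 := by
  obtain ⟨g1, g2, g3⟩ := hg
  set A : Module.End k V := (g : V →ₗ[k] V) with hA
  set N : Module.End k V := A - 1 with hN
  have hN3 : N ^ 3 = 0 := by
    ext x
    have h1 : N x ∈ X2 := g1 x
    have h2 : N (N x) ∈ X1 := g2 _ h1
    have h4 : N (N (N x)) = 0 := by
      change g (N (N x)) - N (N x) = 0
      rw [g3 _ h2, sub_self]
    have e : (N ^ 3) x = N (N (N x)) := by
      rw [pow_succ, pow_succ, pow_one]; rfl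
    rw [e, h4]; rfl
  have hNp : N ^ p = 0 := by
    obtain ⟨m, rfl⟩ := Nat.exists_eq_add_of_le h3
    rw [pow_add, hN3, zero_mul]
  have h5 : (1 + N) ^ p = 1 := by
    rw [(Commute.one_left N).add_pow_prime_eq hp, one_pow, hNp, add_zero]
    have h6 : ((p : ℕ) : Module.End k V) = 0 := by
      ext x
      rw [Module.End.natCast_apply, ← Nat.cast_smul_eq_nsmul k, hpk, zero_smul]; rfl
    simp only [h6, zero_mul, add_zero]
  have h6 : A ^ p = 1 := by
    rw [← h5, hN]; congr 1; abel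
  have h7 : LinearEquiv.automorphismGroup.toLinearMapMonoidHom (R := k) (M := V) (g ^ p) = A ^ p := by
    rw [map_pow]; rfl
  apply LinearEquiv.ext
  intro x
  have h8 := congrArg (fun f : Module.End k V => f x) (h7.trans h6)
  exact h8

theorem chain_isPGroup {p : ℕ} (hp : p.Prime) (hpk : (p : k) = 0) (h3 : 3 ≤ p) {X1 X2 : Submodule k V} {h12 : X1 ≤ X2} :
    IsPGroup p (chain X1 X2 h12) := by
  intro g
  refine ⟨1, ?_⟩
  rw [pow_one]
  apply Subtype.ext
  exact chain_pow hp hpk h3 g.2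

end chain

section DD
variable {k V : Type*} [Field k] [AddCommGroup V] [Module k V]

/-- `x ↦ x + φ x v` lies in `H` -/
def DD (H : Subgroup (V ≃ₗ[k] V)) (v : V) (φ : Module.Dual k V) : Prop :=
  v ≠ 0 ∧ φ ≠ 0 ∧ φ v = 0 ∧ ∃ g ∈ H, ∀ x, g x = x + φ x • v

/-- evaluation pairing -/
abbrev ev (k V : Type*) [Field k] [AddCommGroup V] [Module k V] : V →ₗ[k] Module.Dual k V →ₗ[k] k :=
  Module.Dual.eval k V

theorem ev_apply (v : V) (φ : Module.Dual k V) : ev k V v φ = φ v := rfl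

theorem tv_pow {g : V ≃ₗ[k] V} {v : V} {φ : Module.Dual k V} (h : φ v = 0) (hg : ∀ x, g x = x + φ x • v) (n : ℕ) :
    ∀ x, (g ^ n) x = x + ((n : k) * φ x) • v := by
  induction n with
  | zero => intro x; simp
  | succ n ih =>
    intro x
    rw [pow_succ', LinearEquiv.mul_apply, hg, ih, map_add, map_smul, h, smul_zero, add_zero]
    push_cast
    rw [add_mul, one_mul, add_smul]; abel

theorem tv_inv {g : V ≃ₗ[k] V} {v : V} {φ : Module.Dual k V} (h : φ v = 0) (hg : ∀ x, g x = x + φ x • v) :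
    ∀ x, g⁻¹ x = x - φ x • v := by
  intro x
  apply g.injective
  rw [show g (g⁻¹ x) = x from g.apply_symm_apply x, hg, map_sub, map_smul, h, smul_zero, sub_zero, sub_add_cancel]

theorem DD_conj_mem {H : Subgroup (V ≃ₗ[k] V)} {v : V} {φ : Module.Dual k V} (h : DD H v φ) {g : V ≃ₗ[k] V} (hg : g ∈ H) :
    DD H (g v) (φ.comp ((g⁻¹ : V ≃ₗ[k] V) : V →ₗ[k] V)) := by
  obtain ⟨h1, h2, h3, t, ht, htx⟩ := h
  have hgg : ∀ x, g (g⁻¹ x) = x := fun x => g.apply_symm_apply x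
  have hgg' : ∀ x, g⁻¹ (g x) = x := fun x => g.symm_apply_apply x
  refine ⟨fun h => h1 (g.map_eq_zero_iff.1 h), ?_, ?_, g * t * g⁻¹, H.mul_mem (H.mul_mem hg ht) (H.inv_mem hg), ?_⟩
  · intro h0
    apply h2
    ext x
    have := congrArg (fun f : Module.Dual k V => f (g x)) h0
    change φ (g⁻¹ (g x)) = 0 at this
    rw [hgg'] at this
    exact this
  · change φ (g⁻¹ (g v)) = 0
    rw [hgg']; exact h3
  · intro x
    change g (t (g⁻¹ x)) = x + φ (g⁻¹ x) • g v
    rw [htx, map_add, map_smul, hgg]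

end DD

section pre
variable {p : ℕ} [hpf : Fact p.Prime] {V : Type*} [AddCommGroup V] [Module (ZMod p) V]

theorem DD_conj {H : Subgroup (V ≃ₗ[ZMod p] V)} {x : V} {y : Module.Dual (ZMod p) V} {x' : V}
    {y' : Module.Dual (ZMod p) V} (h : DD H x y) (h' : DD H x' y') :
    DD H (x' + ev (ZMod p) V x' y • x) (y' - ev (ZMod p) V x y' • y) := by
  obtain ⟨h1, h2, h3, g, hg, hgx⟩ := h
  have := DD_conj_mem h' hg
  rw [hgx] at this
  have e : y'.comp ((g⁻¹ : V ≃ₗ[ZMod p] V) : V →ₗ[ZMod p] V) = y' - ev (ZMod p) V x y' • y := by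
    ext z
    change y' (g⁻¹ z) = y' z - y' x * y z
    rw [tv_inv h3 hgx, map_sub, map_smul, smul_eq_mul, mul_comm]
  rw [e] at this
  exact this

theorem DD_pow {H : Subgroup (V ≃ₗ[ZMod p] V)} {x : V} {y : Module.Dual (ZMod p) V} (h3 : y x = 0)
    {g : V ≃ₗ[ZMod p] V} (hg : g ∈ H) (hgx : ∀ z, g z = z + y z • x) (c : ZMod p) :
    ∃ g' ∈ H, ∀ z, g' z = z + (c * y z) • x := by
  refine ⟨g ^ c.val, H.pow_mem hg _, ?_⟩
  intro z
  rw [tv_pow h3 hgx, ZMod.natCast_zmod_val]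

theorem not_neigh_pgroup (h3 : 3 ≤ p) {H : Subgroup (V ≃ₗ[ZMod p] V)} {x : V} {y : Module.Dual (ZMod p) V} {x' : V}
    {y' : Module.Dual (ZMod p) V} {g g' : V ≃ₗ[ZMod p] V} (hxy : y x = 0) (hxy' : y' x' = 0)
    (hg : ∀ z, g z = z + y z • x) (hg' : ∀ z, g' z = z + y' z • x') (h : y x' = 0) :
    ∃ (X1 X2 : Submodule (ZMod p) V) (h12 : X1 ≤ X2), g ∈ chain X1 X2 h12 ∧ g' ∈ chain X1 X2 h12 := by
  have h12 : Submodule.span (ZMod p) {x'} ≤ LinearMap.ker y := by
    rw [Submodule.span_singleton_le_iff_mem, LinearMap.mem_ker]; exact h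
  refine ⟨Submodule.span (ZMod p) {x'}, LinearMap.ker y, h12, ⟨?_, ?_, ?_⟩, ⟨?_, ?_, ?_⟩⟩
  · intro z
    rw [hg, add_sub_cancel_left, LinearMap.mem_ker, map_smul, hxy, smul_zero]
  · intro z hz
    rw [LinearMap.mem_ker] at hz
    rw [hg, hz, zero_smul, add_zero, sub_self]
    exact Submodule.zero_mem _
  · intro z hz
    have hz' := h12 hz
    rw [LinearMap.mem_ker] at hz'
    rw [hg, hz', zero_smul, add_zero]
  · intro z
    rw [hg', add_sub_cancel_left]
    exact h12 (Submodule.smul_mem _ _ (Submodule.mem_span_singleton_self x'))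
  · intro z _
    rw [hg', add_sub_cancel_left]
    exact Submodule.smul_mem _ _ (Submodule.mem_span_singleton_self x')
  · intro z hz
    obtain ⟨c, rfl⟩ := Submodule.mem_span_singleton.1 hz
    rw [hg', map_smul, hxy', smul_zero, zero_smul, add_zero]

theorem isPGroup_of_mem_chain (h3 : 3 ≤ p) {H : Subgroup (V ≃ₗ[ZMod p] V)} {a b : H}
    {X1 X2 : Submodule (ZMod p) V} {h12 : X1 ≤ X2} (ha : (a : V ≃ₗ[ZMod p] V) ∈ chain X1 X2 h12)
    (hb : (b : V ≃ₗ[ZMod p] V) ∈ chain X1 X2 h12) : IsPGroup p (Subgroup.closure ({a, b} : Set H)) := by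
  intro g
  refine ⟨1, ?_⟩
  rw [pow_one]
  have h1 : Subgroup.closure ({a, b} : Set H) ≤ (chain X1 X2 h12).subgroupOf H := by
    rw [Subgroup.closure_le]
    rintro z (rfl | rfl)
    · exact ha
    · exact hb
  have h2 : ((g : H) : V ≃ₗ[ZMod p] V) ∈ chain X1 X2 h12 := h1 g.2
  apply Subtype.ext
  apply Subtype.ext
  exact chain_pow hpf.out (ZMod.natCast_self p) h3 h2

theorem pre [Finite V] (h3 : 3 ≤ p) (H : Subgroup (V ≃ₗ[ZMod p] V)) (hOp : Cfsg.pCore p H = ⊥) :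
    Pre (ev (ZMod p) V) (DD H) where
  nzx := fun h => h.1
  nzy := fun h => h.2.1
  perp := fun h => h.2.2.1
  smulx := by
    rintro x y c ⟨h1, h2, h3, g, hg, hgx⟩ hc
    obtain ⟨g', hg', hgx'⟩ := DD_pow h3 hg hgx c
    refine ⟨smul_ne_zero hc h1, h2, by rw [map_smul, h3, smul_zero], g', hg', ?_⟩
    intro z
    rw [hgx', smul_smul, mul_comm]
  smuly := by
    rintro x y c ⟨h1, h2, h3, g, hg, hgx⟩ hc
    obtain ⟨g', hg', hgx'⟩ := DD_pow h3 hg hgx c
    refine ⟨h1, smul_ne_zero hc h2, by rw [LinearMap.smul_apply, h3, smul_zero], g', hg', ?_⟩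
    intro z
    rw [hgx', LinearMap.smul_apply, smul_eq_mul]
  addx := by
    rintro x x' y ⟨h1, h2, h3, g, hg, hgx⟩ ⟨h1', _, h3', g', hg', hgx'⟩ h0
    refine ⟨h0, h2, by rw [map_add, h3, h3', add_zero], g * g', H.mul_mem hg hg', ?_⟩
    intro z
    rw [LinearEquiv.mul_apply, hgx, hgx', map_add, map_smul, h3', smul_zero, add_zero, smul_add]
    abel
  addy := by
    rintro x y y' ⟨h1, h2, h3, g, hg, hgx⟩ ⟨_, h2', h3', g', hg', hgx'⟩ h0
    refine ⟨h1, h0, by rw [LinearMap.add_apply, h3, h3', add_zero], g * g', H.mul_mem hg hg', ?_⟩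
    intro z
    rw [LinearEquiv.mul_apply, hgx, hgx', map_add, map_smul, h3, smul_zero, add_zero, LinearMap.add_apply, add_smul]
    abel
  conj := DD_conj
  neigh := by
    intro x y h
    by_contra hcon
    push Not at hcon
    obtain ⟨h1, h2, hxy, g, hg, hgx⟩ := id h
    haveI : Finite (V ≃ₗ[ZMod p] V) :=
      Finite.of_injective (fun f => (f : V → V)) DFunLike.coe_injective
    obtain ⟨N, hN, hNp, hgN⟩ := H55.BaerSuzuki.exists_normal (p := p) (⟨g, hg⟩ : H) (by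
      intro a
      have h4 := DD_conj_mem h a.2
      have h5 := hcon _ _ h4
      have h6 : ∀ z, ((a * ⟨g, hg⟩ * a⁻¹ : H) : V ≃ₗ[ZMod p] V) z =
          z + (y.comp (((a : V ≃ₗ[ZMod p] V)⁻¹ : V ≃ₗ[ZMod p] V) : V →ₗ[ZMod p] V)) z • (a : V ≃ₗ[ZMod p] V) x := by
        intro z
        have hgg : (a : V ≃ₗ[ZMod p] V) ((a : V ≃ₗ[ZMod p] V)⁻¹ z) = z := (a : V ≃ₗ[ZMod p] V).apply_symm_apply z
        change (a : V ≃ₗ[ZMod p] V) (g ((a : V ≃ₗ[ZMod p] V)⁻¹ z)) = z + y ((a : V ≃ₗ[ZMod p] V)⁻¹ z) • (a : V ≃ₗ[ZMod p] V) x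
        rw [hgx, map_add, map_smul, hgg]
      by_cases h7 : ev (ZMod p) V ((a : V ≃ₗ[ZMod p] V) x) y = 0
      · obtain ⟨X1, X2, h12, k1, k2⟩ := not_neigh_pgroup h3 (H := H) hxy h4.2.2.1 hgx h6 h7
        exact isPGroup_of_mem_chain h3 k1 k2
      · have h8 := h5 h7
        obtain ⟨X1, X2, h12, k1, k2⟩ := not_neigh_pgroup h3 (H := H) h4.2.2.1 hxy h6 hgx h8
        exact isPGroup_of_mem_chain h3 k2 k1)
    have h7 : N ≤ Cfsg.pCore p H := H13.Cores.le_pCore hN hNp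
    rw [hOp, le_bot_iff] at h7
    rw [h7, Subgroup.mem_bot] at hgN
    have h8 : g = 1 := congrArg Subtype.val hgN
    apply h2
    ext z
    have h9 := hgx z
    rw [h8, show (1 : V ≃ₗ[ZMod p] V) z = z from rfl, left_eq_add] at h9
    exact (smul_eq_zero.1 h9).resolve_right h1

end pre

end H85.Mc
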