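import Mathlib
import Cfsg.Agent.Lib.H85.McConc
set_option autoImplicit false
set_option maxHeartbeats 400000
set_option linter.unusedSectionVars false

/-! Components of a transvection group with `O_p = 1`. -/

namespace H85.Mc

section glob
variable {p : ℕ} [hpf : Fact p.Prime] {V : Type*} [AddCommGroup V] [Module (ZMod p) V]

/-- pairs generating -/
def Gen (H : Subgroup (V ≃ₗ[ZMod p] V)) (T : Set (V ≃ₗ[ZMod p] V)) : Prop :=
  H = Subgroup.closure T ∧ ∀ t ∈ T, ∃ v φ, DD H v φ ∧ ∀ x, t x = x + φ x • v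

theorem inv_of {H : Subgroup (V ≃ₗ[ZMod p] V)} {T : Set (V ≃ₗ[ZMod p] V)} (hG : Gen H T)
    (W : Submodule (ZMod p) V) (hW : ∀ w ψ, DD H w ψ → ∀ x ∈ W, ψ x • w ∈ W) :
    ∀ h ∈ H, ∀ x ∈ W, h x ∈ W := by
  intro h hh
  rw [hG.1] at hh
  have key : (∀ x ∈ W, h x ∈ W) ∧ (∀ x ∈ W, h⁻¹ x ∈ W) := by
    induction hh using Subgroup.closure_induction with
    | mem t ht =>
      obtain ⟨v, φ, hD, hx⟩ := hG.2 t ht
      refine ⟨fun x hxW => ?_, fun x hxW => ?_⟩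
      · rw [hx]; exact W.add_mem hxW (hW v φ hD x hxW)
      · rw [tv_inv hD.2.2.1 hx]; exact W.sub_mem hxW (hW v φ hD x hxW)
    | one => exact ⟨fun x hx => hx, fun x hx => by rw [inv_one]; exact hx⟩
    | mul a b _ _ ha hb =>
      refine ⟨fun x hx => ha.1 _ (hb.1 _ hx), fun x hx => ?_⟩
      rw [mul_inv_rev]
      exact hb.2 _ (ha.2 _ hx)
    | inv a _ ha =>
      refine ⟨ha.2, ?_⟩
      rw [inv_inv]; exact ha.1
  exact key.1

theorem chain_conj {X1 X2 : Submodule (ZMod p) V} {h12 : X1 ≤ X2} {n h : V ≃ₗ[ZMod p] V} (hn : n ∈ chain X1 X2 h12)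
    (h1 : ∀ x ∈ X1, h x ∈ X1) (h2 : ∀ x ∈ X2, h x ∈ X2) (h1' : ∀ x ∈ X1, h⁻¹ x ∈ X1) (h2' : ∀ x ∈ X2, h⁻¹ x ∈ X2) :
    h * n * h⁻¹ ∈ chain X1 X2 h12 := by
  obtain ⟨n1, n2, n3⟩ := hn
  have hh : ∀ x, h (h⁻¹ x) = x := fun x => h.apply_symm_apply x
  have e : ∀ x, (h * n * h⁻¹) x - x = h (n (h⁻¹ x) - h⁻¹ x) := by
    intro x
    rw [map_sub, hh]; rfl
  refine ⟨fun x => ?_, fun x hx => ?_, fun x hx => ?_⟩
  · rw [e]; exact h2 _ (n1 _)
  · rw [e]; exact h1 _ (n2 _ (h2' _ hx))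
  · have := e x
    rw [n3 _ (h1' _ hx), sub_self, map_zero, sub_eq_zero] at this
    exact this

variable (H : Subgroup (V ≃ₗ[ZMod p] V))

/-- component relation -/
abbrev DH (a : V × Module.Dual (ZMod p) V) : V → Module.Dual (ZMod p) V → Prop :=
  Dc (ev (ZMod p) V) (DD H) a

/-- span of the centres -/
def Us (a : V × Module.Dual (ZMod p) V) : Submodule (ZMod p) V :=
  Submodule.span (ZMod p) {v | ∃ φ, DH H a v φ}

/-- common kernel of the axes -/
def Rs (a : V × Module.Dual (ZMod p) V) : Submodule (ZMod p) V where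
  carrier := {r | ∀ v φ, DH H a v φ → φ r = 0}
  zero_mem' := fun v φ _ => map_zero φ
  add_mem' := by
    intro x y hx hy v φ h
    rw [map_add, hx v φ h, hy v φ h, add_zero]
  smul_mem' := by
    intro c x hx v φ h
    rw [map_smul, hx v φ h, smul_zero]

theorem mem_Rs {a : V × Module.Dual (ZMod p) V} {r : V} : r ∈ Rs H a ↔ ∀ v φ, DH H a v φ → φ r = 0 := Iff.rfl

variable {H}
variable [Finite V] (h3 : 3 ≤ p) (hOp : Cfsg.pCore p H = ⊥) {T : Set (V ≃ₗ[ZMod p] V)} (hG : Gen H T)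

include h3 hOp

theorem Us_move {a : V × Module.Dual (ZMod p) V} {w : V} {ψ : Module.Dual (ZMod p) V} (h : DD H w ψ) :
    ∀ x ∈ Us H a, ψ x • w ∈ Us H a := by
  intro x hx
  by_cases hc : con (ev (ZMod p) V) (DD H) a (w, ψ)
  · exact (Us H a).smul_mem _ (Submodule.subset_span ⟨ψ, h, hc⟩)
  · have h0 : ψ x = 0 := by
      have h1 : Us H a ≤ LinearMap.ker ψ := by
        unfold Us
        rw [Submodule.span_le]
        rintro v ⟨φ, hv⟩
        have := ((pre h3 H hOp).orth hc hv ⟨h, con_refl _⟩).2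
        exact this
      exact h1 hx
    rw [h0, zero_smul]; exact Submodule.zero_mem _

theorem Rs_move {a : V × Module.Dual (ZMod p) V} {w : V} {ψ : Module.Dual (ZMod p) V} (h : DD H w ψ) :
    ∀ x ∈ Rs H a, ψ x • w ∈ Rs H a := by
  intro x hx
  by_cases hc : con (ev (ZMod p) V) (DD H) a (w, ψ)
  · rw [hx w ψ ⟨h, hc⟩, zero_smul]; exact Submodule.zero_mem _
  · apply Submodule.smul_mem
    intro v φ hv
    exact ((pre h3 H hOp).orth hc hv ⟨h, con_refl _⟩).1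

include hG

theorem Us_inv {a : V × Module.Dual (ZMod p) V} : ∀ h ∈ H, ∀ x ∈ Us H a, h x ∈ Us H a :=
  inv_of hG _ (fun _ _ h => Us_move h3 hOp h)

theorem Rs_inv {a : V × Module.Dual (ZMod p) V} : ∀ h ∈ H, ∀ x ∈ Rs H a, h x ∈ Rs H a :=
  inv_of hG _ (fun _ _ h => Rs_move h3 hOp h)

/-- the radical condition -/
theorem rad_cond {a : V × Module.Dual (ZMod p) V} {x r : V} {y s : Module.Dual (ZMod p) V}
    (h : DH H a x y) (h' : DH H a (x + r) (y + s)) (hr : ∀ x' y', DH H a x' y' → ev (ZMod p) V r y' = 0)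
    (hs : ∀ x' y', DH H a x' y' → ev (ZMod p) V x' s = 0) : r = 0 ∧ s = 0 := by
  have hrR : r ∈ Rs H a := hr
  have hsx : s x = 0 := hs x y h
  have hsU : ∀ z ∈ Us H a, s z = 0 := by
    intro z hz
    have h1 : Us H a ≤ LinearMap.ker s := by
      unfold Us
      rw [Submodule.span_le]
      rintro v ⟨φ, hv⟩
      exact hs v φ hv
    exact h1 hz
  have hxU : x ∈ Us H a := Submodule.subset_span ⟨y, h⟩
  have hxrU : x + r ∈ Us H a := Submodule.subset_span ⟨y + s, h'⟩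
  have hrU : r ∈ Us H a := by
    have := (Us H a).sub_mem hxrU hxU
    rwa [add_sub_cancel_left] at this
  obtain ⟨g1, hg1, hg1x⟩ := h.1.2.2.2
  obtain ⟨g2, hg2, hg2x⟩ := h'.1.2.2.2
  have hyx : y x = 0 := h.1.2.2.1
  have hn : ∀ z, (g2 * g1⁻¹) z - z = s z • (x + r) + y z • r := by
    intro z
    change g2 (g1⁻¹ z) - z = _
    rw [tv_inv hyx hg1x, hg2x, map_sub, map_smul, LinearMap.add_apply, LinearMap.add_apply, hyx, hsx, add_zero,
      smul_zero, sub_zero, add_smul, smul_add (y z)]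
    abel
  have h12 : Us H a ⊓ Rs H a ≤ Us H a := inf_le_left
  have hmem : g2 * g1⁻¹ ∈ chain (Us H a ⊓ Rs H a) (Us H a) h12 := by
    refine ⟨fun z => ?_, fun z hz => ?_, fun z hz => ?_⟩
    · rw [hn]
      exact Submodule.add_mem _ (Submodule.smul_mem _ _ hxrU) (Submodule.smul_mem _ _ hrU)
    · rw [hn, hsU z hz, zero_smul, zero_add]
      exact Submodule.smul_mem _ _ ⟨hrU, hrR⟩
    · have h1 := hn z
      rw [hsU z hz.1, hz.2 x y h, zero_smul, zero_smul, add_zero, sub_eq_zero] at h1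
      exact h1
  have hN : ((chain (Us H a ⊓ Rs H a) (Us H a) h12).subgroupOf H).Normal := by
    refine ⟨fun n hn g => ?_⟩
    have i1 : ∀ h ∈ H, ∀ x ∈ Us H a ⊓ Rs H a, h x ∈ Us H a ⊓ Rs H a := fun h hh x hx =>
      ⟨Us_inv h3 hOp hG h hh x hx.1, Rs_inv h3 hOp hG h hh x hx.2⟩
    exact chain_conj (h12 := h12) hn (i1 g g.2) (Us_inv h3 hOp hG g g.2) (i1 _ (H.inv_mem g.2)) (Us_inv h3 hOp hG _ (H.inv_mem g.2))
  have hP : IsPGroup p ((chain (Us H a ⊓ Rs H a) (Us H a) h12).subgroupOf H) := by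
    intro g
    refine ⟨1, ?_⟩
    rw [pow_one]
    apply Subtype.ext
    apply Subtype.ext
    have hg2 : ((g : H) : V ≃ₗ[ZMod p] V) ∈ chain (Us H a ⊓ Rs H a) (Us H a) h12 := g.2
    exact chain_pow hpf.out (ZMod.natCast_self p) h3 hg2
  have h4 := H13.Cores.le_pCore hN hP
  rw [hOp, le_bot_iff] at h4
  have h5 : (⟨g2 * g1⁻¹, H.mul_mem hg2 (H.inv_mem hg1)⟩ : H) ∈ (chain (Us H a ⊓ Rs H a) (Us H a) h12).subgroupOf H := hmem
  rw [h4, Subgroup.mem_bot] at h5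
  have h6 : g2 * g1⁻¹ = 1 := congrArg Subtype.val h5
  have h7 : ∀ z, s z • (x + r) + y z • r = 0 := by
    intro z
    rw [← hn, h6, show (1 : V ≃ₗ[ZMod p] V) z = z from rfl, sub_self]
  obtain ⟨z, ζ, hz, _, hzeta⟩ := (pre h3 H hOp).neigh h.1
  have hz' : DH H a z ζ := ⟨hz, con_trans h.2 (con_of_adj ⟨h.1, hz, ‹_›, hzeta⟩)⟩
  have h8 : s = 0 := by
    ext u
    have h9 := congrArg ζ (h7 u)
    rw [map_add, map_smul, map_smul, map_add, hrR z ζ hz', add_zero, smul_zero, add_zero, map_zero, smul_eq_mul] at h9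
    exact (mul_eq_zero.1 h9).resolve_right hzeta
  refine ⟨?_, h8⟩
  have h9 : ∃ u, y u ≠ 0 := by
    by_contra hcon
    push Not at hcon
    exact h.1.2.1 (LinearMap.ext hcon)
  obtain ⟨u, hu⟩ := h9
  have h10 := h7 u
  rw [h8, LinearMap.zero_apply, zero_smul, zero_add] at h10
  exact (smul_eq_zero.1 h10).resolve_left hu

theorem sysH (a : V × Module.Dual (ZMod p) V) : Sys (ev (ZMod p) V) (DH H a) :=
  (pre h3 H hOp).sys a (fun h h' hr hs => rad_cond h3 hOp hG h h' hr hs)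

end glob

end H85.Mc
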