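import Mathlib
import Cfsg.Agent.Lib.H85.McGlob
import Cfsg.Agent.Lib.H85.McCls
set_option autoImplicit false
set_option maxHeartbeats 400000
set_option linter.unusedSectionVars false

/-! Structure of one component. -/

namespace H85.Mc

section general
variable {k V : Type*} [Field k] [AddCommGroup V] [Module k V]

/-- restriction homomorphism -/
def resU (K : Subgroup (V ≃ₗ[k] V)) (U : Submodule k V) (hU : ∀ g ∈ K, ∀ x ∈ U, g x ∈ U) : K →* (U ≃ₗ[k] U) where
  toFun g :=
    { toFun := fun x => ⟨(g : V ≃ₗ[k] V) x, hU g g.2 x x.2⟩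
      map_add' := fun x y => Subtype.ext (map_add (g : V ≃ₗ[k] V) x.1 y.1)
      map_smul' := fun c x => Subtype.ext (map_smul (g : V ≃ₗ[k] V) c x.1)
      invFun := fun x => ⟨(g : V ≃ₗ[k] V)⁻¹ x, hU _ (K.inv_mem g.2) x x.2⟩
      left_inv := fun x => Subtype.ext ((g : V ≃ₗ[k] V).symm_apply_apply x.1)
      right_inv := fun x => Subtype.ext ((g : V ≃ₗ[k] V).apply_symm_apply x.1) }
  map_one' := rfl
  map_mul' _ _ := rfl

theorem resU_apply (K : Subgroup (V ≃ₗ[k] V)) (U : Submodule k V) (hU : ∀ g ∈ K, ∀ x ∈ U, g x ∈ U) (g : K) (x : U) :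
    ((resU K U hU g x : U) : V) = (g : V ≃ₗ[k] V) x := rfl

theorem internal_of {ι : Type*} [Fintype ι] [DecidableEq ι] (W : ι → Submodule k V) (P : ι → V →ₗ[k] V)
    (h1 : ∀ i, ∀ x ∈ W i, P i x = x) (h2 : ∀ i j, i ≠ j → ∀ x ∈ W j, P i x = 0) (h3 : ∀ i x, P i x ∈ W i)
    (h4 : ∀ x, ∑ i, P i x = x) : DirectSum.IsInternal W := by
  rw [DirectSum.isInternal_submodule_iff_iSupIndep_and_iSup_eq_top]
  constructor
  · intro i
    rw [Submodule.disjoint_def]
    intro x hx hx'
    have h5 : (⨆ j, ⨆ (_ : j ≠ i), W j) ≤ LinearMap.ker (P i) := by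
      apply iSup_le; intro j
      apply iSup_le; intro hj
      intro y hy
      exact h2 i j hj.symm y hy
    have h6 : P i x = 0 := h5 hx'
    rw [← h1 i x hx, h6]
  · rw [eq_top_iff]
    intro x _
    rw [← h4 x]
    exact Submodule.sum_mem _ (fun i _ => Submodule.mem_iSup_of_mem i (h3 i x))

/-- group generated by the transvections of a set of pairs -/
def Kg (D : V → Module.Dual k V → Prop) : Subgroup (V ≃ₗ[k] V) :=
  Subgroup.closure {g | ∃ x y, D x y ∧ ∀ z, g z = z + y z • x}

theorem Kg_mem {D : V → Module.Dual k V → Prop} {g : V ≃ₗ[k] V} {x : V} {y : Module.Dual k V} (h : D x y)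
    (hg : ∀ z, g z = z + y z • x) : g ∈ Kg D := Subgroup.subset_closure ⟨x, y, h, hg⟩

/-- pointwise stabiliser -/
def fixS (R : Submodule k V) : Subgroup (V ≃ₗ[k] V) where
  carrier := {g | ∀ x ∈ R, g x = x}
  one_mem' := fun x _ => rfl
  mul_mem' := by
    intro g h hg hh x hx
    change g (h x) = x
    rw [hh x hx, hg x hx]
  inv_mem' := by
    intro g hg x hx
    apply g.injective
    rw [show g (g⁻¹ x) = x from g.apply_symm_apply x, hg x hx]

theorem mem_fixS {R : Submodule k V} {g : V ≃ₗ[k] V} : g ∈ fixS R ↔ ∀ x ∈ R, g x = x := Iff.rfl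

end general

section comp
variable {p : ℕ} [hpf : Fact p.Prime] {V : Type*} [AddCommGroup V] [Module (ZMod p) V] [Finite V]
variable {D : V → Module.Dual (ZMod p) V → Prop} (S : Sys (ev (ZMod p) V) D) (h2 : (2 : ZMod p) ≠ 0)
include S h2

theorem pf1 {x : V} (hx : x ∈ S.CU h2) (h : ∀ φ, (∃ v, D v φ) → φ x = 0) : x = 0 :=
  S.cen_nondeg h2 hx (fun z y hzy => h y ⟨z, hzy⟩)

theorem pf2 {φ : Module.Dual (ZMod p) V} (hφ : φ ∈ S.flip.CU h2) (h : ∀ x ∈ S.CU h2, φ x = 0) : φ = 0 :=
  S.flip.cen_nondeg h2 hφ (fun z y hzy => h y (Or.inr ⟨z, hzy⟩))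

theorem finrank_CU : Module.finrank (ZMod p) (S.CU h2) = Module.finrank (ZMod p) (S.flip.CU h2) ∧
    (∀ f : Module.Dual (ZMod p) (S.CU h2), ∃ φ ∈ S.flip.CU h2, ∀ x : S.CU h2, φ x = f x) ∧
    (∀ v : V, ∃ u ∈ S.CU h2, ∀ φ ∈ S.flip.CU h2, φ u = φ v) := by
  haveI : FiniteDimensional (ZMod p) V := inferInstance
  let r : (S.flip.CU h2) →ₗ[ZMod p] Module.Dual (ZMod p) (S.CU h2) :=
    { toFun := fun φ => φ.1.domRestrict (S.CU h2)
      map_add' := fun _ _ => rfl
      map_smul' := fun _ _ => rfl }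
  let s : (S.CU h2) →ₗ[ZMod p] Module.Dual (ZMod p) (S.flip.CU h2) :=
    { toFun := fun x => { toFun := fun φ => φ.1 x.1, map_add' := fun _ _ => rfl, map_smul' := fun _ _ => rfl }
      map_add' := fun x y => by ext φ; exact map_add φ.1 x.1 y.1
      map_smul' := fun c x => by ext φ; exact map_smul φ.1 c x.1 }
  have hr : Function.Injective r := by
    rw [← LinearMap.ker_eq_bot, LinearMap.ker_eq_bot']
    intro φ hφ
    apply Subtype.ext
    apply pf2 S h2 φ.2
    intro x hx
    exact congrArg (fun f : Module.Dual (ZMod p) (S.CU h2) => f ⟨x, hx⟩) hφ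
  have hs : Function.Injective s := by
    rw [← LinearMap.ker_eq_bot, LinearMap.ker_eq_bot']
    intro x hx
    apply Subtype.ext
    apply pf1 S h2 x.2
    rintro φ ⟨v, hv⟩
    exact congrArg (fun f : Module.Dual (ZMod p) (S.flip.CU h2) => f ⟨φ, Or.inr ⟨v, hv⟩⟩) hx
  have e1 := LinearMap.finrank_le_finrank_of_injective hr
  have e2 := LinearMap.finrank_le_finrank_of_injective hs
  rw [Subspace.dual_finrank_eq] at e1 e2
  have e3 : Module.finrank (ZMod p) (S.CU h2) = Module.finrank (ZMod p) (S.flip.CU h2) := le_antisymm e2 e1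
  refine ⟨e3, ?_, ?_⟩
  · have hsur : Function.Surjective r :=
      (LinearMap.injective_iff_surjective_of_finrank_eq_finrank (by rw [Subspace.dual_finrank_eq, e3])).1 hr
    intro f
    obtain ⟨φ, hφ⟩ := hsur f
    exact ⟨φ.1, φ.2, fun x => congrArg (fun f : Module.Dual (ZMod p) (S.CU h2) => f x) hφ⟩
  · have hsur : Function.Surjective s :=
      (LinearMap.injective_iff_surjective_of_finrank_eq_finrank (by rw [Subspace.dual_finrank_eq, e3])).1 hs
    intro v
    obtain ⟨u, hu⟩ := hsur { toFun := fun φ => φ.1 v, map_add' := fun _ _ => rfl, map_smul' := fun _ _ => rfl }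
    exact ⟨u.1, u.2, fun φ hφ => congrArg (fun f : Module.Dual (ZMod p) (S.flip.CU h2) => f ⟨φ, hφ⟩) hu⟩

/-- projection onto the space of centres -/
theorem exists_proj : ∃ P : V →ₗ[ZMod p] V, (∀ x ∈ S.CU h2, P x = x) ∧ (∀ x, (∀ v φ, D v φ → φ x = 0) → P x = 0) ∧
    (∀ x, P x ∈ S.CU h2) ∧ ∀ x v φ, D v φ → φ (x - P x) = 0 := by
  obtain ⟨_, _, h3⟩ := finrank_CU S h2
  choose f hf1 hf2 using h3
  have huniq : ∀ x u, u ∈ S.CU h2 → (∀ v φ, D v φ → φ u = φ x) → u = f x := by
    intro x u hu h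
    have h4 : u - f x = 0 := by
      apply pf1 S h2 ((S.CU h2).sub_mem hu (hf1 x))
      rintro φ ⟨v, hv⟩
      rw [map_sub, h v φ hv, hf2 x φ (Or.inr ⟨v, hv⟩), sub_self]
    exact sub_eq_zero.1 h4
  have hf2' : ∀ x v φ, D v φ → φ (f x) = φ x := fun x v φ h => hf2 x φ (Or.inr ⟨v, h⟩)
  refine ⟨{ toFun := f, map_add' := ?_, map_smul' := ?_ }, ?_, ?_, ?_, ?_⟩
  · intro x y
    refine (huniq _ _ ((S.CU h2).add_mem (hf1 x) (hf1 y)) ?_).symm
    intro v φ h
    rw [map_add, map_add, hf2' x v φ h, hf2' y v φ h]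
  · intro c x
    refine (huniq _ _ ((S.CU h2).smul_mem c (hf1 x)) ?_).symm
    intro v φ h
    rw [map_smul, map_smul, hf2' x v φ h]
  · intro x hx
    exact (huniq x x hx (fun _ _ _ => rfl)).symm
  · intro x hx
    refine (huniq x 0 (S.CU h2).zero_mem ?_).symm
    intro v φ h
    rw [map_zero, hx v φ h]
  · exact hf1
  · intro x v φ h
    change φ (x - f x) = 0
    rw [map_sub, hf2' x v φ h, sub_self]

theorem Kg_inv : ∀ g ∈ Kg D, ∀ x ∈ S.CU h2, g x ∈ S.CU h2 := by
  intro g hg
  have key : (∀ x ∈ S.CU h2, g x ∈ S.CU h2) ∧ (∀ x ∈ S.CU h2, g⁻¹ x ∈ S.CU h2) := by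
    induction hg using Subgroup.closure_induction with
    | mem t ht =>
      obtain ⟨v, φ, hD, hx⟩ := ht
      refine ⟨fun x hxW => ?_, fun x hxW => ?_⟩
      · rw [hx]; exact (S.CU h2).add_mem hxW ((S.CU h2).smul_mem _ (Or.inr ⟨_, hD⟩))
      · rw [tv_inv (show φ v = 0 from S.perp hD) hx]; exact (S.CU h2).sub_mem hxW ((S.CU h2).smul_mem _ (Or.inr ⟨_, hD⟩))
    | one => exact ⟨fun x hx => hx, fun x hx => by rw [inv_one]; exact hx⟩
    | mul a b _ _ ha hb =>
      refine ⟨fun x hx => ha.1 _ (hb.1 _ hx), fun x hx => ?_⟩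
      rw [mul_inv_rev]
      exact hb.2 _ (ha.2 _ hx)
    | inv a _ ha =>
      refine ⟨ha.2, ?_⟩
      rw [inv_inv]; exact ha.1
  exact key.1

/-- elements of `Kg D` act as elements of `P` once the generators do -/
theorem range_le (P : Subgroup ((S.CU h2) ≃ₗ[ZMod p] (S.CU h2)))
    (hP : ∀ x y, D x y → ∀ t : (S.CU h2) ≃ₗ[ZMod p] (S.CU h2), (∀ z : S.CU h2, ((t z : S.CU h2) : V) = z + y z • x) → t ∈ P) :
    (resU (Kg D) (S.CU h2) (Kg_inv S h2)).range ≤ P := by
  rintro _ ⟨⟨g, hg⟩, rfl⟩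
  have key : ∀ (h : g ∈ Kg D), resU (Kg D) (S.CU h2) (Kg_inv S h2) ⟨g, h⟩ ∈ P := by
    have hg' := hg
    unfold Kg at hg'
    induction hg' using Subgroup.closure_induction with
    | mem t ht =>
      intro h
      obtain ⟨v, φ, hD, hx⟩ := ht
      exact hP v φ hD _ (fun z => hx z)
    | one =>
      intro h
      exact P.one_mem
    | mul a b ha hb iha ihb =>
      intro h
      have := P.mul_mem (iha ha ha) (ihb hb hb)
      exact this
    | inv a ha iha =>
      intro h
      exact P.inv_mem (iha ha ha)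
  exact key hg

/-- the structure of a component -/
theorem comp_structure (hne : ∃ x y, D x y)
    (hreal : ∀ x y, D x y → ∃ g ∈ Kg D, ∀ z, g z = z + y z • x) :
    (((resU (Kg D) (S.CU h2) (Kg_inv S h2)).range : Set ((S.CU h2) ≃ₗ[ZMod p] (S.CU h2))) =
      {f : (S.CU h2) ≃ₗ[ZMod p] (S.CU h2) | LinearMap.det (f : (S.CU h2) →ₗ[ZMod p] (S.CU h2)) = 1}) ∨
    ∃ B : LinearMap.BilinForm (ZMod p) (S.CU h2), B.IsAlt ∧ B.Nondegenerate ∧
      (((resU (Kg D) (S.CU h2) (Kg_inv S h2)).range : Set ((S.CU h2) ≃ₗ[ZMod p] (S.CU h2))) =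
        {f : (S.CU h2) ≃ₗ[ZMod p] (S.CU h2) | ∀ x y, B (f x) (f y) = B x y}) := by
  classical
  haveI : FiniteDimensional (ZMod p) V := inferInstance
  obtain ⟨_, hsurj, _⟩ := finrank_CU S h2
  have hmem : ∀ {x}, x ∈ S.CU h2 ↔ x = 0 ∨ ∃ φ, D x φ := Iff.rfl
  rcases S.dich h2 with hfull | ⟨hone, v0, w0, hv0, hw0, hnp0, hli0⟩
  · left
    apply Set.Subset.antisymm
    · -- determinant one
      let P : Subgroup ((S.CU h2) ≃ₗ[ZMod p] (S.CU h2)) := (LinearEquiv.det : ((S.CU h2) ≃ₗ[ZMod p] (S.CU h2)) →* (ZMod p)ˣ).ker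
      have h1 : (resU (Kg D) (S.CU h2) (Kg_inv S h2)).range ≤ P := by
        apply range_le
        intro x y hxy t ht
        have hx : x ∈ S.CU h2 := Or.inr ⟨_, hxy⟩
        rw [MonoidHom.mem_ker]
        apply Units.ext
        rw [LinearEquiv.coe_det]
        have h4 : (t : (S.CU h2) →ₗ[ZMod p] (S.CU h2)) = LinearMap.transvection (y.domRestrict (S.CU h2)) ⟨x, hx⟩ := by
          ext z
          rw [LinearMap.transvection.apply]
          exact ht z
        rw [h4, LinearMap.transvection.det]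
        have h5 : (y.domRestrict (S.CU h2)) ⟨x, hx⟩ = 0 := S.perp hxy
        rw [h5, add_zero]; rfl
      intro f hf
      have h4 := h1 hf
      have h5 := congrArg Units.val (MonoidHom.mem_ker.1 h4)
      rw [LinearEquiv.coe_det] at h5
      exact h5
    · intro f hf
      refine sl_le ?_ _ ?_ f hf
      · -- dimension at least two
        obtain ⟨x, y, hxy⟩ := hne
        obtain ⟨z, ζ, hz, hzy, _⟩ := S.neigh hxy
        have hli : LinearIndependent (ZMod p) ![(⟨x, Or.inr ⟨_, hxy⟩⟩ : S.CU h2), ⟨z, Or.inr ⟨_, hz⟩⟩] := by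
          rw [LinearIndependent.pair_iff]
          intro s t hst
          have h4 := congrArg Subtype.val hst
          have h5 : s • x + t • z = 0 := h4
          have h6 := congrArg y h5
          rw [map_add, map_smul, map_smul, show y x = 0 from S.perp hxy, smul_zero, zero_add, map_zero, smul_eq_mul] at h6
          have ht : t = 0 := (mul_eq_zero.1 h6).resolve_right hzy
          rw [ht, zero_smul, add_zero] at h5
          exact ⟨(smul_eq_zero.1 h5).resolve_right (S.nzx hxy), ht⟩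
        have := hli.fintype_card_le_finrank
        simpa using this
      · intro u f hfu
        by_cases hu : u = 0
        · exact ⟨1, Subgroup.one_mem _, fun x => by rw [hu, smul_zero, add_zero]; rfl⟩
        by_cases hf0 : f = 0
        · exact ⟨1, Subgroup.one_mem _, fun x => by rw [hf0, LinearMap.zero_apply, zero_smul, add_zero]; rfl⟩
        obtain ⟨φ, hφ, hφf⟩ := hsurj f
        have hφ0 : φ ≠ 0 := by
          rintro rfl
          apply hf0
          ext x
          rw [← hφf x]; rfl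
        have hu' : u.1 ≠ 0 := fun h => hu (Subtype.ext h)
        have hD : D u.1 φ := by
          apply hfull
          · exact u.2.resolve_left hu'
          · exact hφ.resolve_left hφ0
          · change φ u.1 = 0
            rw [hφf, hfu]
        obtain ⟨g, hg, hgz⟩ := hreal _ _ hD
        refine ⟨_, ⟨⟨g, hg⟩, rfl⟩, ?_⟩
        intro x
        apply Subtype.ext
        rw [resU_apply]
        change g x.1 = x.1 + f x • u.1
        rw [hgz, hφf]
  · right
    have hCen : ∀ u : S.CU h2, u ≠ 0 → ∃ φ, D u.1 φ := by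
      intro u hu
      exact u.2.resolve_left (fun h => hu (Subtype.ext h))
    let F : (S.CU h2) → Module.Dual (ZMod p) (S.CU h2) := fun u =>
      if h : ∃ φ, D u.1 φ then (Classical.choose h).domRestrict (S.CU h2) else 0
    have hF : ∀ u : S.CU h2, u ≠ 0 → ∃ φ, D u.1 φ ∧ F u = φ.domRestrict (S.CU h2) := by
      intro u hu
      have h := hCen u hu
      refine ⟨Classical.choose h, Classical.choose_spec h, ?_⟩
      change (if h : ∃ φ, D u.1 φ then (Classical.choose h).domRestrict (S.CU h2) else 0) = _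
      rw [dif_pos h]
    have hdim : 3 ≤ Module.finrank (ZMod p) (S.CU h2) := by
      obtain ⟨z, hz, hzv, hzw⟩ := S.common hv0 hw0
      obtain ⟨φ, hφ, hzφ⟩ := S.np_symm hzv hv0
      obtain ⟨ψ, hψ, hzψ⟩ := S.np_symm hzw hw0
      obtain ⟨ζ, hζ, hvζ⟩ := hzv
      have e1 : ev (ZMod p) V w0 φ = 0 := S.not_np hnp0 hφ
      have e2 : ev (ZMod p) V v0 φ = 0 := S.perp hφ
      have hli : LinearIndependent (ZMod p) ![(⟨v0, Or.inr hv0⟩ : S.CU h2), ⟨w0, Or.inr hw0⟩, ⟨z, Or.inr hz⟩] := by
        rw [Fintype.linearIndependent_iff]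
        intro g hg
        rw [Fin.sum_univ_three] at hg
        have h5 : g 0 • v0 + g 1 • w0 + g 2 • z = 0 := congrArg Subtype.val hg
        have h6 := congrArg φ h5
        rw [map_add, map_add, map_smul, map_smul, map_smul, show φ v0 = 0 from e2, show φ w0 = 0 from e1, smul_zero, smul_zero,
          zero_add, zero_add, map_zero, smul_eq_mul] at h6
        have h2' : g 2 = 0 := (mul_eq_zero.1 h6).resolve_right hzφ
        rw [h2', zero_smul, add_zero] at h5
        have h1' : g 1 = 0 := by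
          by_contra h7
          apply hli0 (-(g 1)⁻¹ * g 0)
          have h8 : g 1 • w0 = -(g 0 • v0) := by rw [eq_neg_iff_add_eq_zero, add_comm]; exact h5
          rw [mul_smul, neg_smul, ← smul_neg, ← h8, smul_smul, inv_mul_cancel₀ h7, one_smul]
        rw [h1', zero_smul, add_zero] at h5
        have hv00 : v0 ≠ 0 := S.nzx hφ
        have h0' : g 0 = 0 := (smul_eq_zero.1 h5).resolve_right hv00
        intro i
        fin_cases i
        · exact h0'
        · exact h1'
        · exact h2'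
      have := hli.fintype_card_le_finrank
      simpa using this
    obtain ⟨B, hBalt, hBnd, hB⟩ := exists_form hdim F
      (by
        intro v hv h0
        obtain ⟨φ, hφ, hFv⟩ := hF v hv
        rw [hFv] at h0
        apply S.nzy hφ
        apply pf2 S h2 (Or.inr ⟨_, hφ⟩)
        intro x hx
        exact congrArg (fun f : Module.Dual (ZMod p) (S.CU h2) => f ⟨x, hx⟩) h0)
      (by
        intro v hv
        obtain ⟨φ, hφ, hFv⟩ := hF v hv
        rw [hFv]
        exact S.perp hφ)
      (by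
        intro v w hv hw
        obtain ⟨φ, hφ, hFv⟩ := hF v hv
        obtain ⟨ψ, hψ, hFw⟩ := hF w hw
        rw [hFv, hFw]
        exact S.symm_iff hone hφ hψ)
      (by
        intro f hf
        obtain ⟨φ, hφ, hφf⟩ := hsurj f
        have hφ0 : φ ≠ 0 := by
          rintro rfl
          apply hf
          ext x
          rw [← hφf x]; rfl
        obtain ⟨x, hx⟩ := hφ.resolve_left hφ0
        have hx' : D x φ := hx
        have hxne : (⟨x, Or.inr ⟨_, hx'⟩⟩ : S.CU h2) ≠ 0 := fun h => S.nzx hx' (congrArg Subtype.val h)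
        obtain ⟨ψ, hψ, hFx⟩ := hF _ hxne
        obtain ⟨c, hc⟩ := hone x ψ φ hψ hx'
        refine ⟨_, hxne, c, ?_⟩
        rw [hFx]
        ext z
        rw [← hφf z, hc]; rfl)
    have hanti : ∀ x y, B x y = - B y x := fun x y => (LinearMap.BilinForm.IsAlt.neg_eq hBalt y x).symm
    refine ⟨B, hBalt, hBnd, ?_⟩
    apply Set.Subset.antisymm
    · have h1 : (resU (Kg D) (S.CU h2) (Kg_inv S h2)).range ≤ H95.SpBasic.isom B := by
        apply range_le
        intro x y hxy t ht
        have hx : x ∈ S.CU h2 := Or.inr ⟨_, hxy⟩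
        have hxne : (⟨x, hx⟩ : S.CU h2) ≠ 0 := fun h => S.nzx hxy (congrArg Subtype.val h)
        obtain ⟨ψ, hψ, hFx⟩ := hF _ hxne
        obtain ⟨c, hc, hBx⟩ := hB _ hxne
        obtain ⟨d, hd⟩ := hone x ψ y hψ hxy
        have hy : ∀ z : S.CU h2, y z.1 = (d * c⁻¹) * B ⟨x, hx⟩ z := by
          intro z
          rw [hBx, hFx, hd]
          change d * ψ z.1 = d * c⁻¹ * (c * ψ z.1)
          field_simp
        have ht' : ∀ z : S.CU h2, t z = z + ((d * c⁻¹) * B ⟨x, hx⟩ z) • ⟨x, hx⟩ := by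
          intro z
          apply Subtype.ext
          rw [ht z, hy z]; rfl
        rw [H95.SpBasic.mem_isom]
        intro a b
        rw [ht', ht']
        simp only [map_add, map_smul, LinearMap.add_apply, LinearMap.smul_apply, smul_eq_mul]
        rw [hBalt ⟨x, hx⟩, hanti a ⟨x, hx⟩]
        ring
      intro f hf
      exact h1 hf
    · intro f hf
      refine H95.SpBasic.isom_le_of_tr B hBalt hBnd.1 _ ?_ hf
      intro v c
      by_cases hv : v = 0
      · have : H95.SpBasic.tr B hBalt v c = 1 := by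
          apply LinearEquiv.ext
          intro x
          rw [H95.SpBasic.tr_apply, hv, smul_zero, add_zero]; rfl
        rw [this]; exact Subgroup.one_mem _
      by_cases hc : c = 0
      · have : H95.SpBasic.tr B hBalt v c = 1 := by
          apply LinearEquiv.ext
          intro x
          rw [H95.SpBasic.tr_apply, hc, zero_mul, zero_smul, add_zero]; rfl
        rw [this]; exact Subgroup.one_mem _
      obtain ⟨φ, hφ, hFv⟩ := hF v hv
      obtain ⟨d, hd, hBv⟩ := hB v hv
      have hcd : -(c * d) ≠ 0 := neg_ne_zero.2 (mul_ne_zero hc hd)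
      obtain ⟨g, hg, hgz⟩ := hreal _ _ (S.smuly hφ hcd)
      have : H95.SpBasic.tr B hBalt v c = resU (Kg D) (S.CU h2) (Kg_inv S h2) ⟨g, hg⟩ := by
        apply LinearEquiv.ext
        intro x
        apply Subtype.ext
        rw [resU_apply, H95.SpBasic.tr_apply]
        change x.1 + (c * B x v) • v.1 = g x.1
        rw [hgz, hanti x v, hBv, hFv]
        congr 2
        change c * -(d * φ x.1) = -(c * d) * φ x.1
        ring
      rw [this]
      exact ⟨⟨g, hg⟩, rfl⟩

end comp

end H85.Mc
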