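import Mathlib
import Cfsg.Agent.Lib.H85.McFin
set_option autoImplicit false
set_option maxHeartbeats 400000
set_option linter.unusedSectionVars false

/-! Assembly of McLaughlin's theorem. -/

namespace H85.Mc

section transv
variable {p : ℕ} [hpf : Fact p.Prime] {V : Type*} [AddCommGroup V] [Module (ZMod p) V] [Finite V]

/-- an element of order `p` fixing a hyperplane is a transvection -/
theorem exists_transv (t : V ≃ₗ[ZMod p] V) (ho : orderOf t = p)
    (hr : Module.finrank (ZMod p) ↥(LinearMap.ker ((t : V →ₗ[ZMod p] V) - LinearMap.id)) + 1 =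
        Module.finrank (ZMod p) V) :
    ∃ (v : V) (φ : Module.Dual (ZMod p) V), v ≠ 0 ∧ φ ≠ 0 ∧ φ v = 0 ∧ ∀ x, t x = x + φ x • v := by
  set N : V →ₗ[ZMod p] V := (t : V →ₗ[ZMod p] V) - LinearMap.id with hN
  have h1 := LinearMap.finrank_range_add_finrank_ker N
  have h2 : Module.finrank (ZMod p) (LinearMap.range N) = 1 := by omega
  obtain ⟨⟨v, hvr⟩, hv0, hv⟩ := finrank_eq_one_iff'.1 h2
  have hv0' : v ≠ 0 := fun h => hv0 (Subtype.ext h)
  have hspan : ∀ x, N x ∈ Submodule.span (ZMod p) {v} := by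
    intro x
    obtain ⟨c, hc⟩ := hv ⟨N x, ⟨x, rfl⟩⟩
    rw [Submodule.mem_span_singleton]
    exact ⟨c, congrArg Subtype.val hc⟩
  let e := LinearEquiv.toSpanNonzeroSingleton (ZMod p) V v hv0'
  let φ : Module.Dual (ZMod p) V := (e.symm : _ →ₗ[ZMod p] ZMod p).comp (N.codRestrict _ hspan)
  have hφ : ∀ x, N x = φ x • v := by
    intro x
    have h3 : e (e.symm ⟨N x, hspan x⟩) = ⟨N x, hspan x⟩ := e.apply_symm_apply _
    have h4 := congrArg Subtype.val h3
    exact h4.symm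
  have ht : ∀ x, t x = x + φ x • v := by
    intro x
    rw [← hφ, hN, LinearMap.sub_apply, LinearMap.id_apply]
    change t x = x + (t x - x)
    abel
  have hφ0 : φ ≠ 0 := by
    intro h
    have h3 : t = 1 := by
      apply LinearEquiv.ext
      intro x
      rw [ht, h, LinearMap.zero_apply, zero_smul, add_zero]; rfl
    rw [h3, orderOf_one] at ho
    exact hpf.out.one_lt.ne ho
  refine ⟨v, φ, hv0', hφ0, ?_, ht⟩
  have hpow : ∀ n : ℕ, (t ^ n) v = (1 + φ v) ^ n • v := by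
    intro n
    induction n with
    | zero => rw [pow_zero, pow_zero, one_smul]; rfl
    | succ n ih =>
      rw [pow_succ', LinearEquiv.mul_apply, ih, map_smul, ht, pow_succ, mul_smul, add_smul, one_smul]
  have h3 := hpow p
  have hp1 : t ^ p = 1 := orderOf_dvd_iff_pow_eq_one.1 (dvd_of_eq ho)
  rw [hp1, ZMod.pow_card, show (1 : V ≃ₗ[ZMod p] V) v = v from rfl] at h3
  have h4 : φ v • v = 0 := by
    rw [add_smul, one_smul] at h3
    exact (add_eq_left.1 h3.symm)
  exact (smul_eq_zero.1 h4).resolve_right hv0'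

end transv

section main
variable {p : ℕ} [hpf : Fact p.Prime] {V : Type*} [AddCommGroup V] [Module (ZMod p) V] [Finite V]
variable {H : Subgroup (V ≃ₗ[ZMod p] V)}

theorem exists_reps (H : Subgroup (V ≃ₗ[ZMod p] V)) : ∃ (n : ℕ) (rep : Fin n → V × Module.Dual (ZMod p) V),
    (∀ j, DD H (rep j).1 (rep j).2) ∧ (∀ j j', j ≠ j' → ¬ con (ev (ZMod p) V) (DD H) (rep j) (rep j')) ∧
    (∀ x y, DD H x y → ∃ j, DH H (rep j) x y) := by
  classical
  haveI : Finite (Module.Dual (ZMod p) V) := Finite.of_injective (fun f => (f : V → ZMod p)) DFunLike.coe_injective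
  let A := {a : V × Module.Dual (ZMod p) V // DD H a.1 a.2}
  let s : Setoid A := ⟨fun a b => con (ev (ZMod p) V) (DD H) a.1 b.1, fun a => con_refl _, fun h => con_symm h,
    fun h h' => con_trans h h'⟩
  haveI : Finite (Quotient s) := Quotient.finite s
  let e := Finite.equivFin (Quotient s)
  refine ⟨Nat.card (Quotient s), fun j => (e.symm j).out.1, fun j => (e.symm j).out.2, ?_, ?_⟩
  · intro j j' hjj' hc
    apply hjj'
    apply e.symm.injective
    rw [← Quotient.out_eq (e.symm j), ← Quotient.out_eq (e.symm j')]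
    exact Quotient.sound hc
  · intro x y h
    refine ⟨e (Quotient.mk s ⟨(x, y), h⟩), h, ?_⟩
    change con _ _ (e.symm (e (Quotient.mk s ⟨(x, y), h⟩))).out.1 (x, y)
    rw [Equiv.symm_apply_apply]
    exact Quotient.mk_out (s := s) ⟨(x, y), h⟩

variable (h3 : 3 ≤ p) (hOp : Cfsg.pCore p H = ⊥) {T : Set (V ≃ₗ[ZMod p] V)} (hG : Gen H T) (h2 : (2 : ZMod p) ≠ 0)
include h3 hOp hG h2

theorem CU_eq (a : V × Module.Dual (ZMod p) V) : (sysH h3 hOp hG a).CU h2 = Us H a := by
  apply le_antisymm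
  · rintro x (rfl | hx)
    · exact Submodule.zero_mem _
    · exact Submodule.subset_span hx
  · unfold Us
    rw [Submodule.span_le]
    intro x hx
    exact Or.inr hx

theorem CU_inv (a : V × Module.Dual (ZMod p) V) : ∀ h ∈ H, ∀ x ∈ (sysH h3 hOp hG a).CU h2, h x ∈ (sysH h3 hOp hG a).CU h2 := by
  intro h hh x hx
  rw [CU_eq h3 hOp hG h2] at hx ⊢
  exact Us_inv h3 hOp hG h hh x hx

omit hpf [Finite V] h3 hOp hG h2 in
theorem eq_of_formula {p : ℕ} {V : Type*} [AddCommGroup V] [Module (ZMod p) V]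
    {g g' : V ≃ₗ[ZMod p] V} {x : V} {y : Module.Dual (ZMod p) V} (h : ∀ z, g z = z + y z • x)
    (h' : ∀ z, g' z = z + y z • x) : g = g' := by
  apply LinearEquiv.ext
  intro z
  rw [h, h']

omit h3 hOp hG h2 in
theorem Kg_le (a : V × Module.Dual (ZMod p) V) : Kg (DH H a) ≤ H := by
  unfold Kg
  rw [Subgroup.closure_le]
  rintro g ⟨x, y, hxy, hg⟩
  obtain ⟨g', hg', hgz⟩ := hxy.1.2.2.2
  rw [SetLike.mem_coe, eq_of_formula hg hgz]
  exact hg'

omit h3 hOp hG h2 in
theorem Kg_fix (a : V × Module.Dual (ZMod p) V) : Kg (DH H a) ≤ fixS (Rs H a) := by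
  unfold Kg
  rw [Subgroup.closure_le]
  rintro g ⟨x, y, hxy, hg⟩
  intro z hz
  rw [hg, hz x y hxy, zero_smul, add_zero]

omit h3 hOp hG h2 in
theorem Kg_real (a : V × Module.Dual (ZMod p) V) : ∀ x y, DH H a x y → ∃ g ∈ Kg (DH H a), ∀ z, g z = z + y z • x := by
  intro x y hxy
  obtain ⟨g', hg', hgz⟩ := hxy.1.2.2.2
  exact ⟨g', Kg_mem hxy hgz, hgz⟩

theorem CU_le_Rs {a b : V × Module.Dual (ZMod p) V} (hab : ¬ con (ev (ZMod p) V) (DD H) a b) :
    (sysH h3 hOp hG b).CU h2 ≤ Rs H a := by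
  rintro x (rfl | ⟨φ, hx⟩)
  · exact Submodule.zero_mem _
  · intro v ψ hv
    exact ((pre h3 H hOp).orth hab hv hx).1

theorem Kg_conj (a : V × Module.Dual (ZMod p) V) {g k : V ≃ₗ[ZMod p] V} (hg : g ∈ H) (hk : k ∈ Kg (DH H a)) :
    g * k * g⁻¹ ∈ Kg (DH H a) := by
  unfold Kg at hk
  induction hk using Subgroup.closure_induction with
  | mem t ht =>
    obtain ⟨x, y, hxy, htz⟩ := ht
    have h4 := DD_conj_mem hxy.1 hg
    have h5 : g x ∈ (sysH h3 hOp hG a).CU h2 := CU_inv h3 hOp hG h2 a g hg x (Or.inr ⟨y, hxy⟩)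
    obtain ⟨φ, hφ⟩ := h5.resolve_left h4.1
    have hφ' : DH H a (g x) φ := hφ
    have h6 : DH H a (g x) (y.comp ((g⁻¹ : V ≃ₗ[ZMod p] V) : V →ₗ[ZMod p] V)) :=
      ⟨h4, con_trans hφ'.2 ((pre h3 H hOp).con_same_x hφ'.1 h4)⟩
    apply Kg_mem h6
    intro z
    change g (t (g⁻¹ z)) = z + y (g⁻¹ z) • g x
    rw [htz, map_add, map_smul, show g (g⁻¹ z) = z from g.apply_symm_apply z]
  | one => rw [mul_one, mul_inv_cancel]; exact Subgroup.one_mem _
  | mul a b _ _ ha hb =>
    have := Subgroup.mul_mem _ ha hb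
    have e : g * a * g⁻¹ * (g * b * g⁻¹) = g * (a * b) * g⁻¹ := by group
    rwa [e] at this
  | inv a _ ha =>
    have := Subgroup.inv_mem _ ha
    have e : (g * a * g⁻¹)⁻¹ = g * a⁻¹ * g⁻¹ := by group
    rwa [e] at this

/-- an element trivial on `Rs a` and on the centres of `a` is trivial -/
theorem eq_one_of_fix (a : V × Module.Dual (ZMod p) V) {g : V ≃ₗ[ZMod p] V} (h4 : g ∈ fixS (Rs H a))
    (h5 : g ∈ fixS ((sysH h3 hOp hG a).CU h2)) : g = 1 := by
  obtain ⟨P, _, _, hP3, hP4⟩ := exists_proj (sysH h3 hOp hG a) h2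
  apply LinearEquiv.ext
  intro x
  have e : x = (x - P x) + P x := by abel
  change g x = x
  have h6 : g (x - P x) = x - P x := h4 _ (fun v φ h => hP4 x v φ h)
  have h7 : g (P x) = P x := h5 _ (hP3 x)
  calc g x = g ((x - P x) + P x) := by rw [← e]
    _ = x := by rw [map_add, h6, h7, ← e]

end main

end H85.Mc
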