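import Mathlib
set_option autoImplicit false
set_option maxHeartbeats 400000

/-! Second maximal subgroups. -/

namespace H85.SecMax

theorem not_coatom {G : Type*} [Group G] {H K L : Subgroup G} (hHL : H < L) (hLK : L < K) :
    ¬ IsCoatom (H.subgroupOf K) := by
  intro h
  have h1 : H.subgroupOf K < L.subgroupOf K := by
    refine lt_of_le_of_ne (Subgroup.subgroupOf_mono K hHL.le) ?_
    intro he
    apply hHL.ne
    have h2 := congrArg (fun X => Subgroup.map K.subtype X) he
    simp only [Subgroup.subgroupOf_map_subtype] at h2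
    rwa [inf_eq_left.2 (hHL.le.trans hLK.le), inf_eq_left.2 hLK.le] at h2
  have h2 := h.2 _ h1
  rw [Subgroup.subgroupOf_eq_top] at h2
  exact absurd (lt_of_lt_of_le hLK h2) (lt_irrefl _)

theorem coatom_of {G : Type*} [Group G] {H M : Subgroup G} (hHM : H < M)
    (h : ∀ L : Subgroup G, H < L → L ≤ M → M ≤ L) : IsCoatom (H.subgroupOf M) := by
  constructor
  · intro h1
    rw [Subgroup.subgroupOf_eq_top] at h1
    exact absurd (lt_of_lt_of_le hHM h1) (lt_irrefl _)
  · intro b hb
    have h1 : H < b.map M.subtype := by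
      have e : H = (H.subgroupOf M).map M.subtype := by
        rw [Subgroup.subgroupOf_map_subtype, inf_eq_left.2 hHM.le]
      rw [e]
      exact (Subgroup.map_lt_map_iff_of_injective (Subgroup.subtype_injective M)).2 hb
    have h2 := h _ h1 (Subgroup.map_subtype_le b)
    rw [eq_top_iff]
    intro x _
    obtain ⟨y, hy, hyx⟩ := h2 x.2
    have : y = x := Subtype.ext hyx
    rwa [← this]

section sym
variable {X : Type*} [DecidableEq X] [Finite X]
open MulAction

theorem conj_swap (g : Equiv.Perm X) (a b : X) : g * Equiv.swap a b * g⁻¹ = Equiv.swap (g a) (g b) :=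
  (Equiv.swap_apply_apply g a b).symm

/-- if all transpositions on the complement of `x` lie in `L`, so does the stabiliser of `x` -/
theorem stab_le {L : Subgroup (Equiv.Perm X)} {x : X}
    (h : ∀ a b, a ≠ x → b ≠ x → a ≠ b → Equiv.swap a b ∈ L) : stabilizer (Equiv.Perm X) x ≤ L := by
  intro g hg
  set S : Set (Equiv.Perm X) := {f | ∃ a b, a ≠ x ∧ b ≠ x ∧ a ≠ b ∧ f = Equiv.swap a b} with hS
  have hSw : ∀ f ∈ S, f.IsSwap := by
    rintro f ⟨a, b, _, _, hab, rfl⟩
    exact ⟨a, b, hab, rfl⟩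
  have hcl : Subgroup.closure S ≤ L := by
    rw [Subgroup.closure_le]
    rintro f ⟨a, b, ha, hb, hab, rfl⟩
    exact h a b ha hb hab
  apply hcl
  rw [_root_.mem_closure_isSwap hSw]
  refine ⟨Set.toFinite _, ?_⟩
  intro y
  have hgx : g x = x := hg
  by_cases hy : y = x
  · rw [hy, hgx]; exact mem_orbit_self x
  · have hgy : g y ≠ x := by
      intro h'
      apply hy
      apply g.injective
      rw [h', hgx]
    by_cases hyg : g y = y
    · rw [hyg]; exact mem_orbit_self y
    · refine ⟨⟨Equiv.swap y (g y), Subgroup.subset_closure ⟨y, g y, hy, hgy, fun h => hyg h.symm, rfl⟩⟩, ?_⟩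
      change Equiv.swap y (g y) y = g y
      exact Equiv.swap_apply_left _ _

/-- if all transpositions lie in `L`, then `L = ⊤` -/
theorem eq_top_of_swap {L : Subgroup (Equiv.Perm X)}
    (h : ∀ a b, a ≠ b → Equiv.swap a b ∈ L) : L = ⊤ := by
  rw [eq_top_iff, ← Equiv.Perm.closure_isSwap, Subgroup.closure_le]
  rintro f ⟨a, b, hab, rfl⟩
  exact h a b hab

/-- spreading a crossing transposition -/
theorem spread {L : Subgroup (Equiv.Perm X)} {s t : Set X} (hst : Disjoint s t)
    (hs : ∀ a ∈ s, ∀ b ∈ s, Equiv.swap a b ∈ L) (ht : ∀ a ∈ t, ∀ b ∈ t, Equiv.swap a b ∈ L)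
    {u v : X} (hu : u ∈ s) (hv : v ∈ t) (huv : Equiv.swap u v ∈ L) :
    ∀ a ∈ s ∪ t, ∀ b ∈ s ∪ t, Equiv.swap a b ∈ L := by
  have key : ∀ a ∈ s, ∀ b ∈ t, Equiv.swap a b ∈ L := by
    intro a ha b hb
    have hne : ∀ x ∈ s, ∀ y ∈ t, x ≠ y := fun x hx y hy h => Set.disjoint_left.1 hst hx (h ▸ hy)
    have h1 : Equiv.swap a v ∈ L := by
      have h2 := L.mul_mem (L.mul_mem (hs u hu a ha) huv) (L.inv_mem (hs u hu a ha))
      rw [conj_swap, Equiv.swap_apply_left, Equiv.swap_apply_of_ne_of_ne (hne u hu v hv).symm (hne a ha v hv).symm] at h2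
      exact h2
    have h2 := L.mul_mem (L.mul_mem (ht v hv b hb) h1) (L.inv_mem (ht v hv b hb))
    rw [conj_swap, Equiv.swap_apply_left, Equiv.swap_apply_of_ne_of_ne (hne a ha v hv) (hne a ha b hb)] at h2
    exact h2
  rintro a (ha | ha) b (hb | hb)
  · exact hs a ha b hb
  · exact key a ha b hb
  · rw [Equiv.swap_comm]; exact key b hb a ha
  · exact ht a ha b hb

/-- setwise stabiliser -/
def setStab (s : Set X) : Subgroup (Equiv.Perm X) where
  carrier := {g | ∀ i, g i ∈ s ↔ i ∈ s}
  one_mem' := fun i => Iff.rfl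
  mul_mem' := by
    intro g h hg hh i
    exact (hg (h i)).trans (hh i)
  inv_mem' := by
    intro g hg i
    have := hg (g⁻¹ i)
    rw [show g (g⁻¹ i) = i from g.apply_symm_apply i] at this
    exact this.symm

/-- stabiliser of the partition `{s, sᶜ}` -/
def partStab (s : Set X) : Subgroup (Equiv.Perm X) where
  carrier := {g | (∀ i, g i ∈ s ↔ i ∈ s) ∨ (∀ i, g i ∈ s ↔ i ∉ s)}
  one_mem' := Or.inl fun i => Iff.rfl
  mul_mem' := by
    rintro g h (hg | hg) (hh | hh)
    · left; intro i; exact (hg (h i)).trans (hh i)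
    · right; intro i; exact (hg (h i)).trans (hh i)
    · right; intro i; exact (hg (h i)).trans (not_congr (hh i))
    · left; intro i; exact (hg (h i)).trans ((not_congr (hh i)).trans not_not)
  inv_mem' := by
    rintro g (hg | hg)
    · left; intro i
      have := hg (g⁻¹ i)
      rw [show g (g⁻¹ i) = i from g.apply_symm_apply i] at this
      exact this.symm
    · right; intro i
      have := hg (g⁻¹ i)
      rw [show g (g⁻¹ i) = i from g.apply_symm_apply i] at this
      rw [this, not_not]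

theorem stabA {s : Set X} {g : Equiv.Perm X} (h : ∀ i ∈ s, g i ∈ s) : ∀ i, g i ∈ s ↔ i ∈ s := by
  have h1 : g '' s = s := by
    apply Set.eq_of_subset_of_ncard_le
    · rintro _ ⟨i, hi, rfl⟩; exact h i hi
    · rw [Set.ncard_image_of_injective _ g.injective]
    · exact Set.toFinite _
  intro i
  constructor
  · intro hi
    rw [← h1] at hi
    obtain ⟨j, hj, hji⟩ := hi
    rw [← g.injective hji]; exact hj
  · exact h i

theorem stabB {s : Set X} {g : Equiv.Perm X} (hc : s.ncard = sᶜ.ncard) (h : ∀ i ∈ s, g i ∉ s) :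
    ∀ i, g i ∈ s ↔ i ∉ s := by
  have h1 : g '' s = sᶜ := by
    apply Set.eq_of_subset_of_ncard_le
    · rintro _ ⟨i, hi, rfl⟩; exact h i hi
    · rw [Set.ncard_image_of_injective _ g.injective, hc]
    · exact Set.toFinite _
  intro i
  constructor
  · intro hi hi2
    exact h i hi2 hi
  · intro hi
    by_contra h2
    have h3 : g i ∈ sᶜ := h2
    rw [← h1] at h3
    obtain ⟨j, hj, hji⟩ := h3
    exact hi ((g.injective hji) ▸ hj)

theorem swap_mem_setStab {s : Set X} {a b : X} (h : a ∈ s ↔ b ∈ s) : Equiv.swap a b ∈ setStab s := by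
  intro i
  by_cases h1 : i = a
  · rw [h1, Equiv.swap_apply_left]; exact h.symm
  by_cases h2 : i = b
  · rw [h2, Equiv.swap_apply_right]; exact h
  rw [Equiv.swap_apply_of_ne_of_ne h1 h2]

theorem isCoatom_partStab {s : Set X} (hc : s.ncard = sᶜ.ncard) (h2 : 2 ≤ s.ncard) :
    IsCoatom (partStab s) := by
  constructor
  · intro htop
    obtain ⟨a, ha, b, hb, hab⟩ := (Set.one_lt_ncard (Set.toFinite s)).1 h2
    obtain ⟨u, hu⟩ : sᶜ.Nonempty := by
      rw [← Set.ncard_pos (Set.toFinite _)]; omega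
    have : Equiv.swap a u ∈ partStab s := by rw [htop]; trivial
    rcases this with h | h
    · have := h a
      rw [Equiv.swap_apply_left] at this
      exact hu (this.2 ha)
    · have := h b
      have hbu : b ≠ u := by rintro rfl; exact hu hb
      rw [Equiv.swap_apply_of_ne_of_ne hab.symm hbu] at this
      exact (this.1 hb) hb
  · intro L hL
    obtain ⟨g, hgL, hgK⟩ := SetLike.exists_of_lt hL
    have hsL : ∀ a ∈ s, ∀ b ∈ s, Equiv.swap a b ∈ L := fun a ha b hb =>
      hL.le (Or.inl (swap_mem_setStab (s := s) ⟨fun _ => hb, fun _ => ha⟩))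
    have htL : ∀ a ∈ sᶜ, ∀ b ∈ sᶜ, Equiv.swap a b ∈ L := fun a ha b hb =>
      hL.le (Or.inl (swap_mem_setStab (s := s) ⟨fun h => absurd h ha, fun h => absurd h hb⟩))
    obtain ⟨a, ha, hga⟩ : ∃ a ∈ s, g a ∉ s := by
      by_contra hcon
      push Not at hcon
      exact hgK (Or.inl (stabA hcon))
    obtain ⟨b, hb, hgb⟩ : ∃ b ∈ s, g b ∈ s := by
      by_contra hcon
      push Not at hcon
      exact hgK (Or.inr (stabB hc hcon))
    have h3 : Equiv.swap (g b) (g a) ∈ L := by
      rw [← conj_swap]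
      exact L.mul_mem (L.mul_mem hgL (hsL b hb a ha)) (L.inv_mem hgL)
    have h4 := spread (L := L) (s := s) (t := sᶜ) disjoint_compl_right hsL htL hgb hga h3
    apply eq_top_of_swap
    intro a b _
    apply h4 a (by rw [Set.union_compl_self]; trivial) b (by rw [Set.union_compl_self]; trivial)

theorem isCoatom_two {s : Set X} {x : X} (hx : x ∉ s) (hc : s.ncard = sᶜ.ncard) (h2 : 2 ≤ s.ncard) :
    IsCoatom ((setStab s ⊓ stabilizer (Equiv.Perm X) x).subgroupOf (stabilizer (Equiv.Perm X) x)) := by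
  have hts : (sᶜ \ {x}).ncard = s.ncard - 1 := by
    rw [Set.ncard_sdiff_singleton_of_mem hx, hc]
  obtain ⟨v, hv⟩ : (sᶜ \ {x}).Nonempty := by
    rw [← Set.ncard_pos (Set.toFinite _)]; omega
  obtain ⟨a, ha⟩ : s.Nonempty := by
    rw [← Set.ncard_pos (Set.toFinite _)]; omega
  apply coatom_of
  · refine lt_of_le_of_ne inf_le_right ?_
    intro he
    have h1 : Equiv.swap a v ∈ stabilizer (Equiv.Perm X) x := by
      rw [mem_stabilizer_iff, Equiv.Perm.smul_def]
      exact Equiv.swap_apply_of_ne_of_ne (fun h => hx (h ▸ ha)) (fun h => hv.2 h.symm)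
    rw [← he] at h1
    have h2 := h1.1 a
    rw [Equiv.swap_apply_left] at h2
    exact hv.1 (h2.2 ha)
  · intro L hL hLM
    obtain ⟨g, hgL, hgH⟩ := SetLike.exists_of_lt hL
    have hgM := hLM hgL
    have hgx : g x = x := hgM
    have hsL : ∀ a ∈ s, ∀ b ∈ s, Equiv.swap a b ∈ L := fun a ha b hb =>
      hL.le ⟨swap_mem_setStab (s := s) ⟨fun _ => hb, fun _ => ha⟩, by
        change Equiv.swap a b x = x
        exact Equiv.swap_apply_of_ne_of_ne (fun h => hx (h ▸ ha)) (fun h => hx (h ▸ hb))⟩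
    have htL : ∀ a ∈ sᶜ \ {x}, ∀ b ∈ sᶜ \ {x}, Equiv.swap a b ∈ L := fun a ha b hb =>
      hL.le ⟨swap_mem_setStab (s := s) ⟨fun h => absurd h ha.1, fun h => absurd h hb.1⟩, by
        change Equiv.swap a b x = x
        exact Equiv.swap_apply_of_ne_of_ne (fun h => ha.2 h.symm) (fun h => hb.2 h.symm)⟩
    obtain ⟨a, ha, hga⟩ : ∃ a ∈ s, g a ∉ s := by
      by_contra hcon
      push Not at hcon
      exact hgH ⟨stabA hcon, hgM⟩
    have hnx : ∀ b ∈ s, g b ≠ x := by
      intro b hb h
      apply hx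
      have : b = x := g.injective (h.trans hgx.symm)
      exact this ▸ hb
    obtain ⟨b, hb, hgb⟩ : ∃ b ∈ s, g b ∈ s := by
      by_contra hcon
      push Not at hcon
      have h1 : g '' s ⊆ sᶜ \ {x} := by
        rintro _ ⟨i, hi, rfl⟩
        exact ⟨hcon i hi, hnx i hi⟩
      have h2 := Set.ncard_le_ncard h1 (Set.toFinite _)
      rw [Set.ncard_image_of_injective _ g.injective] at h2
      omega
    have h3 : Equiv.swap (g b) (g a) ∈ L := by
      rw [← conj_swap]
      exact L.mul_mem (L.mul_mem hgL (hsL b hb a ha)) (L.inv_mem hgL)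
    have h4 := spread (L := L) (s := s) (t := sᶜ \ {x})
      (Set.disjoint_left.2 fun y hy hy2 => hy2.1 hy) hsL htL hgb ⟨hga, hnx a ha⟩ h3
    apply stab_le
    intro c d hcx hdx _
    have : ∀ y, y ≠ x → y ∈ s ∪ sᶜ \ {x} := by
      intro y hy
      by_cases hys : y ∈ s
      · exact Or.inl hys
      · exact Or.inr ⟨hys, hy⟩
    exact h4 c (this c hcx) d (this d hdx)

end sym

end H85.SecMax
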