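import Mathlib
import Cfsg.Agent.Lib.H85.SecMax
set_option autoImplicit false
set_option maxHeartbeats 400000

/-! Second maximal subgroups: the affine group. -/

namespace H85.SecMaxAff
open MulAction

variable (K V : Type*) [Field K] [AddCommGroup V] [Module K V]

/-- linear action -/
def phi : (V ≃ₗ[K] V) →* MulAut (Multiplicative V) where
  toFun g := AddEquiv.toMultiplicative g.toAddEquiv
  map_one' := rfl
  map_mul' _ _ := rfl

variable {K V}

theorem phi_apply (g : V ≃ₗ[K] V) (v : Multiplicative V) :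
    (phi K V g v) = Multiplicative.ofAdd (g (Multiplicative.toAdd v)) := rfl

theorem trans {v w : V} (hv : v ≠ 0) (hw : w ≠ 0) : ∃ g : V ≃ₗ[K] V, g v = w := by
  have h2 : IsMultiplyPretransitive (V ≃ₗ[K] V) (Projectivization K V) 2 := inferInstance
  have h1 : IsPretransitive (V ≃ₗ[K] V) (Projectivization K V) := isPretransitive_of_is_two_pretransitive
  obtain ⟨g, hg⟩ := h1.exists_smul_eq (Projectivization.mk K v hv) (Projectivization.mk K w hw)
  rw [Projectivization.smul_mk, Projectivization.mk_eq_mk_iff] at hg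
  obtain ⟨a, ha⟩ := hg
  refine ⟨(LinearEquiv.smulOfUnit a⁻¹).trans g, ?_⟩
  have h3 : g v = (a : K) • w := by rw [← Units.smul_def, ha]; rfl
  change g ((a⁻¹ : Kˣ) • v) = w
  rw [Units.smul_def, map_smul, h3, smul_smul, Units.inv_mul, one_smul]

/-- affine group -/
abbrev Aff (K V : Type*) [Field K] [AddCommGroup V] [Module K V] := Multiplicative V ⋊[phi K V] (V ≃ₗ[K] V)

theorem mem_range_inr (x : Aff K V) :
    x ∈ (SemidirectProduct.inr : (V ≃ₗ[K] V) →* Aff K V).range ↔ x.left = 1 := by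
  constructor
  · rintro ⟨g, rfl⟩
    rfl
  · intro h
    exact ⟨x.right, SemidirectProduct.ext h.symm rfl⟩

theorem isCoatom_M [Nontrivial V] : IsCoatom ((SemidirectProduct.inr : (V ≃ₗ[K] V) →* Aff K V).range) := by
  constructor
  · intro h
    obtain ⟨v, hv⟩ := exists_ne (0 : V)
    have h1 : (SemidirectProduct.inl (Multiplicative.ofAdd v) : Aff K V) ∈
        (SemidirectProduct.inr : (V ≃ₗ[K] V) →* Aff K V).range := by rw [h]; trivial
    rw [mem_range_inr] at h1
    exact hv h1
  · intro L hL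
    obtain ⟨x, hxL, hxM⟩ := SetLike.exists_of_lt hL
    rw [mem_range_inr] at hxM
    have hinr : ∀ g : V ≃ₗ[K] V, (SemidirectProduct.inr g : Aff K V) ∈ L := fun g => hL.le ⟨g, rfl⟩
    have h1 : (SemidirectProduct.inl x.left : Aff K V) ∈ L := by
      have h2 := L.mul_mem hxL (L.inv_mem (hinr x.right))
      have h3 : x * (SemidirectProduct.inr x.right)⁻¹ = SemidirectProduct.inl x.left := by
        rw [mul_inv_eq_iff_eq_mul]
        exact (SemidirectProduct.inl_left_mul_inr_right x).symm
      rwa [h3] at h2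
    have hv : Multiplicative.toAdd x.left ≠ 0 := fun h => hxM h
    have hinl : ∀ w : V, (SemidirectProduct.inl (Multiplicative.ofAdd w) : Aff K V) ∈ L := by
      intro w
      by_cases hw : w = 0
      · subst hw
        have : (SemidirectProduct.inl (Multiplicative.ofAdd (0:V)) : Aff K V) = 1 := map_one _
        rw [this]; exact L.one_mem
      · obtain ⟨g, hg⟩ := trans (K := K) hv hw
        have h2 : (SemidirectProduct.inl (phi K V g x.left) : Aff K V) ∈ L := by
          rw [SemidirectProduct.inl_aut]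
          exact L.mul_mem (L.mul_mem (hinr g) h1) (hinr g⁻¹)
        rw [phi_apply, hg] at h2
        exact h2
    rw [eq_top_iff]
    intro y _
    rw [← SemidirectProduct.inl_left_mul_inr_right y]
    exact L.mul_mem (hinl _) (hinr _)

theorem index_M [Finite V] [Finite (V ≃ₗ[K] V)] :
    ((SemidirectProduct.inr : (V ≃ₗ[K] V) →* Aff K V).range).index = Nat.card V := by
  have h1 := Subgroup.card_mul_index (SemidirectProduct.inr : (V ≃ₗ[K] V) →* Aff K V).range
  have h2 : Nat.card (SemidirectProduct.inr : (V ≃ₗ[K] V) →* Aff K V).range = Nat.card (V ≃ₗ[K] V) :=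
    Nat.card_congr (MonoidHom.ofInjective (SemidirectProduct.inr_injective)).toEquiv.symm
  have h3 : Nat.card (Aff K V) = Nat.card V * Nat.card (V ≃ₗ[K] V) := by
    rw [SemidirectProduct.card]; rfl
  rw [h2, h3, mul_comm (Nat.card V)] at h1
  exact Nat.eq_of_mul_eq_mul_left Nat.card_pos h1

variable (v : V) (hv : v ≠ 0)

theorem mem_P (hv : v ≠ 0) (g : V ≃ₗ[K] V) : g ∈ stabilizer (V ≃ₗ[K] V) (Projectivization.mk K v hv) ↔
    ∃ a : K, g v = a • v := by
  rw [mem_stabilizer_iff, Projectivization.smul_mk, Projectivization.mk_eq_mk_iff]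
  constructor
  · rintro ⟨a, ha⟩
    exact ⟨a, ha.symm⟩
  · rintro ⟨a, ha⟩
    have ha0 : a ≠ 0 := by
      rintro rfl
      rw [zero_smul] at ha
      exact hv ((LinearEquiv.map_eq_zero_iff g).1 ha)
    exact ⟨Units.mk0 a ha0, ha.symm⟩

theorem isCoatom_P (hv : v ≠ 0) {w : V} (hw : ∀ c : K, w ≠ c • v) :
    IsCoatom (stabilizer (V ≃ₗ[K] V) (Projectivization.mk K v hv)) := by
  have h2 : IsMultiplyPretransitive (V ≃ₗ[K] V) (Projectivization K V) 2 := inferInstance
  haveI : IsPreprimitive (V ≃ₗ[K] V) (Projectivization K V) := isPreprimitive_of_is_two_pretransitive h2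
  have hw0 : w ≠ 0 := by
    intro h; apply hw 0; rw [h, zero_smul]
  haveI : Nontrivial (Projectivization K V) := by
    refine ⟨Projectivization.mk K w hw0, Projectivization.mk K v hv, ?_⟩
    rw [Ne, Projectivization.mk_eq_mk_iff]
    rintro ⟨a, ha⟩
    exact hw a ha.symm
  exact MulAction.IsPreprimitive.isCoatom_stabilizer_of_isPreprimitive (V ≃ₗ[K] V) _

theorem isCoatom_comap {A B : Type*} [Group A] [Group B] (f : A →* B) (hf : Function.Surjective f)
    {P : Subgroup B} (hP : IsCoatom P) : IsCoatom (P.comap f) := by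
  constructor
  · intro h
    apply hP.1
    rw [eq_top_iff]
    intro x _
    obtain ⟨y, rfl⟩ := hf x
    have : y ∈ P.comap f := by rw [h]; trivial
    exact this
  · intro b hb
    obtain ⟨x, hxb, hxK⟩ := SetLike.exists_of_lt hb
    have h1 : P < b.map f := by
      refine lt_of_le_of_ne ?_ ?_
      · intro y hy
        obtain ⟨z, rfl⟩ := hf y
        exact ⟨z, hb.le hy, rfl⟩
      · intro he
        apply hxK
        change f x ∈ P
        rw [he]
        exact ⟨x, hxb, rfl⟩
    have h2 := hP.2 _ h1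
    rw [eq_top_iff]
    intro y _
    have h3 : f y ∈ b.map f := by rw [h2]; trivial
    obtain ⟨z, hz, hzy⟩ := h3
    have h4 : y * z⁻¹ ∈ P.comap f := by
      change f (y * z⁻¹) ∈ P
      rw [map_mul, map_inv, hzy, mul_inv_cancel]
      exact P.one_mem
    have h5 := b.mul_mem (hb.le h4) hz
    rwa [inv_mul_cancel_right] at h5

theorem isCoatom_H {A B : Type*} [Group A] [Group B] (f : A →* B) (hf : Function.Injective f)
    {P : Subgroup A} (hP : IsCoatom P) : IsCoatom ((P.map f).subgroupOf f.range) := by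
  apply H85.SecMax.coatom_of
  · refine lt_of_le_of_ne (Subgroup.map_le_range f P) ?_
    intro he
    apply hP.1
    rw [eq_top_iff]
    intro x _
    have : f x ∈ P.map f := by rw [he]; exact ⟨x, rfl⟩
    obtain ⟨y, hy, hyx⟩ := this
    rwa [← hf hyx]
  · intro L hL hLM
    obtain ⟨x, hxL, hxH⟩ := SetLike.exists_of_lt hL
    obtain ⟨y, rfl⟩ := hLM hxL
    have h1 : P < L.comap f := by
      refine lt_of_le_of_ne ?_ ?_
      · intro z hz
        exact hL.le ⟨z, hz, rfl⟩
      · intro he
        apply hxH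
        refine ⟨y, ?_, rfl⟩
        rw [he]
        exact hxL
    have h2 := hP.2 _ h1
    rintro _ ⟨z, rfl⟩
    have h3 : z ∈ L.comap f := by rw [h2]; trivial
    exact h3

/-- intermediate subgroup -/
def mid (hv : v ≠ 0) : Subgroup (Aff K V) where
  carrier := {x | (∃ c : K, Multiplicative.toAdd x.left = c • v) ∧
    x.right ∈ stabilizer (V ≃ₗ[K] V) (Projectivization.mk K v hv)}
  one_mem' := ⟨⟨0, by rw [zero_smul]; rfl⟩, Subgroup.one_mem _⟩
  mul_mem' := by
    rintro x y ⟨⟨c, hc⟩, hx⟩ ⟨⟨d, hd⟩, hy⟩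
    refine ⟨?_, Subgroup.mul_mem _ hx hy⟩
    obtain ⟨a, ha⟩ := (mem_P v hv _).1 hx
    refine ⟨c + d * a, ?_⟩
    rw [SemidirectProduct.mul_left, toAdd_mul, hc, phi_apply, toAdd_ofAdd, hd, map_smul, ha, smul_smul, add_smul]
  inv_mem' := by
    rintro x ⟨⟨c, hc⟩, hx⟩
    refine ⟨?_, Subgroup.inv_mem _ hx⟩
    obtain ⟨a, ha⟩ := (mem_P v hv _).1 (Subgroup.inv_mem _ hx)
    refine ⟨-c * a, ?_⟩
    rw [SemidirectProduct.inv_left, phi_apply, toAdd_ofAdd, toAdd_inv, hc, map_neg, map_smul, ha, smul_smul,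
      neg_mul, neg_smul]

theorem not_coatom_H (hv : v ≠ 0) {w : V} (hw : ∀ c : K, w ≠ c • v) :
    ¬ IsCoatom (((stabilizer (V ≃ₗ[K] V) (Projectivization.mk K v hv)).map
      (SemidirectProduct.inr : (V ≃ₗ[K] V) →* Aff K V)).subgroupOf
      ((stabilizer (V ≃ₗ[K] V) (Projectivization.mk K v hv)).comap
        (SemidirectProduct.rightHom : Aff K V →* (V ≃ₗ[K] V)))) := by
  apply H85.SecMax.not_coatom (L := mid v hv)
  · refine lt_of_le_of_ne ?_ ?_
    · rintro _ ⟨g, hg, rfl⟩
      exact ⟨⟨0, by rw [zero_smul]; rfl⟩, hg⟩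
    · intro he
      have h1 : (SemidirectProduct.inl (Multiplicative.ofAdd v) : Aff K V) ∈ mid v hv :=
        ⟨⟨1, by rw [one_smul]; rfl⟩, Subgroup.one_mem _⟩
      rw [← he] at h1
      obtain ⟨g, _, hg⟩ := h1
      have h2 := congrArg (fun x : Aff K V => Multiplicative.toAdd x.left) hg
      exact hv h2.symm
  · refine lt_of_le_of_ne (fun x hx => hx.2) ?_
    intro he
    have h1 : (SemidirectProduct.inl (Multiplicative.ofAdd w) : Aff K V) ∈
      ((stabilizer (V ≃ₗ[K] V) (Projectivization.mk K v hv)).comap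
        (SemidirectProduct.rightHom : Aff K V →* (V ≃ₗ[K] V))) := by
      rw [Subgroup.mem_comap, SemidirectProduct.rightHom_inl]
      exact Subgroup.one_mem _
    rw [← he] at h1
    obtain ⟨⟨c, hc⟩, _⟩ := h1
    exact hw c hc

end H85.SecMaxAff
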