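import Cfsg.Agent.Lib.H85.PalinOrd5

set_option autoImplicit false
set_option maxHeartbeats 400000

/-! The affine group `V : (2 × L₂(q))`, `V = N ⊗ N^(3)`, `q = 3^α`. -/

namespace H85.TwistMod
open Polynomial Matrix H85.PalinOrd

variable {F : Type*} [Field F]

theorem ch {g : Matrix (Fin 2) (Fin 2) F} (hg : g.det = 1) : g * g = g.trace • g - 1 := by
  rw [det_fin_two] at hg
  ext i j
  fin_cases i <;> fin_cases j
  · simp [Matrix.mul_apply, Fin.sum_univ_two, Matrix.trace]
    linear_combination -hg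
  · simp [Matrix.mul_apply, Fin.sum_univ_two, Matrix.trace]
    ring
  · simp [Matrix.mul_apply, Fin.sum_univ_two, Matrix.trace]
    ring
  · simp [Matrix.mul_apply, Fin.sum_univ_two, Matrix.trace]
    linear_combination -hg

theorem pres {g : Matrix (Fin 2) (Fin 2) F} (hg : g.det = 1) :
    gᵀ * !![0, 1; -1, 0] * g = !![0, 1; -1, 0] := by
  rw [det_fin_two] at hg
  ext i j
  fin_cases i <;> fin_cases j
  · simp [Matrix.mul_apply, Fin.sum_univ_two]; ring
  · simp [Matrix.mul_apply, Fin.sum_univ_two]; linear_combination hg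
  · simp [Matrix.mul_apply, Fin.sum_univ_two]; linear_combination -hg
  · simp [Matrix.mul_apply, Fin.sum_univ_two]; ring

theorem sq_eq_one {g : Matrix (Fin 2) (Fin 2) F} (hg : g.det = 1) (h2 : (2 : F) ≠ 0) (h : g * g = 1) :
    g = 1 ∨ g = -1 := by
  have h1 := ch hg
  rw [h] at h1
  have h3 : g.trace • g = (2 : F) • (1 : Matrix (Fin 2) (Fin 2) F) := by
    have : g.trace • g = 1 + 1 := by rw [eq_sub_iff_add_eq] at h1; exact h1.symm
    rw [this, two_smul]
  have ht : g.trace ≠ 0 := by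
    intro h0
    rw [h0, zero_smul] at h3
    have h4 := congrArg (fun M : Matrix (Fin 2) (Fin 2) F => M 0 0) h3
    simp at h4
    exact h2 h4.symm
  have h4 : g = (g.trace⁻¹ * 2) • (1 : Matrix (Fin 2) (Fin 2) F) := by
    rw [mul_smul, ← h3, smul_smul, inv_mul_cancel₀ ht, one_smul]
  set c := g.trace⁻¹ * 2 with hc
  have h5 : c * c = 1 := by
    rw [h4, det_smul, det_one, Fintype.card_fin, mul_one, sq] at hg
    exact hg
  rcases mul_self_eq_one_iff.1 h5 with h6 | h6
  · left; rw [h4, h6, one_smul]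
  · right; rw [h4, h6, neg_smul, one_smul]

variable [Fintype F]

theorem dich {g : Matrix (Fin 2) (Fin 2) F} (hg : g.det = 1) (h4 : g.trace ^ 2 ≠ 4) :
    g ^ (Fintype.card F - 1) = 1 ∨ g ^ (Fintype.card F + 1) = 1 := by
  have hgu : IsUnit g := by rw [Matrix.isUnit_iff_isUnit_det, hg]; exact isUnit_one
  have hJ : IsUnit (!![0, 1; -1, 0] : Matrix (Fin 2) (Fin 2) F) := by
    rw [Matrix.isUnit_iff_isUnit_det, det_fin_two_of]; simp
  have hsd := sd_charpoly hgu hJ (pres hg)
  have hform : g.charpoly = X ^ 2 - C g.trace * X + C 1 := by rw [Matrix.charpoly_fin_two, hg]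
  have hdeg : g.charpoly.natDegree = 2 := by rw [Matrix.charpoly_natDegree_eq_dim, Fintype.card_fin]
  by_cases hirr : Irreducible g.charpoly
  · right
    have e1 : g.charpoly.eval 1 ≠ 0 := by
      intro h
      rw [hform] at h
      simp at h
      apply h4
      have : g.trace = 2 := by linear_combination -h
      rw [this]; norm_num
    have e2 : g.charpoly.eval (-1) ≠ 0 := by
      intro h
      rw [hform] at h
      simp at h
      apply h4
      have : g.trace = -2 := by linear_combination h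
      rw [this]; norm_num
    obtain ⟨h0, c, hc, hm⟩ := hsd
    obtain ⟨d, _, hd, hdv⟩ := sd_irr hirr h0 e1 e2 hc hm
    have hd1 : d = 1 := by omega
    rw [hd1, pow_one] at hdv
    exact pow_eq_of_dvd hdv
  · left
    have hmon := Matrix.charpoly_monic g
    have hroots := mt (Polynomial.irreducible_iff_roots_eq_zero_of_degree_le_three (by omega) (by omega)).2 hirr
    obtain ⟨a, ha⟩ := Multiset.exists_mem_of_ne_zero hroots
    have ha' : a ^ 2 - g.trace * a + 1 = 0 := by
      have := (mem_roots'.1 ha).2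
      rw [IsRoot, hform] at this
      simpa using this
    have ha0 : a ≠ 0 := by
      rintro rfl; simp at ha'
    set b := g.trace - a with hb
    have hab : a * b = 1 := by rw [hb]; linear_combination -ha'
    have hb0 : b ≠ 0 := right_ne_zero_of_mul (hab ▸ one_ne_zero)
    have hne : a ≠ b := by
      intro h
      apply h4
      have h5 : g.trace = 2 * a := by rw [hb] at h; linear_combination -h
      have h6 : a * a = 1 := by rw [← h] at hab; exact hab
      rw [h5]; linear_combination 4 * h6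
    have hfac : g.charpoly = (X - C a) * (X - C b) := by
      rw [hform]
      have h5 : g.trace = a + b := by rw [hb]; ring
      rw [h5, ← hab, C_add, C_mul]; ring
    apply pow_eq_of_dvd
    rw [hfac]
    have hdv : ∀ r : F, r ≠ 0 → (X - C r) ∣ (X ^ (Fintype.card F - 1) - 1 : F[X]) := by
      intro r hr
      rw [dvd_iff_isRoot, IsRoot]
      simp [FiniteField.pow_card_sub_one_eq_one r hr]
    exact (pairwise_coprime_X_sub_C (fun x y h => h) hne).mul_dvd (hdv a ha0) (hdv b hb0)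

variable [CharP F 3]

omit [Fintype F] in
theorem three : (3 : F) = 0 := by exact_mod_cast CharP.cast_eq_zero F 3

omit [Fintype F] in
theorem three_smul' (X : Matrix (Fin 2) (Fin 2) F) : (3 : ℕ) • X = 0 := by
  rw [← Nat.cast_smul_eq_nsmul F]
  rw [CharP.cast_eq_zero, zero_smul]

/-- Frobenius on matrices -/
noncomputable def φ : Matrix (Fin 2) (Fin 2) F →+* Matrix (Fin 2) (Fin 2) F := (frobenius F 3).mapMatrix

omit [Fintype F] in
theorem φ_det (g : Matrix (Fin 2) (Fin 2) F) : (φ g).det = g.det ^ 3 := by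
  rw [φ, ← RingHom.map_det, frobenius_def]

omit [Fintype F] in
theorem φ_trace (g : Matrix (Fin 2) (Fin 2) F) : (φ g).trace = g.trace ^ 3 := by
  rw [φ, RingHom.mapMatrix_apply, Matrix.trace_fin_two, Matrix.trace_fin_two, Matrix.map_apply, Matrix.map_apply,
    frobenius_def, frobenius_def, add_pow_char]

/-- affine maps -/
def Aff (σ : Equiv.Perm (Matrix (Fin 2) (Fin 2) F)) (c : F) (g v : Matrix (Fin 2) (Fin 2) F) : Prop :=
  c * c = 1 ∧ g.det = 1 ∧ ∀ X, σ X = c • (g * X * (φ g)ᵀ) + v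

omit [Fintype F] in
theorem Aff.mul {σ τ : Equiv.Perm (Matrix (Fin 2) (Fin 2) F)} {c d : F} {g h v w : Matrix (Fin 2) (Fin 2) F}
    (H : Aff σ c g v) (K : Aff τ d h w) : Aff (σ * τ) (c * d) (g * h) (c • (g * w * (φ g)ᵀ) + v) := by
  refine ⟨by rw [mul_mul_mul_comm, H.1, K.1, one_mul], by rw [det_mul, H.2.1, K.2.1, one_mul], fun X => ?_⟩
  rw [Equiv.Perm.mul_apply, K.2.2, H.2.2, map_mul, transpose_mul, mul_add, add_mul, smul_add, mul_smul_comm,
    smul_mul_assoc, smul_smul, add_assoc]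
  simp only [mul_assoc]

omit [Fintype F] in
theorem Aff.one : Aff (1 : Equiv.Perm (Matrix (Fin 2) (Fin 2) F)) 1 1 0 := by
  refine ⟨one_mul _, det_one, fun X => ?_⟩
  simp

omit [Fintype F] in
theorem Aff.pow {σ : Equiv.Perm (Matrix (Fin 2) (Fin 2) F)} {c : F} {g v : Matrix (Fin 2) (Fin 2) F}
    (H : Aff σ c g v) (n : ℕ) : ∃ w, Aff (σ ^ n) (c ^ n) (g ^ n) w := by
  induction n with
  | zero => exact ⟨0, by simpa using Aff.one⟩
  | succ n ih =>
    obtain ⟨w, hw⟩ := ih
    rw [pow_succ, pow_succ, pow_succ]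
    exact ⟨_, hw.mul H⟩

omit [Fintype F] in
theorem trans_pow {τ : Equiv.Perm (Matrix (Fin 2) (Fin 2) F)} {w : Matrix (Fin 2) (Fin 2) F}
    (h : ∀ X, τ X = X + w) (n : ℕ) : ∀ X, (τ ^ n) X = X + n • w := by
  induction n with
  | zero => intro X; simp
  | succ n ih => intro X; rw [pow_succ, Equiv.Perm.mul_apply, h, ih, succ_nsmul]; abel

omit [Fintype F] in
theorem trans_three {τ : Equiv.Perm (Matrix (Fin 2) (Fin 2) F)} {w : Matrix (Fin 2) (Fin 2) F}
    (h : ∀ X, τ X = X + w) : τ ^ 3 = 1 := by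
  ext1 X
  rw [trans_pow h 3 X, three_smul', add_zero]; rfl

variable (F) in
/-- the group -/
def grp : Subgroup (Equiv.Perm (Matrix (Fin 2) (Fin 2) F)) where
  carrier := {σ | ∃ c g v, Aff σ c g v}
  mul_mem' := by
    rintro σ τ ⟨c, g, v, h⟩ ⟨d, k, w, h'⟩
    exact ⟨_, _, _, h.mul h'⟩
  one_mem' := ⟨1, 1, 0, Aff.one⟩
  inv_mem' := by
    rintro σ ⟨c, g, v, h⟩
    obtain ⟨w, hw⟩ := h.pow (orderOf σ - 1)
    have : σ⁻¹ = σ ^ (orderOf σ - 1) := by
      rw [inv_eq_iff_mul_eq_one, ← pow_succ', Nat.sub_add_cancel (orderOf_pos σ), pow_orderOf_eq_one]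
    rw [← this] at hw
    exact ⟨_, _, _, hw⟩

omit [Fintype F] [CharP F 3] in
theorem pm_of_sq {c : F} (h : c * c = 1) : c = 1 ∨ c = -1 := mul_self_eq_one_iff.1 h

/-- `ℓ - 1` is injective -/
theorem inj_key {c : F} {g : Matrix (Fin 2) (Fin 2) F} (hc : c * c = 1) (hg : g.det = 1) (ht0 : g.trace ≠ 0)
    (ht1 : g.trace ^ 2 ≠ 1) (hns : ∀ x : F, x ^ 2 ≠ -1) {X : Matrix (Fin 2) (Fin 2) F}
    (hX : c • (g * X * (φ g)ᵀ) = X) : X = 0 := by
  set t := g.trace with ht
  set k := (φ g)ᵀ with hk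
  have hkdet : k.det = 1 := by rw [hk, det_transpose, φ_det, hg, one_pow]
  have hktr : k.trace = t ^ 3 := by rw [hk, trace_transpose, φ_trace]
  -- adjugate of k
  have h1 := ch hg
  have h2 := ch hkdet
  rw [hktr] at h2
  -- X k' = c g X with k' = k⁻¹ = t^3 - k
  have hkinv : k * (t ^ 3 • (1 : Matrix (Fin 2) (Fin 2) F) - k) = 1 := by
    rw [mul_sub, h2, mul_smul_comm, mul_one]; abel
  have h3 : c • (g * X) = X * (t ^ 3 • (1 : Matrix (Fin 2) (Fin 2) F) - k) := by
    calc c • (g * X) = (c • (g * X)) * (k * (t ^ 3 • (1 : Matrix (Fin 2) (Fin 2) F) - k)) := by rw [hkinv, mul_one]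
      _ = (c • (g * X * k)) * (t ^ 3 • (1 : Matrix (Fin 2) (Fin 2) F) - k) := by
          rw [smul_mul_assoc, smul_mul_assoc]
          simp only [mul_assoc]
      _ = _ := by rw [hX]
  set m := t ^ 3 • (1 : Matrix (Fin 2) (Fin 2) F) - k with hm
  have hmm : m * m = t ^ 3 • m - 1 := by
    rw [hm]
    have : (t ^ 3 • (1 : Matrix (Fin 2) (Fin 2) F) - k) * (t ^ 3 • (1 : Matrix (Fin 2) (Fin 2) F) - k) =
        (t ^ 3) • (t ^ 3 • (1 : Matrix (Fin 2) (Fin 2) F) - k) - k * (t ^ 3 • (1 : Matrix (Fin 2) (Fin 2) F) - k) := by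
      rw [sub_mul, smul_mul_assoc, one_mul]
    rw [this, hkinv]
  -- g g X two ways
  have h4 : (c * c) • (g * g * X) = X * (m * m) := by
    calc (c * c) • (g * g * X) = c • (g * (c • (g * X))) := by
          rw [mul_smul_comm, smul_smul, mul_assoc]
      _ = c • (g * (X * m)) := by rw [h3]
      _ = (c • (g * X)) * m := by rw [smul_mul_assoc, mul_assoc]
      _ = X * m * m := by rw [h3]
      _ = _ := by rw [mul_assoc]
  rw [hc, one_smul, h1, hmm, sub_mul, one_mul, mul_sub, mul_one, sub_left_inj, smul_mul_assoc, mul_smul_comm,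
    ← h3, smul_smul] at h4
  -- t • (g X) = t^3 c • (g X)
  have h5 : (t - t ^ 3 * c) • (g * X) = 0 := by rw [sub_smul, h4, sub_self]
  have h6 : t - t ^ 3 * c ≠ 0 := by
    intro h
    have h7 : t * (1 - t ^ 2 * c) = 0 := by linear_combination h
    rcases mul_eq_zero.1 h7 with h8 | h8
    · exact ht0 h8
    · rcases pm_of_sq hc with h9 | h9
      · apply ht1; rw [h9] at h8; linear_combination -h8
      · apply hns t; rw [h9] at h8; linear_combination h8
  have h7 : g * X = 0 := (smul_eq_zero.1 h5).resolve_left h6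
  have hgu : IsUnit g := by rw [Matrix.isUnit_iff_isUnit_det, hg]; exact isUnit_one
  obtain ⟨u, hu⟩ := hgu
  calc X = (↑(u⁻¹) : Matrix (Fin 2) (Fin 2) F) * (u * X) := by rw [← mul_assoc, Units.inv_mul, one_mul]
    _ = 0 := by rw [hu, h7, mul_zero]

/-- fixed points -/
theorem exists_fixed {c : F} {g v : Matrix (Fin 2) (Fin 2) F} (hc : c * c = 1) (hg : g.det = 1)
    (ht0 : g.trace ≠ 0) (ht1 : g.trace ^ 2 ≠ 1) (hns : ∀ x : F, x ^ 2 ≠ -1) :
    ∃ X, c • (g * X * (φ g)ᵀ) + v = X := by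
  let L : Matrix (Fin 2) (Fin 2) F →+ Matrix (Fin 2) (Fin 2) F :=
    { toFun := fun X => c • (g * X * (φ g)ᵀ) - X
      map_zero' := by simp
      map_add' := fun X Y => by rw [mul_add, add_mul, smul_add]; abel }
  have hinj : Function.Injective L := by
    rw [injective_iff_map_eq_zero]
    intro X hX
    exact inj_key hc hg ht0 ht1 hns (sub_eq_zero.1 hX)
  obtain ⟨X, hX⟩ := (Finite.injective_iff_surjective.1 hinj) (-v)
  refine ⟨X, ?_⟩
  have h1 : c • (g * X * (φ g)ᵀ) - X = -v := hX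
  rw [sub_eq_iff_eq_add] at h1
  rw [h1]; abel

omit [Fintype F] in
theorem pm_act {s : Matrix (Fin 2) (Fin 2) F} (hs : s = 1 ∨ s = -1) (X : Matrix (Fin 2) (Fin 2) F) :
    s * X * (φ s)ᵀ = X := by
  rcases hs with h | h
  · rw [h, map_one, transpose_one, one_mul, mul_one]
  · rw [h, map_neg, map_one, transpose_neg, transpose_one]; simp

theorem main_order (hq : Fintype.card F % 4 = 3) {σ : Equiv.Perm (Matrix (Fin 2) (Fin 2) F)} (hσ : σ ∈ grp F) :
    σ ^ 6 = 1 ∨ σ ^ 9 = 1 ∨ σ ^ (Fintype.card F - 1) = 1 ∨ σ ^ ((Fintype.card F + 1) / 2) = 1 := by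
  obtain ⟨c, g, v, h⟩ := hσ
  have hns : ∀ x : F, x ^ 2 ≠ -1 := by
    intro x hx
    have : IsSquare (-1 : F) := ⟨x, by rw [← hx, sq]⟩
    rw [FiniteField.isSquare_neg_one_iff] at this
    exact this hq
  have h2 : (2 : F) ≠ 0 := by
    intro h0
    have : (1 : F) = 0 := by
      calc (1 : F) = 3 - 2 := by norm_num
        _ = 0 := by rw [three, h0, sub_zero]
    exact one_ne_zero this
  obtain ⟨hc, hg, hX⟩ := h
  have hAff : Aff σ c g v := ⟨hc, hg, hX⟩
  have hch := ch hg
  set t := g.trace with ht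
  by_cases ht0 : t = 0
  · left
    obtain ⟨w, hw⟩ := hAff.pow 2
    have h3 : g ^ 2 = -1 := by rw [sq, hch, ht0, zero_smul, zero_sub]
    have h4 : ∀ X, (σ ^ 2) X = X + w := by
      intro X
      rw [hw.2.2, h3, sq, hc, one_smul, pm_act (Or.inr rfl)]
    have h5 := trans_three h4
    rw [← pow_mul] at h5
    exact h5
  by_cases ht1 : t ^ 2 = 1
  · -- unipotent case: g^3 = ± 1
    have hg3 : g ^ 3 = 1 ∨ g ^ 3 = -1 := by
      rcases mul_self_eq_one_iff.1 ((sq t).symm.trans ht1) with h6 | h6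
      · right
        rw [pow_succ, sq, hch, h6, one_smul, sub_mul, one_mul, hch, h6, one_smul]; abel
      · left
        rw [pow_succ, sq, hch, h6, neg_smul, one_smul, sub_mul, neg_mul, one_mul, hch, h6, neg_smul, one_smul]
        abel
    obtain ⟨w, hw⟩ := hAff.pow 3
    have h4 : ∀ X, (σ ^ 3) X = c • X + w := by
      intro X
      rw [hw.2.2, pm_act hg3, pow_succ, sq, hc, one_mul]
    rcases pm_of_sq hc with h9 | h9
    · right; left
      have h5 : ∀ X, (σ ^ 3) X = X + w := by intro X; rw [h4, h9, one_smul]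
      have h6 := trans_three h5
      rw [← pow_mul] at h6
      exact h6
    · left
      have : σ ^ 6 = σ ^ 3 * σ ^ 3 := by rw [← pow_add]
      rw [this]
      ext1 X
      rw [Equiv.Perm.mul_apply, h4, h4, h9]
      simp
  · right; right
    obtain ⟨X0, hX0⟩ := exists_fixed (v := v) hc hg ht0 ht1 hns
    have hfix : σ X0 = X0 := by rw [hX, hX0]
    have hfixn : ∀ n : ℕ, (σ ^ n) X0 = X0 := by
      intro n
      induction n with
      | zero => rfl
      | succ n ih => rw [pow_succ, Equiv.Perm.mul_apply, hfix, ih]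
    have hkey : ∀ n : ℕ, Even n → (g ^ n = 1 ∨ g ^ n = -1) → σ ^ n = 1 := by
      intro n hn hgn
      obtain ⟨w, hw⟩ := hAff.pow n
      have hcn : c ^ n = 1 := by
        obtain ⟨r, hr⟩ := hn
        rw [hr, ← two_mul, pow_mul, sq, hc, one_pow]
      have h5 : ∀ X, (σ ^ n) X = X + w := by
        intro X; rw [hw.2.2, hcn, one_smul, pm_act hgn]
      have h6 : w = 0 := by
        have := h5 X0
        rw [hfixn] at this
        exact (add_eq_left.1 this.symm)
      ext1 X
      rw [h5, h6, add_zero]; rfl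
    have h4 : g.trace ^ 2 ≠ 4 := by
      rw [← ht]
      intro h5
      apply ht1
      rw [h5]
      calc (4 : F) = 3 + 1 := by norm_num
        _ = 1 := by rw [three, zero_add]
    rcases dich hg h4 with h5 | h5
    · left
      exact hkey _ ⟨(Fintype.card F - 1) / 2, by omega⟩ (Or.inl h5)
    · right
      apply hkey _ ⟨(Fintype.card F + 1) / 4, by omega⟩
      apply sq_eq_one _ h2
      · rw [← pow_add]
        have : (Fintype.card F + 1) / 2 + (Fintype.card F + 1) / 2 = Fintype.card F + 1 := by omega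
        rw [this, h5]
      · rw [det_pow, hg, one_pow]

end H85.TwistMod
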