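import Cfsg.Agent.Lib.H85.TwistMod

set_option autoImplicit false
set_option maxHeartbeats 400000

/-! The affine group `V : (2 × L₂(q))`, `V = N ⊗ N^(3)`, `q = 3^α`: elements of order `6, 9, q - 1, (q+1)/2`. -/

namespace H85.TwistMod
open Polynomial Matrix H85.PalinOrd

variable {F : Type*} [Field F] [Fintype F] [CharP F 3]

/-- the affine permutation `X ↦ c g X φ(g)ᵀ + v` -/
noncomputable def mkAff (c : F) (g v : Matrix (Fin 2) (Fin 2) F) (hc : c * c = 1) (hg : g.det = 1) :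
    Equiv.Perm (Matrix (Fin 2) (Fin 2) F) :=
  Equiv.ofBijective (fun X => c • (g * X * (φ g)ᵀ) + v) (by
    apply (Finite.injective_iff_bijective).1
    intro X Y hXY
    have h1 : c • (g * X * (φ g)ᵀ) = c • (g * Y * (φ g)ᵀ) := add_right_cancel hXY
    have hc0 : c ≠ 0 := by rintro rfl; simp at hc
    have h2 : g * X * (φ g)ᵀ = g * Y * (φ g)ᵀ := smul_right_injective _ hc0 h1
    have hgu : IsUnit g := by rw [Matrix.isUnit_iff_isUnit_det, hg]; exact isUnit_one
    have hku : IsUnit (φ g)ᵀ := by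
      rw [Matrix.isUnit_iff_isUnit_det, det_transpose, φ_det, hg, one_pow]; exact isUnit_one
    exact hgu.mul_left_cancel (hku.mul_right_cancel h2))

theorem mkAff_aff (c : F) (g v : Matrix (Fin 2) (Fin 2) F) (hc : c * c = 1) (hg : g.det = 1) :
    Aff (mkAff c g v hc hg) c g v := ⟨hc, hg, fun _ => rfl⟩

theorem mkAff_mem (c : F) (g v : Matrix (Fin 2) (Fin 2) F) (hc : c * c = 1) (hg : g.det = 1) :
    mkAff c g v hc hg ∈ grp F := ⟨c, g, v, mkAff_aff c g v hc hg⟩

omit [Fintype F] in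
theorem two_ne : (2 : F) ≠ 0 := by
  intro h0
  have : (1 : F) = 0 := by
    calc (1 : F) = 3 - 2 := by norm_num
      _ = 0 := by rw [three, h0, sub_zero]
  exact one_ne_zero this

omit [Fintype F] in
theorem φ_apply (g : Matrix (Fin 2) (Fin 2) F) (i j : Fin 2) : φ g i j = g i j ^ 3 := rfl

omit [Fintype F] in
theorem det_u : (!![1, 1; 0, 1] : Matrix (Fin 2) (Fin 2) F).det = 1 := by rw [det_fin_two_of]; ring

omit [Fintype F] in
theorem uact (a b c d : F) : (!![1, 1; 0, 1] * !![a, b; c, d] * !![1, 0; 1, 1] : Matrix (Fin 2) (Fin 2) F) =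
    !![a + b + c + d, b + d; c + d, d] := by
  rw [Matrix.mul_fin_two, Matrix.mul_fin_two]
  congr 1
  ext i j
  fin_cases i <;> fin_cases j <;> simp <;> ring

omit [Fintype F] in
theorem φ_u : (φ (!![1, 1; 0, 1] : Matrix (Fin 2) (Fin 2) F))ᵀ = !![1, 0; 1, 1] := by
  ext i j; fin_cases i <;> fin_cases j <;> simp [φ_apply]

omit [Fintype F] in
theorem ext_two {a b c d a' b' c' d' : F} (h1 : a = a') (h2 : b = b') (h3 : c = c') (h4 : d = d') :
    (!![a, b; c, d] : Matrix (Fin 2) (Fin 2) F) = !![a', b'; c', d'] := by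
  rw [h1, h2, h3, h4]

/-- element of order 9 -/
theorem ex_nine : ∃ σ ∈ grp F, orderOf σ = 9 := by
  refine ⟨mkAff 1 !![1, 1; 0, 1] !![0, 0; 0, 1] (by ring) det_u, mkAff_mem _ _ _ _ _, ?_⟩
  set σ := mkAff (1 : F) !![1, 1; 0, 1] !![0, 0; 0, 1] (by ring) det_u with hσ
  have hap : ∀ a b c d : F, σ !![a, b; c, d] = !![a + b + c + d, b + d; c + d, d + 1] := by
    intro a b c d
    rw [hσ, (mkAff_aff _ _ _ _ _).2.2, one_smul, φ_u, uact]
    ext i j; fin_cases i <;> fin_cases j <;> simp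
  have h3 : ∀ X, (σ ^ 3) X = X + !![2, 0; 0, 0] := by
    intro X
    have h4 := three (F := F)
    have : (σ ^ 3) X = σ (σ (σ X)) := rfl
    rw [this, Matrix.eta_fin_two X, hap, hap, hap]
    have h5 : (!![X 0 0, X 0 1; X 1 0, X 1 1] + !![2, 0; 0, 0] : Matrix (Fin 2) (Fin 2) F) =
        !![X 0 0 + 2, X 0 1; X 1 0, X 1 1] := by
      ext i j; fin_cases i <;> fin_cases j <;> simp
    rw [h5]
    apply ext_two
    · linear_combination (X 0 1 + X 1 0 + 3 * X 1 1 + 1) * h4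
    · linear_combination (X 1 1 + 1) * h4
    · linear_combination (X 1 1 + 1) * h4
    · linear_combination h4
  have h9 : σ ^ (3 ^ 2) = 1 := by
    have := trans_three h3
    rw [← pow_mul] at this
    exact this
  have h3' : ¬ σ ^ (3 ^ 1) = 1 := by
    intro h
    have h5 := h3 0
    rw [pow_one] at h
    rw [h] at h5
    have h6 := congrArg (fun M : Matrix (Fin 2) (Fin 2) F => M 0 0) h5
    simp at h6
    exact two_ne h6.symm
  exact orderOf_eq_prime_pow h3' h9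

/-- element of order 6 -/
theorem ex_six : ∃ σ ∈ grp F, orderOf σ = 6 := by
  refine ⟨mkAff (-1) !![1, 1; 0, 1] 0 (by ring) det_u, mkAff_mem _ _ _ _ _, ?_⟩
  set σ := mkAff (-1 : F) !![1, 1; 0, 1] 0 (by ring) det_u with hσ
  have h4 := three (F := F)
  have hap : ∀ a b c d : F, σ !![a, b; c, d] = !![-(a + b + c + d), -(b + d); -(c + d), -d] := by
    intro a b c d
    rw [hσ, (mkAff_aff _ _ _ _ _).2.2, neg_smul, one_smul, φ_u, uact]
    ext i j; fin_cases i <;> fin_cases j <;> simp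
  have h3 : ∀ X, (σ ^ 3) X = -X := by
    intro X
    have : (σ ^ 3) X = σ (σ (σ X)) := rfl
    rw [this, Matrix.eta_fin_two X, hap, hap, hap]
    have h5 : (-!![X 0 0, X 0 1; X 1 0, X 1 1] : Matrix (Fin 2) (Fin 2) F) =
        !![-X 0 0, -X 0 1; -X 1 0, -X 1 1] := by
      ext i j; fin_cases i <;> fin_cases j <;> simp
    rw [h5]
    apply ext_two
    · linear_combination -(X 0 1 + X 1 0 + 3 * X 1 1) * h4
    · linear_combination -(X 1 1) * h4
    · linear_combination -(X 1 1) * h4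
    · ring
  have h6 : σ ^ 6 = 1 := by
    have : σ ^ 6 = σ ^ 3 * σ ^ 3 := by rw [← pow_add]
    rw [this]
    ext1 X
    rw [Equiv.Perm.mul_apply, h3, h3, neg_neg]; rfl
  have hd : orderOf σ ∣ 6 := orderOf_dvd_of_pow_eq_one h6
  have hn3 : ¬ orderOf σ ∣ 3 := by
    intro h
    have h5 := orderOf_dvd_iff_pow_eq_one.1 h
    have h7 := h3 1
    rw [h5] at h7
    have h8 := congrArg (fun M : Matrix (Fin 2) (Fin 2) F => M 0 0) h7
    simp at h8
    apply two_ne (F := F)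
    linear_combination h8
  have hn2 : ¬ orderOf σ ∣ 2 := by
    intro h
    have h5 := orderOf_dvd_iff_pow_eq_one.1 h
    have h7 : (σ ^ 2) !![0, 0; 0, 1] = σ (σ !![0, 0; 0, 1]) := rfl
    rw [h5, hap, hap] at h7
    have h8 := congrArg (fun M : Matrix (Fin 2) (Fin 2) F => M 0 1) h7
    simp at h8
    apply two_ne (F := F)
    linear_combination -h8
  have hmem : orderOf σ ∈ Nat.divisors 6 := Nat.mem_divisors.2 ⟨hd, by norm_num⟩
  have : Nat.divisors 6 = {1, 2, 3, 6} := by decide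
  rw [this] at hmem
  simp only [Finset.mem_insert, Finset.mem_singleton] at hmem
  rcases hmem with h | h | h | h
  · exact absurd (by rw [h]; exact one_dvd 3) hn3
  · exact absurd (by rw [h]) hn2
  · exact absurd (by rw [h]) hn3
  · exact h

theorem main_order' (hq : Fintype.card F % 4 = 3) {σ : Equiv.Perm (Matrix (Fin 2) (Fin 2) F)} (hσ : σ ∈ grp F) :
    orderOf σ ∣ 6 ∨ orderOf σ ∣ 9 ∨ orderOf σ ∣ (Fintype.card F - 1) ∨ orderOf σ ∣ ((Fintype.card F + 1) / 2) := by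
  rcases main_order hq hσ with h | h | h | h
  · exact Or.inl (orderOf_dvd_of_pow_eq_one h)
  · exact Or.inr (Or.inl (orderOf_dvd_of_pow_eq_one h))
  · exact Or.inr (Or.inr (Or.inl (orderOf_dvd_of_pow_eq_one h)))
  · exact Or.inr (Or.inr (Or.inr (orderOf_dvd_of_pow_eq_one h)))

/-- element of order q - 1 -/
theorem ex_qm (hq : Fintype.card F % 4 = 3) (hq3 : 3 < Fintype.card F) :
    ∃ σ ∈ grp F, orderOf σ = Fintype.card F - 1 := by
  classical
  obtain ⟨ζ, hζ⟩ := IsCyclic.exists_generator (α := Fˣ)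
  have hord : orderOf ζ = Fintype.card F - 1 := by
    rw [orderOf_eq_card_of_forall_mem_zpowers hζ, Nat.card_units, Nat.card_eq_fintype_card]
  have hdet : (!![(ζ : F), 0; 0, ((ζ⁻¹ : Fˣ) : F)] : Matrix (Fin 2) (Fin 2) F).det = 1 := by
    rw [det_fin_two_of, ← Units.val_mul, mul_inv_cancel]; simp
  refine ⟨mkAff (-1) !![(ζ : F), 0; 0, ((ζ⁻¹ : Fˣ) : F)] 0 (by ring) hdet, mkAff_mem _ _ _ _ _, ?_⟩
  set σ := mkAff (-1 : F) !![(ζ : F), 0; 0, ((ζ⁻¹ : Fˣ) : F)] 0 (by ring) hdet with hσ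
  have hap : ∀ X : Matrix (Fin 2) (Fin 2) F, σ X = -(!![(ζ : F), 0; 0, ((ζ⁻¹ : Fˣ) : F)] * X *
      !![(ζ : F) ^ 3, 0; 0, ((ζ⁻¹ : Fˣ) : F) ^ 3]) := by
    intro X
    have h1 : (φ (!![(ζ : F), 0; 0, ((ζ⁻¹ : Fˣ) : F)] : Matrix (Fin 2) (Fin 2) F))ᵀ =
        !![(ζ : F) ^ 3, 0; 0, ((ζ⁻¹ : Fˣ) : F) ^ 3] := by
      ext i j; fin_cases i <;> fin_cases j <;> simp [φ_apply]
    rw [hσ, (mkAff_aff _ _ _ _ _).2.2, neg_smul, one_smul, h1, add_zero]
  have hpow : ∀ n : ℕ, ∀ a b : F, (σ ^ n) !![a, b; 0, 0] =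
      !![(-1) ^ n * ((ζ : F) ^ 4) ^ n * a, (-1) ^ n * (((ζ⁻¹ : Fˣ) : F) ^ 2) ^ n * b; 0, 0] := by
    intro n
    induction n with
    | zero => intro a b; simp
    | succ n ih =>
      intro a b
      have e1 : σ !![a, b; 0, 0] = !![-((ζ : F) ^ 4 * a), -(((ζ⁻¹ : Fˣ) : F) ^ 2 * b); 0, 0] := by
        rw [hap]
        have hz : (ζ : F) * ((ζ⁻¹ : Fˣ) : F) = 1 := by rw [← Units.val_mul, mul_inv_cancel]; rfl
        ext i j
        fin_cases i <;> fin_cases j
        · simp [Matrix.mul_apply, Fin.sum_univ_two]; ring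
        · simp [Matrix.mul_apply, Fin.sum_univ_two]
          have h0 : (ζ : F) ≠ 0 := ζ.ne_zero
          field_simp
        · simp [Matrix.mul_apply, Fin.sum_univ_two]
        · simp [Matrix.mul_apply, Fin.sum_univ_two]
      rw [pow_succ, Equiv.Perm.mul_apply, e1, ih]
      congr 1
      rw [pow_succ, pow_succ, pow_succ]
      ext i j
      fin_cases i <;> fin_cases j <;> simp <;> ring
  have hdvd : Fintype.card F - 1 ∣ orderOf σ := by
    set n := orderOf σ with hn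
    have h1 : σ ^ n = 1 := pow_orderOf_eq_one σ
    have h2 := hpow n 1 1
    rw [h1] at h2
    have h3 := congrArg (fun M : Matrix (Fin 2) (Fin 2) F => M 0 0) h2
    have h4 := congrArg (fun M : Matrix (Fin 2) (Fin 2) F => M 0 1) h2
    simp only [Equiv.Perm.coe_one, id_eq, of_apply, cons_val', cons_val_zero, cons_val_one, mul_one] at h3 h4
    have hz : ((ζ⁻¹ : Fˣ) : F) ^ 2 * (ζ : F) ^ 2 = 1 := by
      rw [← mul_pow, ← Units.val_mul, inv_mul_cancel]; simp
    -- (-1)^n = ζ^(2n)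
    have h5 : (-1 : F) ^ n = ((ζ : F) ^ 2) ^ n := by
      calc (-1 : F) ^ n = (-1) ^ n * (((ζ⁻¹ : Fˣ) : F) ^ 2 * (ζ : F) ^ 2) ^ n := by rw [hz, one_pow, mul_one]
        _ = ((-1) ^ n * (((ζ⁻¹ : Fˣ) : F) ^ 2) ^ n) * ((ζ : F) ^ 2) ^ n := by rw [mul_pow]; ring
        _ = _ := by rw [← h4, one_mul]
    have h6 : ((ζ : F) ^ 4) ^ n = 1 := by
      have : ((ζ : F) ^ 4) ^ n = (((ζ : F) ^ 2) ^ n) * (((ζ : F) ^ 2) ^ n) := by
        rw [← mul_pow]; congr 1; ring
      rw [this, ← h5, ← mul_pow]; simp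
    have h7 : (-1 : F) ^ n = 1 := by
      rw [h6, mul_one] at h3; exact h3.symm
    have heven : Even n := by
      by_contra hodd
      rw [Nat.not_even_iff_odd] at hodd
      rw [hodd.neg_one_pow] at h7
      apply two_ne (F := F)
      linear_combination -h7
    have h8 : ζ ^ (2 * n) = 1 := by
      apply Units.ext
      rw [Units.val_pow_eq_pow_val, pow_mul, ← h5, h7]; rfl
    have h9 := orderOf_dvd_of_pow_eq_one h8
    rw [hord] at h9
    obtain ⟨r, hr⟩ := h9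
    obtain ⟨s, hs⟩ := heven
    -- 4 s = (q - 1) r, q - 1 = 2 (odd)
    have hr2 : Even r := by
      by_contra hro
      rw [Nat.not_even_iff_odd] at hro
      obtain ⟨k, hk⟩ := hro
      obtain ⟨j, hj⟩ : ∃ j, Fintype.card F - 1 = 4 * j + 2 := ⟨(Fintype.card F - 3) / 4, by omega⟩
      rw [hj, hk, hs] at hr
      have : (4 * j + 2) * (2 * k + 1) = 4 * (2 * j * k + j + k) + 2 := by ring
      omega
    obtain ⟨k, hk⟩ := hr2
    exact ⟨k, by
      have : 2 * n = 2 * ((Fintype.card F - 1) * k) := by rw [hr, hk]; ring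
      omega⟩
  rcases main_order' hq (mkAff_mem (-1 : F) !![(ζ : F), 0; 0, ((ζ⁻¹ : Fˣ) : F)] 0 (by ring) hdet) with h | h | h | h
  · have h1 := hdvd.trans h
    have h2 := Nat.le_of_dvd (by norm_num) h1
    have h3 : Fintype.card F = 7 := by omega
    exfalso
    obtain ⟨n, _, h4⟩ := FiniteField.card F 3
    rw [h3] at h4
    have : 3 ∣ 7 := h4 ▸ dvd_pow_self 3 n.pos.ne'
    omega
  · have h1 := hdvd.trans h
    have h2 := Nat.le_of_dvd (by norm_num) h1
    have h3 : Fintype.card F = 7 := by omega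
    exfalso
    obtain ⟨n, _, h4⟩ := FiniteField.card F 3
    rw [h3] at h4
    have : 3 ∣ 7 := h4 ▸ dvd_pow_self 3 n.pos.ne'
    omega
  · exact Nat.dvd_antisymm h hdvd
  · have h1 := Nat.le_of_dvd (by omega) (hdvd.trans h)
    omega

end H85.TwistMod
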