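import Cfsg.Agent.Lib.H85.TwistMod2
import Cfsg.Agent.Lib.H40.SL2Tori

set_option autoImplicit false
set_option maxHeartbeats 400000

/-! The affine group `V : (2 × L₂(q))`: element of order `(q+1)/2`, the normal 3-subgroup, and the maximal orders. -/

namespace H85.TwistMod
open Polynomial Matrix H85.PalinOrd

variable {F : Type*} [Field F]

theorem central_sq {G K : Matrix (Fin 2) (Fin 2) F} (hG : G.det = 1) (h : ∀ X, G * X * K = X) : G * G = 1 := by
  have h1 : G * K = 1 := by have := h 1; rwa [mul_one] at this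
  have h2 : K * G = 1 := mul_eq_one_comm.1 h1
  have h3 : ∀ X, G * X = X * G := by
    intro X
    calc G * X = G * X * (K * G) := by rw [h2, mul_one]
      _ = (G * X * K) * G := by simp only [mul_assoc]
      _ = X * G := by rw [h]
  have h4 := h3 !![0, 1; 0, 0]
  have h5 := h3 !![0, 0; 1, 0]
  have e1 := congrArg (fun M : Matrix (Fin 2) (Fin 2) F => M 0 0) h4
  have e2 := congrArg (fun M : Matrix (Fin 2) (Fin 2) F => M 0 1) h4
  have e3 := congrArg (fun M : Matrix (Fin 2) (Fin 2) F => M 0 0) h5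
  rw [Matrix.eta_fin_two G] at e1 e2 e3
  rw [Matrix.mul_fin_two, Matrix.mul_fin_two] at e1 e2 e3
  simp at e1 e2 e3
  rw [det_fin_two, e3, zero_mul, sub_zero, ← e2] at hG
  rw [Matrix.eta_fin_two G, Matrix.mul_fin_two, ← e1, e3, ← e2, Matrix.one_fin_two]
  simp [hG]

variable [Fintype F] [CharP F 3]

/-- element of order (q+1)/2 -/
theorem ex_qp (hq : Fintype.card F % 4 = 3) (hq3 : 27 ≤ Fintype.card F) :
    ∃ σ ∈ grp F, orderOf σ = (Fintype.card F + 1) / 2 := by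
  obtain ⟨a, _, ha, _, _⟩ := H40.SL2Tori.exists_nonsplit (F := F)
  set g : Matrix (Fin 2) (Fin 2) F := (a : Matrix (Fin 2) (Fin 2) F) with hg
  have hdet : g.det = 1 := a.2
  refine ⟨mkAff 1 g 0 (by ring) hdet, mkAff_mem _ _ _ _ _, ?_⟩
  set σ := mkAff 1 g 0 (by ring) hdet with hσ
  have hpow : ∀ n : ℕ, ∀ X, (σ ^ n) X = g ^ n * X * (φ (g ^ n))ᵀ := by
    intro n
    induction n with
    | zero => intro X; simp
    | succ n ih =>
      intro X
      have : σ X = g * X * (φ g)ᵀ := by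
        rw [hσ, (mkAff_aff _ _ _ _ _).2.2, one_smul, add_zero]
      rw [pow_succ, Equiv.Perm.mul_apply, ih, this, pow_succ, map_mul, transpose_mul]
      simp only [mul_assoc]
  have hdvd : (Fintype.card F + 1) / 2 ∣ orderOf σ := by
    set n := orderOf σ with hn
    have h1 : σ ^ n = 1 := pow_orderOf_eq_one σ
    have h2 : g ^ n * g ^ n = 1 := by
      apply central_sq (K := (φ (g ^ n))ᵀ) (by rw [det_pow, hdet, one_pow])
      intro X
      rw [← hpow, h1]; rfl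
    have h3 : a ^ (2 * n) = 1 := by
      apply Subtype.ext
      rw [Matrix.SpecialLinearGroup.coe_pow, two_mul, pow_add]
      exact h2
    have h4 := orderOf_dvd_of_pow_eq_one h3
    rw [ha] at h4
    have h5 : Fintype.card F + 1 = 2 * ((Fintype.card F + 1) / 2) := by omega
    rw [h5] at h4
    exact Nat.dvd_of_mul_dvd_mul_left (by norm_num) h4
  rcases main_order' hq (mkAff_mem (1 : F) g 0 (by ring) hdet) with h | h | h | h
  · have h1 := Nat.le_of_dvd (by norm_num) (hdvd.trans h)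
    omega
  · have h1 := Nat.le_of_dvd (by norm_num) (hdvd.trans h)
    omega
  · have h1 := hdvd.trans h
    have h2 : (Fintype.card F + 1) / 2 ∣ Fintype.card F + 1 := ⟨2, by omega⟩
    have h3 : (Fintype.card F + 1) / 2 ∣ (Fintype.card F + 1) - (Fintype.card F - 1) := Nat.dvd_sub h2 h1
    have h4 := Nat.le_of_dvd (by omega) h3
    omega
  · exact Nat.dvd_antisymm h hdvd

/-- the translations -/
def trans (F : Type*) [Field F] [CharP F 3] : Subgroup (Equiv.Perm (Matrix (Fin 2) (Fin 2) F)) where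
  carrier := {σ | ∃ w, ∀ X, σ X = X + w}
  mul_mem' := by
    rintro σ τ ⟨w, hw⟩ ⟨v, hv⟩
    exact ⟨v + w, fun X => by rw [Equiv.Perm.mul_apply, hv, hw, add_assoc]⟩
  one_mem' := ⟨0, fun X => by simp⟩
  inv_mem' := by
    rintro σ ⟨w, hw⟩
    refine ⟨-w, fun X => ?_⟩
    rw [Equiv.Perm.inv_eq_iff_eq, hw]; abel

theorem trans_normal_aux {σ τ : Equiv.Perm (Matrix (Fin 2) (Fin 2) F)} (hσ : σ ∈ grp F) (hτ : τ ∈ trans F) :
    σ * τ * σ⁻¹ ∈ trans F := by
  obtain ⟨c, g, v, hc, hg, hX⟩ := hσ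
  obtain ⟨w, hw⟩ := hτ
  refine ⟨c • (g * w * (φ g)ᵀ), fun X => ?_⟩
  rw [Equiv.Perm.mul_apply, Equiv.Perm.mul_apply, hw]
  have h1 : ∀ Y, σ (Y + w) = σ Y + c • (g * w * (φ g)ᵀ) := by
    intro Y
    rw [hX, hX, mul_add, add_mul, smul_add]; abel
  rw [h1, show σ (σ⁻¹ X) = X from σ.apply_symm_apply X]

theorem max_set {R : Set ℕ} {a b c d : ℕ} (ha : a ∈ R) (hb : b ∈ R) (hc : c ∈ R) (hd : d ∈ R)
    (h : ∀ n ∈ R, n ∣ a ∨ n ∣ b ∨ n ∣ c ∨ n ∣ d) (hab : ¬ a ∣ b) (hac : ¬ a ∣ c) (had : ¬ a ∣ d)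
    (hba : ¬ b ∣ a) (hbc : ¬ b ∣ c) (hbd : ¬ b ∣ d) (hca : ¬ c ∣ a) (hcb : ¬ c ∣ b) (hcd : ¬ c ∣ d)
    (hda : ¬ d ∣ a) (hdb : ¬ d ∣ b) (hdc : ¬ d ∣ c) :
    {n : ℕ | n ∈ R ∧ ∀ m ∈ R, n ∣ m → m = n} = ({a, b, c, d} : Set ℕ) := by
  ext n
  simp only [Set.mem_setOf_eq, Set.mem_insert_iff, Set.mem_singleton_iff]
  constructor
  · rintro ⟨hn, hmax⟩
    rcases h n hn with h1 | h1 | h1 | h1
    · exact Or.inl (hmax _ ha h1).symm
    · exact Or.inr (Or.inl (hmax _ hb h1).symm)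
    · exact Or.inr (Or.inr (Or.inl (hmax _ hc h1).symm))
    · exact Or.inr (Or.inr (Or.inr (hmax _ hd h1).symm))
  · rintro (rfl | rfl | rfl | rfl)
    · refine ⟨ha, fun m hm hdv => ?_⟩
      rcases h m hm with h1 | h1 | h1 | h1
      · exact Nat.dvd_antisymm h1 hdv
      · exact absurd (hdv.trans h1) hab
      · exact absurd (hdv.trans h1) hac
      · exact absurd (hdv.trans h1) had
    · refine ⟨hb, fun m hm hdv => ?_⟩
      rcases h m hm with h1 | h1 | h1 | h1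
      · exact absurd (hdv.trans h1) hba
      · exact Nat.dvd_antisymm h1 hdv
      · exact absurd (hdv.trans h1) hbc
      · exact absurd (hdv.trans h1) hbd
    · refine ⟨hc, fun m hm hdv => ?_⟩
      rcases h m hm with h1 | h1 | h1 | h1
      · exact absurd (hdv.trans h1) hca
      · exact absurd (hdv.trans h1) hcb
      · exact Nat.dvd_antisymm h1 hdv
      · exact absurd (hdv.trans h1) hcd
    · refine ⟨hd, fun m hm hdv => ?_⟩
      rcases h m hm with h1 | h1 | h1 | h1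
      · exact absurd (hdv.trans h1) hda
      · exact absurd (hdv.trans h1) hdb
      · exact absurd (hdv.trans h1) hdc
      · exact Nat.dvd_antisymm h1 hdv

theorem q_mod {α : ℕ} (hα : 3 ≤ α) (hodd : Odd α) : (3 ^ α) % 4 = 3 ∧ 27 ≤ 3 ^ α ∧ 3 ∣ 3 ^ α := by
  refine ⟨?_, ?_, dvd_pow_self 3 (by omega)⟩
  · obtain ⟨k, rfl⟩ := hodd
    rw [pow_succ, pow_mul, Nat.mul_mod, Nat.pow_mod]
    norm_num
  · calc 27 = 3 ^ 3 := by norm_num
      _ ≤ 3 ^ α := Nat.pow_le_pow_right (by norm_num) hα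

theorem final (hq : Fintype.card F % 4 = 3) (hq3 : 27 ≤ Fintype.card F) (h3 : 3 ∣ Fintype.card F) :
    (∃ P : Subgroup (grp F), P.Normal ∧ P ≠ ⊥ ∧ IsPGroup 3 ↥P) ∧
      {n : ℕ | n ∈ Set.range (orderOf : grp F → ℕ) ∧ ∀ m ∈ Set.range (orderOf : grp F → ℕ), n ∣ m → m = n} =
        ({6, 9, Fintype.card F - 1, (Fintype.card F + 1) / 2} : Set ℕ) := by
  have hmem : ∀ n : ℕ, (∃ σ ∈ grp F, orderOf σ = n) → n ∈ Set.range (orderOf : grp F → ℕ) := by
    rintro n ⟨σ, hσ, h⟩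
    exact ⟨⟨σ, hσ⟩, by rw [← h, ← Subgroup.orderOf_coe]⟩
  refine ⟨⟨(trans F).subgroupOf (grp F), ⟨fun n hn g => ?_⟩, ?_, ?_⟩, ?_⟩
  · rw [Subgroup.mem_subgroupOf] at hn ⊢
    exact trans_normal_aux g.2 hn
  · intro hbot
    have hone : (1 : F) * 1 = 1 := one_mul 1
    obtain ⟨τ, hτdef⟩ : ∃ τ, τ = mkAff (1 : F) 1 !![1, 0; 0, 0] hone det_one := ⟨_, rfl⟩
    have hτmem : τ ∈ grp F := by rw [hτdef]; exact mkAff_mem _ _ _ _ _
    have hact : ∀ X, τ X = X + !![1, 0; 0, 0] := by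
      intro X
      rw [hτdef, (mkAff_aff _ _ _ _ _).2.2]
      simp
    have hτ : (⟨τ, hτmem⟩ : grp F) ∈ (trans F).subgroupOf (grp F) := by
      rw [Subgroup.mem_subgroupOf]
      exact ⟨!![1, 0; 0, 0], hact⟩
    rw [hbot, Subgroup.mem_bot] at hτ
    have h1 : τ = 1 := congrArg Subtype.val hτ
    have h4 := hact 0
    rw [h1] at h4
    have h5 := congrArg (fun M : Matrix (Fin 2) (Fin 2) F => M 0 0) h4
    simp at h5
  · rintro ⟨⟨σ, hσ⟩, hσ'⟩
    rw [Subgroup.mem_subgroupOf] at hσ'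
    obtain ⟨w, hw⟩ := hσ'
    refine ⟨1, ?_⟩
    apply Subtype.ext
    apply Subtype.ext
    exact trans_three hw
  · refine max_set (hmem _ ex_six) (hmem _ ex_nine) (hmem _ (ex_qm hq (by omega))) (hmem _ (ex_qp hq hq3)) ?_
      (by norm_num) ?_ ?_ (by norm_num) ?_ ?_ ?_ ?_ ?_ ?_ ?_ ?_
    · rintro n ⟨σ, rfl⟩
      rw [← Subgroup.orderOf_coe]
      exact main_order' hq σ.2
    · intro h; have := dvd_trans (by norm_num : 3 ∣ 6) h; omega
    · intro h; have := dvd_trans (by norm_num : 3 ∣ 6) h; omega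
    · intro h; have := dvd_trans (by norm_num : 3 ∣ 9) h; omega
    · intro h; have := dvd_trans (by norm_num : 3 ∣ 9) h; omega
    · intro h; have := Nat.le_of_dvd (by norm_num) h; omega
    · intro h; have := Nat.le_of_dvd (by norm_num) h; omega
    · intro h; have := Nat.le_of_dvd (by omega) h; omega
    · intro h; have := Nat.le_of_dvd (by norm_num) h; omega
    · intro h; have := Nat.le_of_dvd (by norm_num) h; omega
    · intro h1
      have h2 : (Fintype.card F + 1) / 2 ∣ Fintype.card F + 1 := ⟨2, by omega⟩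
      have h3 : (Fintype.card F + 1) / 2 ∣ (Fintype.card F + 1) - (Fintype.card F - 1) := Nat.dvd_sub h2 h1
      have h4 := Nat.le_of_dvd (by omega) h3
      omega

end H85.TwistMod
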